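import Cfsg.Agent.Lib.Rk3.Abs

/-!
Subgroups of the two dimensional linear group all of whose point stabilisers have a large torus.
-/

set_option autoImplicit false

namespace Cfsg.Agent.Rk3

open Finset

variable {F : Type*} [Field F] {Γ : Type*} [Group Γ] (ρ : Γ →* Module.End F (F × F))

/-- the determinant of two vectors -/
def dt (v w : F × F) : F := v.1 * w.2 - v.2 * w.1

theorem dt_map (g : Module.End F (F × F)) (v w : F × F) :
    dt (g v) (g w) = dt (g (1, 0)) (g (0, 1)) * dt v w := by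
  have h : ∀ v : F × F, g v = v.1 • g (1, 0) + v.2 • g (0, 1) := fun v => by
    rw [← map_smul, ← map_smul, ← map_add]; simp
  rw [h v, h w]; simp [dt]; ring

theorem dt_decomp {a b : F × F} (h : dt a b ≠ 0) (v : F × F) :
    v = (dt v b / dt a b) • a + (dt a v / dt a b) • b := by
  ext <;> simp only [Prod.fst_add, Prod.snd_add, Prod.smul_fst, Prod.smul_snd, smul_eq_mul] <;>
    field_simp <;> simp only [dt] <;> ring

theorem exists_dt {a : F × F} (h : a ≠ 0) : ∃ b, dt a b ≠ 0 := by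
  by_contra hc
  push Not at hc
  have h1 := hc (1, 0)
  have h2 := hc (0, 1)
  simp [dt] at h1 h2
  exact h (Prod.ext h2 h1)

theorem rho_inv (g : Γ) (v : F × F) : ρ g⁻¹ (ρ g v) = v := by
  rw [← Module.End.mul_apply, ← map_mul, inv_mul_cancel, map_one, Module.End.one_apply]

theorem rho_inv' (g : Γ) (v : F × F) : ρ g (ρ g⁻¹ v) = v := by
  simpa using rho_inv ρ g⁻¹ v

theorem rho_mul (g h : Γ) (v : F × F) : ρ (g * h) v = ρ g (ρ h v) := by
  rw [map_mul, Module.End.mul_apply]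

theorem rho_det (g : Γ) : dt (ρ g (1, 0)) (ρ g (0, 1)) ≠ 0 := fun h => by
  have := dt_map (ρ g) (ρ g⁻¹ (1, 0)) (ρ g⁻¹ (0, 1))
  rw [rho_inv', rho_inv', h, zero_mul] at this
  simp [dt] at this

theorem rho_ne {g : Γ} {a : F × F} {l : F} (ha : a ≠ 0) (h : ρ g a = l • a) : l ≠ 0 := by
  rintro rfl
  exact ha (by rw [← rho_inv ρ g a, h, zero_smul, map_zero])

theorem rho_inv_eig {g : Γ} {a : F × F} {l : F} (hl : l ≠ 0) (h : ρ g a = l • a) :
    ρ g⁻¹ a = l⁻¹ • a := by
  rw [eq_inv_smul_iff₀ hl, ← map_smul, ← h, rho_inv]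

/-- parameters of the unipotent elements -/
def Un (d : F × F) : AddSubgroup F where
  carrier := {s | ∃ g, ∃ l : F, l ≠ 0 ∧ ∀ v, ρ g v = l • (v + (s * dt v d) • d)}
  zero_mem' := ⟨1, 1, one_ne_zero, fun v => by simp⟩
  add_mem' := fun {s t} ⟨g, l, hl, h⟩ ⟨g', l', hl', h'⟩ => ⟨g * g', l * l', mul_ne_zero hl hl',
    fun v => by
      rw [rho_mul, h', h]
      ext <;> simp [dt] <;> ring⟩
  neg_mem' := fun {s} ⟨g, l, hl, h⟩ => ⟨g⁻¹, l⁻¹, inv_ne_zero hl, fun v => by
    have : ρ g (l⁻¹ • (v + (-s * dt v d) • d)) = v := by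
      rw [h]
      ext <;> simp [dt] <;> field_simp <;> ring
    conv_lhs => rw [← this, rho_inv]⟩

variable {ρ}

theorem Un_map {d : F × F} {s : F} (h : s ∈ Un ρ d) (k : Γ) :
    s / dt (ρ k (1, 0)) (ρ k (0, 1)) ∈ Un ρ (ρ k d) := by
  obtain ⟨g, l, hl, h⟩ := h
  refine ⟨k * g * k⁻¹, l, hl, fun v => ?_⟩
  have h1 := dt_map (ρ k) (ρ k⁻¹ v) d
  rw [rho_inv'] at h1
  rw [rho_mul, rho_mul, h, map_smul, map_add, map_smul, rho_inv', h1, ← mul_assoc,
    div_mul_cancel₀ _ (rho_det ρ k)]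

theorem Un_smul {d : F × F} {s : F} (c : F) (h : s ∈ Un ρ (c • d)) : s * c ^ 2 ∈ Un ρ d := by
  obtain ⟨g, l, hl, h⟩ := h
  refine ⟨g, l, hl, fun v => ?_⟩
  rw [h]
  ext <;> simp [dt] <;> exact Or.inl (by ring)

theorem mem_Un {a b : F × F} (h : dt a b ≠ 0) {g : Γ} {c : F} (h1 : ρ g a = a)
    (h2 : ρ g b = b + c • a) : c / dt b a ∈ Un ρ a := by
  refine ⟨g, 1, one_ne_zero, fun v => ?_⟩
  have h3 : dt b a = -dt a b := by simp [dt]; ring
  have h4 : dt v a = -dt a v := by simp [dt]; ring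
  conv_lhs => rw [dt_decomp h v, map_add, map_smul, map_smul, h1, h2]
  conv_rhs => enter [2, 1]; rw [dt_decomp h v]
  rw [h3, h4, smul_add, one_smul, add_assoc, smul_smul]
  congr 3; field_simp

theorem eq_zero_of_Un {a b : F × F} (hU : Un ρ a = ⊥) (h : dt a b ≠ 0) {g k : Γ} {l m l' m' c : F}
    (h1 : ρ g a = l • a) (h2 : ρ g b = m • b) (hlm : l ≠ m) (h3 : ρ k a = l' • a)
    (h4 : ρ k b = m' • b + c • a) : c = 0 := by
  have ha : a ≠ 0 := by rintro rfl; simp [dt] at h
  have hb : b ≠ 0 := by rintro rfl; simp [dt] at h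
  have hl := rho_ne ρ ha h1
  have hl' := rho_ne ρ ha h3
  have h5 : ρ (g * k) a = (l * l') • a := by rw [rho_mul, h3, map_smul, h1, smul_smul, mul_comm]
  have h6 := rho_inv_eig ρ (mul_ne_zero hl hl') h5
  have := mem_Un (ρ := ρ) h (g := (g * k)⁻¹ * (k * g)) (c := (m - l) * c / (l * l'))
    (by rw [rho_mul, rho_mul ρ k, h1, map_smul, h3, smul_smul, ← h5, rho_inv])
    (by
      have e : ρ (k * g) b = ρ (g * k) b + ((m - l) * c) • a := by
        rw [rho_mul, rho_mul, h2, h4, map_smul, map_add, map_smul, map_smul, h4, h2, h1]; module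
      rw [rho_mul, e, map_add, rho_inv, map_smul, h6, smul_smul, div_eq_mul_inv])
  have h7 : dt b a ≠ 0 := fun e => h (by simp [dt] at e ⊢; linear_combination -e)
  rw [hU, AddSubgroup.mem_bot] at this
  simpa [h7, hl, hl', sub_ne_zero.2 hlm.symm] using this

variable (ρ) in
/-- pairs of fixed points -/
def Pair (e : ℕ) (a b : F × F) : Prop :=
  dt a b ≠ 0 ∧ ∀ y : F, y ≠ 0 → ∃ g, ∃ l : F, ρ g a = l • a ∧ ρ g b = (l * y ^ e) • b

namespace Pair

variable {e : ℕ} {a b : F × F}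

theorem map (h : Pair ρ e a b) (k : Γ) : Pair ρ e (ρ k a) (ρ k b) :=
  ⟨by rw [dt_map]; exact mul_ne_zero (rho_det ρ k) h.1, fun y hy => by
    obtain ⟨g, l, h1, h2⟩ := h.2 y hy
    exact ⟨k * g * k⁻¹, l, by rw [rho_mul, rho_mul, rho_inv, h1, map_smul],
      by rw [rho_mul, rho_mul, rho_inv, h2, map_smul]⟩⟩

theorem smul (h : Pair ρ e a b) {s t : F} (hs : s ≠ 0) (ht : t ≠ 0) : Pair ρ e (s • a) (t • b) :=
  ⟨by rw [show dt (s • a) (t • b) = s * t * dt a b by simp [dt]; ring]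
      exact mul_ne_zero (mul_ne_zero hs ht) h.1, fun y hy => by
    obtain ⟨g, l, h1, h2⟩ := h.2 y hy
    exact ⟨g, l, by rw [map_smul, h1, smul_comm], by rw [map_smul, h2, smul_comm]⟩⟩

theorem symm (h : Pair ρ e a b) : Pair ρ e b a :=
  ⟨fun e => h.1 (by simp [dt] at e ⊢; linear_combination -e), fun y hy => by
    obtain ⟨g, l, h1, h2⟩ := h.2 y⁻¹ (inv_ne_zero hy)
    exact ⟨g, _, h2, by rw [h1, inv_pow]; congr 1; field_simp⟩⟩

theorem unique (hU : Un ρ a = ⊥) (hy : ∃ y : F, y ≠ 0 ∧ y ^ e ≠ 1) (h : Pair ρ e a b) {b' : F × F}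
    (h' : Pair ρ e a b') : dt b' b = 0 := by
  obtain ⟨y, hy0, hy⟩ := hy
  have ha : a ≠ 0 := by rintro rfl; simpa [dt] using h.1
  obtain ⟨g, l, h1, h2⟩ := h.2 y hy0
  obtain ⟨g', l', h1', h2'⟩ := h'.2 y hy0
  have hl := rho_ne ρ ha h1
  have hl' := rho_ne ρ ha h1'
  have := eq_zero_of_Un hU h'.1 h1' h2' (fun e => hy (mul_left_cancel₀ hl' (by rw [← e, mul_one])))
    h1 (m' := l * y ^ e) (c := dt b' b / dt a b * (l - l * y ^ e)) (by
      conv_lhs => rw [dt_decomp h.1 b', map_add, map_smul, map_smul, h1, h2]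
      conv_rhs => enter [1, 2]; rw [dt_decomp h.1 b']
      module)
  have h3 : l - l * y ^ e ≠ 0 := fun e => hy (mul_left_cancel₀ hl (by linear_combination -e))
  simpa [h3, h.1] using this

end Pair

theorem exists_pair {e : ℕ} {a : F × F} (hU : Un ρ a = ⊥) (hy : ∃ y : F, y ≠ 0 ∧ y ^ e ≠ 1)
    (ha : a ≠ 0) (H : ∀ y : F, y ≠ 0 → ∃ g, ∃ l : F, ρ g a = l • a ∧
      ∀ v, ∃ c : F, ρ g v = (l * y ^ e) • v + c • a) : ∃ b, Pair ρ e a b := by
  obtain ⟨y, hy0, hy⟩ := hy
  obtain ⟨v, hv⟩ := exists_dt ha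
  obtain ⟨g, l, h1, h2⟩ := H y hy0
  obtain ⟨c, hc⟩ := h2 v
  have hl := rho_ne ρ ha h1
  have h3 : l * y ^ e - l ≠ 0 := fun e => hy (mul_left_cancel₀ hl (by linear_combination e))
  have h4 : dt a (v + (c / (l * y ^ e - l)) • a) ≠ 0 := by
    rwa [show dt a (v + (c / (l * y ^ e - l)) • a) = dt a v by simp [dt]; ring]
  have h5 : ρ g (v + (c / (l * y ^ e - l)) • a) = (l * y ^ e) • (v + (c / (l * y ^ e - l)) • a) := by
    rw [map_add, map_smul, hc, h1, smul_add, smul_smul, smul_smul, add_assoc, ← add_smul]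
    congr 2; field_simp; ring
  refine ⟨_, h4, fun z hz => ?_⟩
  obtain ⟨k, l', h6, h7⟩ := H z hz
  obtain ⟨c', h8⟩ := h7 (v + (c / (l * y ^ e - l)) • a)
  refine ⟨k, l', h6, ?_⟩
  rw [h8, eq_zero_of_Un hU h4 h1 h5 (sub_ne_zero.1 h3).symm h6 h8, zero_smul, add_zero]

variable [Finite F] {q : ℕ}

theorem card_units (hF : Nat.card F = q ^ 2) : Nat.card Fˣ = q ^ 2 - 1 := by
  rw [Nat.card_units, hF]

theorem exists_pow_ne (hF : Nat.card F = q ^ 2) {k : ℕ} (hk : ¬ q ^ 2 - 1 ∣ k) :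
    ∃ y : F, y ≠ 0 ∧ y ^ k ≠ 1 := by
  obtain ⟨y, hy⟩ := IsCyclic.exists_ofOrder_eq_natCard (α := Fˣ)
  refine ⟨y, y.ne_zero, fun h => hk ?_⟩
  rw [← card_units hF, ← hy, orderOf_dvd_iff_pow_eq_one]
  exact Units.ext (by simpa using h)

theorem card_range_pow (hF : Nat.card F = q ^ 2) (e : ℕ) :
    Nat.card (powMonoidHom e : Fˣ →* Fˣ).range * (q ^ 2 - 1).gcd e = q ^ 2 - 1 := by
  rw [← card_units hF, ← IsCyclic.index_powMonoidHom_range, Subgroup.card_mul_index]

theorem subring_eq_top_of_pow (hF : Nat.card F = q ^ 2) {e : ℕ}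
    (he : q * (q ^ 2 - 1).gcd e ≤ q ^ 2 - 1) (R : Subring F) (h : ∀ y : F, y ≠ 0 → y ^ e ∈ R) :
    R = ⊤ := by
  refine subring_eq_top hF R ?_
  have h1 := card_range_pow hF e
  have h2 : Nat.card (Option (powMonoidHom e : Fˣ →* Fˣ).range) ≤ Nat.card R :=
    Nat.card_le_card_of_injective (fun o => o.elim 0 fun x => ⟨x.1, by
      obtain ⟨_, y, rfl⟩ := x
      simpa using h y y.ne_zero⟩) (by
      rintro (_ | x) (_ | y) h
      · rfl
      · exact absurd (congrArg Subtype.val h).symm y.1.ne_zero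
      · exact absurd (congrArg Subtype.val h) x.1.ne_zero
      · exact congrArg some (Subtype.ext (Units.ext (congrArg Subtype.val h))))
  rw [Finite.card_option] at h2
  have h3 : 0 < q ^ 2 - 1 := by rw [← card_units hF]; exact Nat.card_pos
  have h4 : 0 < (q ^ 2 - 1).gcd e := Nat.gcd_pos_of_pos_left _ h3
  have := Nat.le_of_mul_le_mul_right (he.trans_eq h1.symm) h4
  omega

theorem gcd_le_aux {e : ℕ} (hq : 3 ≤ q) (he : e = 2 ∨ e = 3) :
    q * (q ^ 2 - 1).gcd e ≤ q ^ 2 - 1 := by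
  rcases hq.eq_or_lt with rfl | h
  · rcases he with rfl | rfl <;> norm_num
  · have h1 : (q ^ 2 - 1).gcd e ≤ 3 := (Nat.gcd_le_right _ (by omega)).trans (by omega)
    have h2 : q * 3 + 1 ≤ q ^ 2 := by nlinarith
    have := Nat.mul_le_mul_left q h1
    omega

set_option maxHeartbeats 1000000 in
theorem not_all_pair (hF : Nat.card F = q ^ 2) (hq : 3 ≤ q) {e : ℕ} (he : e = 2 ∨ e = 3)
    (hU : ∀ a, a ≠ 0 → Un ρ a = ⊥) (H : ∀ a, a ≠ 0 → ∃ b, Pair ρ e a b) (H0 : Pair ρ e (1, 0) (0, 1)) :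
    False := by
  classical
  have h9 : 9 ≤ q ^ 2 := by nlinarith
  have hy2 := exists_pow_ne hF (k := e * 2) fun h => by have := Nat.le_of_dvd (by omega) h; omega
  have hy : ∃ y : F, y ≠ 0 ∧ y ^ e ≠ 1 :=
    let ⟨y, h1, h2⟩ := hy2; ⟨y, h1, fun h => h2 (by rw [pow_mul, h, one_pow])⟩
  have uq := fun {a b b' : F × F} (h : Pair ρ e a b) (h' : Pair ρ e a b') => h.unique (hU a fun h0 => by simpa [h0, dt] using h.1) hy h'
  have h1 : ∀ x : Fˣ, ∃ f : Fˣ, f ≠ 1 ∧ Pair ρ e (x, 1) (x * f, 1) := fun x => by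
    obtain ⟨⟨b, c⟩, hb⟩ := H (x, 1) (by simp)
    have hc : c ≠ 0 := by
      rintro rfl
      have hb0 : b ≠ 0 := by rintro rfl; simpa [dt] using hb.1
      have := uq H0 (by simpa [hb0] using hb.symm.smul (inv_ne_zero hb0) one_ne_zero)
      simp [dt] at this
    have hb0 : b ≠ 0 := by
      rintro rfl
      have := uq H0.symm (by simpa [hc] using hb.symm.smul (inv_ne_zero hc) one_ne_zero)
      simp [dt] at this
    have h2 : Pair ρ e (x, 1) (x * (b / c / x), 1) := by
      convert hb.smul one_ne_zero (inv_ne_zero hc) using 1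
      · simp
      · ext <;> simp <;> field_simp
    refine ⟨Units.mk0 (b / c / x) (by simp [hb0, hc]), fun h => ?_, h2⟩
    have h3 : b / c / x = 1 := congrArg Units.val h
    simpa [h3, dt] using h2.1
  choose f hf1 hf using h1
  have hfu : ∀ (x : Fˣ) (u w : F), Pair ρ e (x, 1) (u, w) → u = x * f x * w := fun x u w h => by
    have := uq (hf x) h
    simp only [dt] at this
    linear_combination this
  have hfu' : ∀ u1 u2 w1 w2 : F, ∀ (h1 : u1 ≠ 0) (h2 : u2 ≠ 0), Pair ρ e (u1, u2) (w1, w2) →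
      w1 * u2 = u1 * f (Units.mk0 (u1 / u2) (div_ne_zero h1 h2)) * w2 := fun u1 u2 w1 w2 h1 h2 h => by
    have := hfu (Units.mk0 (u1 / u2) (div_ne_zero h1 h2)) w1 w2 (by
      convert h.smul (inv_ne_zero h2) one_ne_zero using 1
      · ext <;> simp <;> field_simp
      · simp)
    rw [this, Units.val_mk0]; field_simp
  have hinv : ∀ x, f (x * f x) = (f x)⁻¹ := fun x => by
    have := hfu (x * f x) x 1 (hf x).symm
    rw [mul_one, Units.val_mul, mul_assoc, ← Units.val_mul, ← Units.val_mul, Units.val_inj] at this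
    exact eq_inv_of_mul_eq_one_right (mul_left_cancel (this.symm.trans (mul_one x).symm))
  have := Fintype.ofFinite F
  by_cases h2 : (2 : F) = 0
  · have h3 : ∑ _x : Fˣ, (1 : ZMod 2) = 0 :=
      sum_involution (fun x _ => x * f x) (fun _ _ => by decide)
        (fun x _ _ h => hf1 x (mul_left_cancel (h.trans (mul_one x).symm))) (fun _ _ => mem_univ _)
        fun x _ => by rw [hinv]; simp
    have h4 : ringChar F = 2 :=
      ringChar.eq_iff.2 ((CharP.charP_iff_prime_eq_zero Nat.prime_two).2 (by exact_mod_cast h2))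
    have h5 := FiniteField.even_card_of_char_two h4
    rw [sum_const, card_univ, nsmul_one, ZMod.natCast_eq_zero_iff, Fintype.card_units] at h3
    have := Fintype.one_lt_card (α := F)
    omega
  have him : ∀ (x : Fˣ) (y : F), y ≠ 0 → ∀ a b c d : F,
      Pair ρ e (a • ((x : F), (1 : F)) + b • ((x : F) * f x, (1 : F)))
        (c • ((x : F), (1 : F)) + d • ((x : F) * f x, (1 : F))) →
      Pair ρ e (a • ((x : F), (1 : F)) + (y ^ e * b) • ((x : F) * f x, (1 : F)))
        (c • ((x : F), (1 : F)) + (y ^ e * d) • ((x : F) * f x, (1 : F))) :=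
      fun x y hy0 a b c d h => by
    obtain ⟨g, l, e1, e2⟩ := (hf x).2 y hy0
    have hl := rho_ne ρ (by simp) e1
    have := (h.map g).smul (inv_ne_zero hl) (inv_ne_zero hl)
    simp only [map_add, map_smul, e1, e2, smul_add, smul_smul] at this
    convert this using 3 <;> field_simp
  by_cases h3 : ∀ x, (f x : F) = -1
  · obtain ⟨y, hy0, hy2⟩ := hy2
    rw [pow_mul] at hy2
    have hm1 : 1 + y ^ e ≠ 0 := fun h => hy2 (by linear_combination (y ^ e - 1) * h)
    have hm2 : 1 - y ^ e ≠ 0 := fun h => hy2 (by linear_combination -(y ^ e + 1) * h)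
    obtain ⟨z, hz⟩ : ∃ z : F, z ∉ ({0, 1, -1, (y ^ e - 1) / (1 + y ^ e),
        (-1 - y ^ e) / (1 - y ^ e)} : Finset F) := by
      by_contra hc
      push Not at hc
      have h4 := card_le_card (s := univ) fun z _ => hc z
      have h5 := h4.trans card_le_five
      rw [card_univ, ← Nat.card_eq_fintype_card] at h5
      omega
    simp only [mem_insert, mem_singleton, not_or] at hz
    obtain ⟨z0, z1, z2, z3, z4⟩ := hz
    have h4 := him 1 y hy0 ((1 + z) / 2) ((1 - z) / 2) ((1 - z) / 2) ((1 + z) / 2) (by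
      convert hf (Units.mk0 z z0) using 1 <;> ext <;> simp [h3] <;> field_simp <;> ring)
    simp only [h3, Units.val_one, Prod.smul_mk, Prod.mk_add_mk, smul_eq_mul] at h4
    have h5 := hfu' _ _ _ _ (fun h => z3 (by field_simp at h ⊢; linear_combination h))
      (fun h => z4 (by field_simp at h ⊢; linear_combination h)) h4
    rw [h3] at h5
    have h6 : (1 + z) * (1 - z) * (1 - (y ^ e) ^ 2) = 0 := by
      field_simp at h5
      apply mul_left_cancel₀ h2
      linear_combination h5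
    simp only [mul_eq_zero] at h6
    rcases h6 with (h | h) | h
    · exact z2 (by linear_combination h)
    · exact z1 (by linear_combination -h)
    · exact hy2 (by linear_combination -h)
  push Not at h3
  obtain ⟨x, hx⟩ := h3
  have hx1 : (1 : F) - f x ≠ 0 := fun h => hf1 x (Units.ext (by
    rw [Units.val_one]; linear_combination -h))
  let T := (powMonoidHom e : Fˣ →* Fˣ).range
  have hT : ∀ (z : Fˣ) (t : T), f (z * t) = f z := by
    rintro z ⟨_, y, rfl⟩
    obtain ⟨g, l, e1, e2⟩ := H0.symm.2 y y.ne_zero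
    have hl := rho_ne ρ (by simp) e2
    have hl' := left_ne_zero_of_mul hl
    have h4 : ∀ u : F, ρ g (u, 1) = l • (u * y ^ e, 1) := fun u => by
      rw [show ((u, 1) : F × F) = u • (1, 0) + (0, 1) by simp, map_add, map_smul, e1, e2]
      ext <;> simp; ring
    have h5 := ((hf z).map g).smul (inv_ne_zero hl') (inv_ne_zero hl')
    rw [h4, h4, inv_smul_smul₀ hl', inv_smul_smul₀ hl'] at h5
    have h6 := hfu (z * y ^ e) _ _ (by simpa using h5)
    apply Units.ext
    apply mul_left_cancel₀ (mul_ne_zero z.ne_zero (pow_ne_zero e y.ne_zero))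
    simp only [powMonoidHom_apply]
    simp only [Units.val_mul, Units.val_pow_eq_pow_val] at h6
    linear_combination -h6
  let V : Finset Fˣ := univ.image f
  have hV : V.card ≤ (q ^ 2 - 1).gcd e := by
    rw [← card_units hF, ← IsCyclic.index_powMonoidHom_range, Subgroup.index_eq_card,
      Nat.card_eq_fintype_card, ← card_univ]
    refine le_trans (card_le_card fun a ha => ?_)
      (card_image_le (f := fun c : Fˣ ⧸ T => f c.out))
    obtain ⟨z, -, rfl⟩ := mem_image.1 ha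
    obtain ⟨t, ht⟩ := QuotientGroup.mk_out_eq_mul T z
    exact mem_image.2 ⟨(z : Fˣ ⧸ T), mem_univ _, by rw [ht, hT]⟩
  have hR : ∀ t : T, t ≠ 1 → ∃ v ∈ V, ((t : Fˣ) : F) - f x ≠ 0 ∧ 1 - (t : Fˣ) * (f x : F) ≠ 0 ∧
      (v : F) * ((((t : Fˣ) : F) - f x) * (1 - (t : Fˣ) * (f x : F))) =
        -f x * (1 - ((t : Fˣ) : F)) ^ 2 := by
    rintro ⟨_, y, rfl⟩ ht
    have h4 : (1 : F) - y ^ e ≠ 0 := fun h => ht (Subtype.ext (Units.ext (by
      simp; linear_combination -h)))
    have h5 := him x y y.ne_zero 1 (-1) (-f x) 1 (by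
      convert H0.smul (mul_ne_zero x.ne_zero hx1) hx1 using 1 <;> ext <;> simp <;> ring)
    simp only [Prod.smul_mk, Prod.mk_add_mk, smul_eq_mul] at h5
    simp only [powMonoidHom_apply, Units.val_pow_eq_pow_val]
    have h6 : (y : F) ^ e - f x ≠ 0 ∧ 1 - (y : F) ^ e * f x ≠ 0 := by
      have hw : (x : F) * f x * (y ^ e - 1) ≠ 0 := mul_ne_zero (mul_ne_zero x.ne_zero (f x).ne_zero)
        fun h => h4 (by linear_combination -h)
      have a1 : (y : F) ^ e - f x = 0 → 1 - (y : F) ^ e * f x = 0 := fun h => by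
        have := uq H0 (b' := (1 * x + y ^ e * -1 * (x * f x), 1 * 1 + y ^ e * -1 * 1)) (by
          convert h5.symm.smul (inv_ne_zero hw) one_ne_zero using 1
          · rw [eq_inv_smul_iff₀ hw]
            ext
            · simp; ring
            · simp only [Prod.smul_mk, smul_eq_mul]; linear_combination -h
          · simp)
        simp only [dt] at this
        apply mul_left_cancel₀ x.ne_zero
        linear_combination this
      have a2 : 1 - (y : F) ^ e * f x = 0 → (y : F) ^ e - f x = 0 := fun h => by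
        have := uq H0.symm (b' := (-f x * x + y ^ e * 1 * (x * f x), -f x * 1 + y ^ e * 1 * 1)) (by
          convert h5.smul (inv_ne_zero h4) one_ne_zero using 1
          · rw [eq_inv_smul_iff₀ h4]
            ext
            · simp only [Prod.smul_mk, smul_eq_mul]; linear_combination -(x : F) * h
            · simp; ring
          · simp)
        simp only [dt] at this
        linear_combination -this
      have a3 : (y : F) ^ e - f x = 0 → 1 - (y : F) ^ e * f x = 0 → False := fun h h' =>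
        mul_ne_zero hx1 (fun h'' : 1 + (f x : F) = 0 => hx (by linear_combination h''))
          (by linear_combination h' + f x * h)
      exact ⟨fun h => a3 h (a1 h), fun h => a3 (a2 h) h⟩
    have h7 := hfu' _ _ _ _ (fun h => mul_ne_zero x.ne_zero h6.2 (by linear_combination h))
      (fun h => h4 (by linear_combination h)) h5
    generalize Units.mk0 (G₀ := F) _ _ = u at h7
    refine ⟨f u, mem_image_of_mem _ (mem_univ _), h6.1, h6.2, mul_left_cancel₀ x.ne_zero ?_⟩
    linear_combination -h7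
  choose! r hr1 hr2 hr3 hr4 using hR
  have h4 : (univ.erase (1 : T)).card ≤ 2 * V.card := by
    refine card_le_mul_card_image_of_maps_to (f := r) (fun t ht => hr1 t (ne_of_mem_erase ht)) 2
      fun v _ => ?_
    rcases (filter (fun t => r t = v) (univ.erase (1 : T))).eq_empty_or_nonempty with h | ⟨t, ht⟩
    · simp [h]
    refine le_trans (card_le_card (t := {t, t⁻¹}) fun u hu => ?_) card_le_two
    obtain ⟨t1, t2⟩ := mem_filter.1 ht
    obtain ⟨u1, u2⟩ := mem_filter.1 hu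
    have t3 := hr4 t (ne_of_mem_erase t1)
    have u3 := hr4 u (ne_of_mem_erase u1)
    rw [t2] at t3
    rw [u2] at u3
    have h5 : (f x : F) * (1 - f x) ^ 2 * ((((u : Fˣ) : F) - (t : Fˣ)) *
        (1 - ((t : Fˣ) : F) * (u : Fˣ))) = 0 := by
      linear_combination (((((u : Fˣ) : F) - f x) * (1 - (u : Fˣ) * (f x : F)))) * t3 -
        (((((t : Fˣ) : F) - f x) * (1 - (t : Fˣ) * (f x : F)))) * u3
    rcases mul_eq_zero.1 ((mul_eq_zero.1 h5).resolve_left
      (mul_ne_zero (f x).ne_zero (pow_ne_zero _ hx1))) with h | h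
    · simp [Subtype.ext (Units.ext (sub_eq_zero.1 h))]
    · have : t * u = 1 := Subtype.ext (Units.ext (by simp; linear_combination -h))
      simp [eq_inv_of_mul_eq_one_right this]
  rw [card_erase_of_mem (mem_univ _), card_univ, ← Nat.card_eq_fintype_card] at h4
  have h5 := card_range_pow hF e
  have h6 : (q ^ 2 - 1).gcd e ∣ e := Nat.gcd_dvd_right _ _
  have h7 : (q ^ 2 - 1).gcd e ≤ 3 := (Nat.le_of_dvd (by omega) h6).trans (by omega)
  have h8 : q ^ 2 % 2 = 1 := by
    rw [← hF, Nat.card_eq_fintype_card]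
    exact FiniteField.odd_card_of_char_ne_two fun h => h2 (by
      have := (ringChar.spec F 2).2 (by rw [h]); exact_mod_cast this)
  change Nat.card T * _ = _ at h5
  have hq3 : q = 3 := by
    have : q ^ 2 ≤ 22 := by
      generalize (q ^ 2 - 1).gcd e = d at *
      have : Nat.card T ≤ 7 := by omega
      have := Nat.mul_le_mul this h7
      omega
    have h10 : q < 5 := by nlinarith
    interval_cases q <;> simp_all
  subst hq3
  obtain rfl : e = 2 := by
    rcases he with h | rfl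
    · exact h
    · norm_num [-Nat.card_eq_fintype_card] at h5 hV; omega
  have hV2 : V.card ≤ 2 := by simpa using hV
  have h3 : (3 : F) = 0 := by
    have := FiniteField.cast_card_eq_zero F
    rw [← Nat.card_eq_fintype_card, hF, Nat.cast_pow] at this
    exact_mod_cast pow_eq_zero_iff two_ne_zero |>.1 this
  obtain ⟨i, hi⟩ : IsSquare (-1 : F) := by
    rw [FiniteField.isSquare_neg_one_iff, ← Nat.card_eq_fintype_card, hF]; norm_num
  have hi0 : i ≠ 0 := by rintro rfl; simp at hi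
  let t : T := ⟨-1, Units.mk0 i hi0, Units.ext (by simp [sq, hi])⟩
  have ht : t ≠ 1 := fun h => h2 (by
    have : (-1 : F) = 1 := congrArg (fun z : T => ((z : Fˣ) : F)) h
    linear_combination -this)
  have hne : f x ≠ (f x)⁻¹ := fun h => by
    have : (f x : F) * f x = 1 := by
      rw [← Units.val_mul]; nth_rw 1 [h]; simp
    exact mul_ne_zero hx1 (fun h'' : 1 + (f x : F) = 0 => hx (by linear_combination h''))
      (by linear_combination -this)
  have hVe : ({f x, (f x)⁻¹} : Finset Fˣ) = V := eq_of_subset_of_card_le (by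
    intro a ha
    rcases mem_insert.1 ha with rfl | ha
    · exact mem_image_of_mem _ (mem_univ _)
    · rw [mem_singleton.1 ha, ← hinv]; exact mem_image_of_mem _ (mem_univ _))
    (by rwa [card_pair hne])
  have h10 := hr1 t ht
  have h11 := hr4 t ht
  rw [← hVe] at h10
  have h12 : ((t : Fˣ) : F) = -1 := rfl
  rw [h12] at h11
  have h13 := (f x).ne_zero
  rcases mem_insert.1 h10 with h | h
  · rw [h] at h11
    exact mul_ne_zero (mul_ne_zero h13 h13) hx1 (by linear_combination h11 + (f x * (f x - 1)) * h3)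
  · rw [mem_singleton.1 h, Units.val_inv_eq_inv_val] at h11
    field_simp at h11
    exact hx1 (by linear_combination -h11 + (-(f x : F) + f x ^ 2) * h3)

theorem panel (hF : Nat.card F = q ^ 2) (hq : 3 ≤ q) {e : ℕ} (he : e = 2 ∨ e = 3)
    (H : ∀ a, a ≠ 0 → ∀ y : F, y ≠ 0 → ∃ g, ∃ l : F, ρ g a = l • a ∧
      ∀ v, ∃ c : F, ρ g v = (l * y ^ e) • v + c • a) (H0 : Pair ρ e (1, 0) (0, 1)) :
    Un ρ (1, 0) ≠ ⊥ ∨ Un ρ (0, 1) ≠ ⊥ := by
  have h9 : 9 ≤ q ^ 2 := by nlinarith
  have hy := exists_pow_ne hF (k := e) fun h => by have := Nat.le_of_dvd (by omega) h; omega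
  by_contra hc
  push Not at hc
  suffices hU : ∀ a, a ≠ 0 → Un ρ a = ⊥ from
    not_all_pair hF hq he hU (fun a ha => exists_pair (hU a ha) hy ha (H a ha)) H0
  intro a ha
  by_contra h1
  obtain ⟨⟨s, hs⟩, hs0⟩ := AddSubgroup.ne_bot_iff_exists_ne_zero.1 h1
  replace hs0 : s ≠ 0 := fun h => hs0 (Subtype.ext h)
  have key : ∀ (d : F × F) (c t : F), Un ρ d = ⊥ → c ≠ 0 → t ∈ Un ρ (c • d) → t = 0 :=
    fun d c t h hc ht => by simpa [h, hc] using Un_smul c ht
  have htop : ∀ a : F × F, a ≠ 0 → ∀ s ∈ Un ρ a, ∀ c : F, c * s ∈ Un ρ a := fun a ha s hs c => by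
    have := subring_eq_top_of_pow hF (gcd_le_aux hq he) (scal F (Un ρ a)) fun y hy t ht => by
      obtain ⟨g, l, e1, e2⟩ := H a ha y⁻¹ (inv_ne_zero hy)
      obtain ⟨b, hb⟩ := exists_dt ha
      obtain ⟨c, e3⟩ := e2 b
      have hl := rho_ne ρ ha e1
      have h2 := dt_map (ρ g) a b
      rw [e1, e3] at h2
      have h3 : dt (ρ g (1, 0)) (ρ g (0, 1)) = l ^ 2 * y⁻¹ ^ e := by
        apply mul_right_cancel₀ hb
        rw [← h2]; simp [dt]; ring
      have h4 := Un_map ht g
      rw [e1] at h4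
      have h5 := Un_smul l h4
      rw [h3, inv_pow] at h5
      convert h5 using 1
      rw [smul_eq_mul]; field_simp
    exact (this.ge (Subring.mem_top c) : c ∈ scal F (Un ρ a)) s hs
  have ha1 : a.1 ≠ 0 := fun h => hs0 (key (0, 1) a.2 s hc.2
    (fun h' => ha (Prod.ext h h')) (by convert hs; ext <;> simp [h]))
  have ha2 : a.2 ≠ 0 := fun h => hs0 (key (1, 0) a.1 s hc.1 ha1 (by convert hs; ext <;> simp [h]))
  obtain ⟨y, hy0, hy⟩ := hy
  obtain ⟨g, l, e1, e2⟩ := H0.2 y hy0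
  have hl := rho_ne ρ (by simp) e1
  have h2 : ρ g a = (l * a.1, l * y ^ e * a.2) := by
    conv_lhs => rw [show a = a.1 • (1, 0) + a.2 • (0, 1) by simp, map_add, map_smul, map_smul, e1, e2]
    ext <;> simp <;> ring
  have h3 : dt a (ρ g a) ≠ 0 := by
    rw [h2, show dt a (l * a.1, l * y ^ e * a.2) = l * a.1 * a.2 * (y ^ e - 1) by simp [dt]; ring]
    exact mul_ne_zero (mul_ne_zero (mul_ne_zero hl ha1) ha2) (sub_ne_zero.2 hy)
  have h4 := div_ne_zero hs0 (rho_det ρ g)
  have h5 := htop _ (by rw [h2]; simp [hl, ha1]) _ (Un_map hs g)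
    (-(l * y ^ e * dt a (ρ g a))⁻¹ / (s / dt (ρ g (1, 0)) (ρ g (0, 1))))
  rw [div_mul_cancel₀ _ h4] at h5
  obtain ⟨k, l', hl', h6⟩ := h5
  have h7 := Un_map hs k
  have h8 : (ρ k a).2 = 0 := by
    rw [h6]
    generalize dt a (ρ g a) = D at h3
    simp [h2, hl']; field_simp; ring
  have h9 : (ρ k a).1 ≠ 0 := fun h => ha (by
    rw [← rho_inv ρ k a, show ρ k a = 0 from Prod.ext h h8, map_zero])
  exact div_ne_zero hs0 (rho_det ρ k) (key (1, 0) (ρ k a).1 _ hc.1 h9
    (by convert h7; ext <;> simp [h8]))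

end Cfsg.Agent.Rk3
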