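import Cfsg.Agent.Lib.Rk3.Chars
import Cfsg.Agent.Lib.Rk3.Panel

/-!
Combinatorics of the characters of the torus.
-/

set_option autoImplicit false

namespace Cfsg.Agent.Rk3

open Cfsg.Agent.Forms Cfsg.Agent.Forms.Form MulAction

variable {F : Type*} [Field F] [Fintype F] {q n : ℕ} (hF : Fintype.card F = q ^ 2)

/-- indices in different planes -/
def DP (a b : Fin n) : Prop := a ≠ b ∧ a ≠ b.rev

theorem DP.symm {a b : Fin n} (h : DP a b) : DP b a :=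
  ⟨h.1.symm, fun e => h.2 (by rw [e, Fin.rev_rev])⟩

theorem DP.rev {a b : Fin n} (h : DP a b) : DP a.rev b :=
  ⟨fun e => h.2 (by rw [← e, Fin.rev_rev]), fun e => h.1 (Fin.rev_injective e)⟩

theorem DP.of_not {a b c : Fin n} (h : DP a b) (h' : ¬ DP c a) : DP c b := by
  by_cases e : c = a
  · rwa [e]
  · rw [show c = a.rev from not_not.1 fun e' => h' ⟨e, e'⟩]; exact h.rev

theorem DP.map {a b : Fin n} (h : DP a b) {π : Equiv.Perm (Fin n)} (hπ : π ∈ Wy n) :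
    DP (π a) (π b) := ⟨π.injective.ne h.1, hπ b ▸ π.injective.ne h.2⟩

theorem DP.tv {i a : Fin n} (h : DP i a) (x : Fˣ) : tv q a x i = 1 := tv_of_ne h.1 h.2 x

/-- three different planes -/
structure Tri (a b c : Fin n) : Prop where
  na : a ≠ a.rev
  nb : b ≠ b.rev
  nc : c ≠ c.rev
  ab : DP a b
  ac : DP a c
  bc : DP b c

/-- test elements -/
def T2 (a b : Fin n) : Fˣ →* Tor F q n :=
  (tv q a * (tv q b)⁻¹ : Fˣ →* (Fin n → Fˣ)).codRestrict _ fun x => by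
    simpa using tv_mul_mem hF a b x

theorem T2_apply (a b : Fin n) (x : Fˣ) (i : Fin n) :
    (T2 hF a b x).1 i = tv q a x i * (tv q b x i)⁻¹ := rfl

theorem tv_cases {a i : Fin n} (h : a ≠ a.rev) (h' : ¬ DP i a) (x : Fˣ) :
    tv q a x i = x ∨ tv q a x i = (x ^ q)⁻¹ := by
  by_cases e : i = a
  · exact Or.inl (by rw [e, tv_self h])
  · exact Or.inr (by rw [show i = a.rev from not_not.1 fun e' => h' ⟨e, e'⟩, tv_rev h])

/-- evaluation -/
def ev (i : Fin n) : Tor F q n →* Fˣ := (Pi.evalMonoidHom (fun _ => Fˣ) i).comp (Tor F q n).subtype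

/-- roots -/
def rt (c a : Fin n) : Tor F q n →* Fˣ := ev c / ev a

theorem rt_apply (c a : Fin n) (t : Tor F q n) : rt c a t = t.1 c / t.1 a := rfl

theorem ev_apply (i : Fin n) (t : Tor F q n) : ev i t = t.1 i := rfl

theorem Rel.pow_eq {θ η : Tor F q n →* ℂˣ} (h : Rel θ η) {k : ℕ} (e : ∀ t, η t ^ k = 1)
    (t : Tor F q n) : θ t ^ k = 1 := by
  obtain ⟨π, h, e'⟩ := h
  rw [e', e]

section

variable {hF} {Y : Type*} [MulAction (AF n hF).Isom Y]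

theorem exists_prime (h : ∀ a b : Tor F q n →* ℂˣ, Occ hF Y a → Occ hF Y b → Rel a b) :
    ∃ l : ℕ, l.Prime ∧ ∀ (ω : Y) t, t ^ l ∈ St n hF ω := by
  suffices ∃ l : ℕ, l.Prime ∧ ∀ a : Tor F q n →* ℂˣ, Occ hF Y a → ∀ t, a t ^ l = 1 by
    obtain ⟨l, h1, h2⟩ := this
    refine ⟨l, h1, fun ω t => by_contra fun h3 => ?_⟩
    obtain ⟨θ, h4, h5⟩ := exists_char _ h3
    exact h5 (by rw [map_pow]; exact h2 θ ⟨fun e => h5 (by simp [e]), ω, h4⟩ t)
  by_cases h1 : ∃ a : Tor F q n →* ℂˣ, Occ hF Y a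
  swap
  · exact ⟨2, Nat.prime_two, fun a ha => absurd ⟨a, ha⟩ h1⟩
  obtain ⟨a, h1, ω, h2⟩ := h1
  have h3 : IsOfFinOrder a := isOfFinOrder_iff_pow_eq_one.2 ⟨Nat.card (Tor F q n), Nat.card_pos,
    MonoidHom.ext fun t => by simp [← map_pow]⟩
  obtain ⟨l, h4, k, h5⟩ := Nat.exists_prime_and_dvd (mt (orderOf_eq_one_iff (x := a)).1 h1)
  have h6 := h3.orderOf_pos
  refine ⟨l, h4, fun b hb => (h b (a ^ k) hb ⟨pow_ne_one_of_lt_orderOf (x := a) (n := k) (by rintro rfl; omega) ?_,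
    ω, fun t ht => by simp [h2 t ht]⟩).pow_eq fun t => ?_⟩
  · rw [h5]; exact lt_mul_left (Nat.pos_of_mul_pos_left (h5 ▸ h6)) h4.one_lt
  · rw [← MonoidHom.pow_apply, ← pow_mul, mul_comm, ← h5, pow_orderOf_eq_one]; rfl

theorem exists_root (h : ∀ a b : Tor F q n →* ℂˣ, Occ hF Y a → Occ hF Y b → Rel a b) {l : ℕ}
    (hl : l.Prime) (h1 : ∀ (ω : Y) t, t ^ l ∈ St n hF ω) : ∃ e, (e = 2 ∨ e = 3) ∧
      ∀ a c d, Tri a c d → ∀ (ω : Y) (y : Fˣ), ∃ t ∈ St n hF ω, t.1 c = t.1 a * y ^ e := by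
  have hT : ∀ {a c d : Fin n}, Tri a c d → ∀ y, (rt c a) (T2 hF c d y) = y := fun H y => by
    simp [rt_apply, T2_apply, H.ab.tv, H.ac.tv, H.bc.tv, tv_self H.nb]
  by_cases h5 : l = 2 ∨ l = 3
  · refine ⟨l, h5, fun a c d H ω y => ⟨_, h1 ω (T2 hF c d y), ?_⟩⟩
    rw [← div_eq_iff_eq_mul', ← rt_apply, map_pow, hT H y]
  refine ⟨2, Or.inl rfl, fun a c d H ω y => ?_⟩
  by_contra hc
  obtain ⟨φ, h2, h3⟩ := exists_char ((St n hF ω).map (rt c a)) (a := y ^ 2)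
    fun ⟨t, ht, e⟩ => hc ⟨t, ht, div_eq_iff_eq_mul'.1 e⟩
  generalize y ^ 2 = x at h3
  have h4 : φ x ^ l = 1 := by rw [← map_pow, ← hT H x, ← map_pow]; exact h2 _ ⟨_, h1 ω _, rfl⟩
  have := Fact.mk hl
  have h6 : ∀ k, φ x ^ k = 1 → l ∣ k := fun k e => by
    rw [← orderOf_eq_prime h4 h3]; exact orderOf_dvd_of_pow_eq_one e
  have h7 : φ x ^ 2 ≠ 1 := fun e => h5 (Or.inl
    ((Nat.prime_dvd_prime_iff_eq hl Nat.prime_two).1 (h6 2 e)))
  have h8 : φ x ^ 3 ≠ 1 := fun e => h5 (Or.inr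
    ((Nat.prime_dvd_prime_iff_eq hl Nat.prime_three).1 (h6 3 e)))
  have h9 : φ (x ^ q)⁻¹ = φ x ∨ φ (x ^ q)⁻¹ = (φ x)⁻¹ := by
    have hq := two_le_q hF
    obtain ⟨r, rfl⟩ : ∃ r, q = r + 1 := ⟨q - 1, by omega⟩
    have e : φ x ^ (r * (r + 2)) = 1 := by
      apply mul_right_cancel (b := φ x)
      rw [← pow_succ, ← map_pow, show r * (r + 2) + 1 = (r + 1) * (r + 1) by ring, pow_mul,
        pow_qq hF, one_mul]
    rcases (Nat.Prime.dvd_mul hl).1 (h6 _ e) with ⟨k, e⟩ | ⟨k, e⟩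
    · right; rw [map_inv, map_pow, pow_succ, e, pow_mul, h4, one_pow, one_mul]
    · left; rw [map_inv, map_pow, inv_eq_iff_mul_eq_one, ← pow_succ, e, pow_mul, h4, one_pow]
  obtain ⟨π, hπ, h10⟩ := h ((φ.comp (rt c a)) ^ 2) (φ.comp (rt c a))
    ⟨fun e => h7 (by simpa [hT H] using DFunLike.congr_fun e (T2 hF c d x)), ω, fun t ht => by
      rw [MonoidHom.pow_apply, MonoidHom.comp_apply, h2 _ ⟨t, ht, rfl⟩, one_pow]⟩
    ⟨fun e => h3 (by simpa [hT H] using DFunLike.congr_fun e (T2 hF c d x)), ω,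
      fun t ht => h2 _ ⟨t, ht, rfl⟩⟩
  have key : ∀ u v : Fin n, u ≠ u.rev → v ≠ v.rev → DP u v → (rt c a) (T2 hF u v x) = x →
      ∀ i, i = π a ∨ i = π c → ¬ (DP i u ∧ DP i v) := fun u v hu hv huv e i hi hi' => by
    have h11 := h10 (T2 hF u v x)
    rw [MonoidHom.pow_apply, MonoidHom.comp_apply, e] at h11
    have h12 : ∀ j, φ ((T2 hF u v x).1 j) = 1 ∨ φ ((T2 hF u v x).1 j) = φ x ∨
        φ ((T2 hF u v x).1 j) = (φ x)⁻¹ := fun j => by
      rw [T2_apply]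
      by_cases e1 : DP j u
      · by_cases e2 : DP j v
        · simp [e1.tv, e2.tv]
        · rcases tv_cases (q := q) hv e2 x with e3 | e3 <;> rcases h9 with e4 | e4 <;>
            simp only [e1.tv, e3, one_mul, map_inv φ _⁻¹, map_inv φ x, e4] <;> simp
      · rcases tv_cases (q := q) hu e1 x with e3 | e3 <;> rcases h9 with e4 | e4 <;>
            simp only [(huv.of_not e1).tv, e3, inv_one, mul_one, e4] <;> simp
    have h13 : φ ((T2 hF u v x).1 i) = 1 := by simp [T2_apply, hi'.1.tv, hi'.2.tv]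
    change _ = φ ((T2 hF u v x).1 (π c) / (T2 hF u v x).1 (π a)) at h11
    rw [map_div] at h11
    have h14 : φ x ^ 2 = 1 ∨ φ x ^ 2 = φ x ∨ φ x ^ 2 = (φ x)⁻¹ := by
      rcases hi with rfl | rfl
      · rw [h13, div_one] at h11; rw [h11]; exact h12 _
      · rw [h13, one_div] at h11
        rcases h12 (π a) with e | e | e <;> simp [h11, e]
    rcases h14 with e | e | e
    · exact h7 e
    · exact h3 (by simpa [sq] using e)
    · exact h8 (by rw [pow_succ, e, inv_mul_cancel])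
  have h11 : ∀ i, i = π a ∨ i = π c → ¬ DP i d := fun i hi e => by
    have e1 := key c d H.nb H.nc H.bc (hT H x) i hi
    have e2 := key d a H.nc H.na H.ac.symm (by
      simp [rt_apply, T2_apply, H.ab.symm.tv, H.ac.tv, H.bc.tv, tv_self H.na]) i hi
    exact e2 ⟨e, H.ab.symm.of_not fun e3 => e1 ⟨e3, e⟩⟩
  exact h11 _ (Or.inr rfl) ((H.ab.map hπ).of_not fun e => h11 _ (Or.inl rfl) e.symm).symm

end

include hF in
theorem exists_sep (hq : 3 ≤ q) {l : ℕ} (hl : l.Prime) {a c d : Fin n} (H : Tri a c d)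
    {i j : Fin n} (hi : DP i a) (hj : DP j a) (hij : DP i j) :
    ∃ s : Tor F q n, s.1 a ^ l = s.1 c ^ l ∧ s.1 i ^ l ≠ s.1 j ^ l := by
  obtain ⟨y, hy⟩ := exists_gen hF
  obtain ⟨r, rfl⟩ : ∃ r, q = r + 1 := ⟨q - 1, by omega⟩
  rw [show (r + 1) ^ 2 - 1 = (r + 2) * r by rw [Nat.sub_eq_of_eq_add]; ring] at hy
  have key : ∀ i j : Fin n, DP i a → DP j a → DP i j → i ≠ i.rev → DP i c →
      ∃ s : Tor F (r + 1) n, s.1 a ^ l = s.1 c ^ l ∧ s.1 i ^ l ≠ s.1 j ^ l :=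
      fun i j hi hj hij h1 h2 => by
    by_cases h3 : r ∣ l
    · obtain rfl : r = l := (hl.eq_one_or_self_of_dvd r h3).resolve_left (by omega)
      refine ⟨T2 hF a i y * T2 hF c i y, ?_, ?_⟩
      · simp [T2_apply, H.ab.tv, H.ab.symm.tv, hi.symm.tv, h2.symm.tv, tv_self H.na, tv_self H.nb]
      have h4 : ∀ k, k ≤ 3 → 0 < k → y ^ (k * r) ≠ 1 := fun k a b c => by
        have := Nat.le_of_dvd b (Nat.dvd_of_mul_dvd_mul_right hl.pos ((hy _).1 c))
        omega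
      simp only [Subgroup.coe_mul, Pi.mul_apply, T2_apply, hi.tv, h2.tv, tv_self h1, hj.tv,
        hij.symm.tv, one_mul, inv_one, mul_one]
      intro e
      by_cases e1 : DP j c
      · exact h4 2 (by omega) (by omega) (by
          rwa [e1.tv, one_pow, ← mul_inv, inv_pow, inv_eq_one, ← sq, ← pow_mul] at e)
      have : tv (r + 1) c y j ^ r = y ^ r := by
        rcases tv_cases H.nb e1 y with e3 | e3 <;> rw [e3]
        rw [inv_pow, inv_eq_iff_mul_eq_one, ← mul_pow, ← pow_succ, ← pow_mul, hy]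
      refine h4 3 (by omega) (by omega) ?_
      rw [pow_mul, pow_succ, mul_pow, ← this, ← e, ← mul_pow]; simp [sq]
    · refine ⟨⟨_, tv_mem_Tor hF i (x := y ^ (r + 2)) ?_⟩, ?_, ?_⟩
      · rw [pow_succ _ r, ← pow_mul, (hy _).2 dvd_rfl, one_mul]
      · simp [hi.symm.tv, h2.symm.tv]
      · simp only [tv_self h1, hij.symm.tv, one_pow, ← pow_mul, Ne, hy]
        exact fun e => h3 (Nat.dvd_of_mul_dvd_mul_left (by omega) e)
  have key2 : ∀ i j : Fin n, DP j a → j = j.rev → ¬ DP i c →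
      ∃ s : Tor F (r + 1) n, s.1 a ^ l = s.1 c ^ l ∧ s.1 i ^ l ≠ s.1 j ^ l := fun i j hj h1 h2 => by
    have h3 : ∀ k : Fin n, k ≠ k.rev → DP j k := fun k hk =>
      ⟨fun e => hk (e ▸ h1), fun e => hk (by rw [← e, h1, e, Fin.rev_rev])⟩
    have h4 : y ^ l ≠ 1 := fun e => by
      have e1 := (hy _).1 e
      have := Nat.le_of_dvd hl.pos e1
      rcases hl.eq_one_or_self_of_dvd r ((Dvd.intro_left _ rfl).trans e1) with e | e <;> nlinarith
    refine ⟨T2 hF a d y * T2 hF c d y, ?_, ?_⟩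
    · simp [T2_apply, H.ab.tv, H.ab.symm.tv, H.ac.tv, H.bc.tv, tv_self H.na, tv_self H.nb]
    simp only [Subgroup.coe_mul, Pi.mul_apply, T2_apply, hj.tv, (h3 c H.nb).tv, (h3 d H.nc).tv,
      (H.ab.symm.of_not h2).tv, (H.bc.of_not h2).tv, one_mul, inv_one, mul_one, one_pow]
    rcases tv_cases H.nb h2 y with e3 | e3 <;> rw [e3]
    · exact h4
    · rw [inv_pow, Ne, inv_eq_one, ← pow_mul, mul_comm, pow_mul]
      exact fun e => h4 (by rw [← pow_qq hF (y ^ l), e, one_pow])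
  by_cases h1 : i ≠ i.rev ∧ DP i c
  · exact key i j hi hj hij h1.1 h1.2
  by_cases h2 : j ≠ j.rev ∧ DP j c
  · obtain ⟨s, h3, h4⟩ := key j i hj hi hij.symm h2.1 h2.2
    exact ⟨s, h3, h4.symm⟩
  by_cases h3 : j = j.rev
  · refine key2 i j hj h3 fun e => h1 ⟨fun e' => hij.1 ?_, e⟩
    have e1 := congrArg Fin.val e'
    have e2 := congrArg Fin.val h3
    rw [Fin.val_rev] at e1 e2
    exact Fin.ext (by omega)
  have h4 : ¬ DP j c := fun e => h2 ⟨h3, e⟩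
  by_cases h5 : i = i.rev
  · obtain ⟨s, h3, h4⟩ := key2 j i hi h5 h4
    exact ⟨s, h3, h4.symm⟩
  · exact absurd (hij.symm.of_not fun e => h4 e.symm).symm fun e => h1 ⟨h5, e⟩

include hF in
theorem eq_top_of_two (hq : 3 ≤ q) {l e : ℕ} (hl : l.Prime) (he : e = 2 ∨ e = 3)
    (H : Subgroup Fˣ) (h1 : ∀ x, x ^ l ∈ H) (h2 : ∀ x, x ^ (e * (q - 1)) ∈ H) (R : Subring F)
    (h : ∀ x ∈ H, (x : F) ∈ R) : R = ⊤ := by
  refine subring_eq_top_of_pow (MI.card_F hF) (e := l.gcd (e * (q - 1))) ?_ R fun y hy => ?_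
  · have h3 := gcd_le_aux hq he
    have h4 : q * (q - 1) ≤ q ^ 2 - 1 := by
      obtain ⟨r, rfl⟩ : ∃ r, q = r + 1 := ⟨q - 1, by omega⟩
      rw [Nat.le_sub_iff_add_le (Nat.one_le_pow _ _ (by omega))]; simp; nlinarith
    have h5 : ∀ k, 0 < k → k ≤ q - 1 → q * (q ^ 2 - 1).gcd k ≤ q ^ 2 - 1 := fun k a b =>
      (Nat.mul_le_mul_left q ((Nat.gcd_le_right _ a).trans b)).trans h4
    rcases hl.eq_one_or_self_of_dvd _ (Nat.gcd_dvd_left l (e * (q - 1))) with h6 | h6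
    · rw [h6]; exact h5 1 one_pos (by omega)
    rw [h6]
    rcases (Nat.Prime.dvd_mul hl).1 (h6 ▸ Nat.gcd_dvd_right l (e * (q - 1))) with h7 | h7
    · rwa [(Nat.prime_dvd_prime_iff_eq hl (by rcases he with rfl | rfl <;> norm_num)).1 h7]
    · exact h5 l hl.pos (Nat.le_of_dvd (by omega) h7)
  · have := mul_mem (H.zpow_mem (h1 (Units.mk0 y hy)) (l.gcdA (e * (q - 1))))
      (H.zpow_mem (h2 (Units.mk0 y hy)) (l.gcdB (e * (q - 1))))
    rw [← zpow_natCast, ← zpow_natCast, ← zpow_mul, ← zpow_mul, ← zpow_add, ← Nat.gcd_eq_gcd_ab,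
      zpow_natCast] at this
    simpa using h _ this

end Cfsg.Agent.Rk3
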