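import Cfsg.Agent.Lib.Rk3.Ab

/-!
The torus part of a chamber transitive point stabiliser.
-/

set_option autoImplicit false

namespace Cfsg.Agent.Rk3

open Cfsg.Agent.Forms Cfsg.Agent.Forms.Form MulAction Finset

variable {F : Type*} [Field F] [Fintype F] {q n : ℕ} {hF : Fintype.card F = q ^ 2}

theorem swap_mem (a : Fin n) : Equiv.swap a a.rev ∈ Wy n := fun i => by
  by_cases h1 : i = a
  · simp [h1]
  by_cases h2 : i = a.rev
  · simp [h2]
  rw [Equiv.swap_apply_of_ne_of_ne h1 h2, Equiv.swap_apply_of_ne_of_ne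
    (fun e => h2 (by rw [← e, Fin.rev_rev])) fun e => h1 (Fin.rev_injective e)]

/-- exchange of two planes -/
def sw (a b : Fin n) : Equiv.Perm (Fin n) := Equiv.swap a b * Equiv.swap a.rev b.rev

section

variable {a b : Fin n} (ha : a ≠ a.rev) (hb : b ≠ b.rev) (h : DP a b)

include ha h in
theorem sw_a : sw a b a = b := by simp [sw, Equiv.swap_apply_of_ne_of_ne ha h.2]

include hb h in
theorem sw_b : sw a b b = a := by simp [sw, Equiv.swap_apply_of_ne_of_ne h.symm.2 hb]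

include hb h in
theorem sw_ra : sw a b a.rev = b.rev := by simp [sw, Equiv.swap_apply_of_ne_of_ne h.2.symm hb.symm]

include ha h in
theorem sw_rb : sw a b b.rev = a.rev := by
  simp [sw, Equiv.swap_apply_of_ne_of_ne ha.symm h.symm.2.symm]

theorem sw_of {i : Fin n} (h1 : DP i a) (h2 : DP i b) : sw a b i = i := by
  simp [sw, Equiv.swap_apply_of_ne_of_ne h1.2 h2.2, Equiv.swap_apply_of_ne_of_ne h1.1 h2.1]

theorem idx_cases (a b i : Fin n) :
    i = a ∨ i = a.rev ∨ i = b ∨ i = b.rev ∨ (DP i a ∧ DP i b) := by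
  unfold DP; tauto

include ha hb h in
theorem sw_mem : sw a b ∈ Wy n := fun i => by
  rcases idx_cases a b i with rfl | rfl | rfl | rfl | e
  · rw [sw_a ha h, sw_ra hb h]
  · rw [Fin.rev_rev, sw_a ha h, sw_ra hb h, Fin.rev_rev]
  · rw [sw_b hb h, sw_rb ha h]
  · rw [Fin.rev_rev, sw_b hb h, sw_rb ha h, Fin.rev_rev]
  · rw [sw_of e.1 e.2, sw_of e.1.rev e.2.rev]

include ha hb h in
theorem sw_sw (i : Fin n) : sw a b (sw a b i) = i := by
  rcases idx_cases a b i with rfl | rfl | rfl | rfl | e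
  · rw [sw_a ha h, sw_b hb h]
  · rw [sw_ra hb h, sw_rb ha h]
  · rw [sw_b hb h, sw_a ha h]
  · rw [sw_rb ha h, sw_ra hb h]
  · rw [sw_of e.1 e.2, sw_of e.1 e.2]

include ha hb h in
theorem div_act_sw (t : Tor F q n) : t / act (sw_mem ha hb h) t = T2 hF a b (t.1 a / t.1 b) := by
  refine Subtype.ext (funext fun i => ?_)
  change t.1 i / t.1 (sw a b i) = _
  rw [T2_apply]
  rcases idx_cases a b i with rfl | rfl | rfl | rfl | e
  · simp [sw_a ha h, tv_self ha, h.tv]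
  · simp [sw_ra hb h, tv_rev ha, h.rev.tv, TG.rev t.2.1, mul_pow, div_eq_mul_inv, mul_comm]
  · simp [sw_b hb h, tv_self hb, h.symm.tv]
  · simp [sw_rb ha h, tv_rev hb, h.symm.rev.tv, TG.rev t.2.1, mul_pow, div_eq_mul_inv, mul_comm]
  · simp [sw_of e.1 e.2, e.1.tv, e.2.tv]

end

variable (hF) in
/-- elements supported on one plane -/
def T1 (a : Fin n) {c : Fˣ} (h : c ^ q = c) : Tor F q n := ⟨tv q a c, tv_mem_Tor hF a h⟩

variable (hF) in
include hF in
theorem nrm_pow (x : Fˣ) : (x ^ (q + 1)) ^ q = x ^ (q + 1) := by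
  rw [pow_succ, mul_pow, pow_qq hF, mul_comm]

theorem div_act_swap {a : Fin n} (ha : a ≠ a.rev) (t : Tor F q n) :
    t / act (swap_mem a) t = T1 hF a (nrm_pow hF (t.1 a)) := by
  refine Subtype.ext (funext fun i => ?_)
  change t.1 i / t.1 (Equiv.swap a a.rev i) = tv q a _ i
  by_cases h1 : i = a
  · simp [h1, tv_self ha, TG.rev t.2.1, pow_succ', div_eq_mul_inv]
  by_cases h2 : i = a.rev
  · rw [h2, tv_rev ha, nrm_pow hF]
    simp [TG.rev t.2.1, pow_succ', div_eq_mul_inv]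
  simp [Equiv.swap_apply_of_ne_of_ne h1 h2, tv_of_ne h1 h2]

theorem act_T1 {π : Equiv.Perm (Fin n)} (h : π ∈ Wy n) (a : Fin n) {c : Fˣ} (hc : c ^ q = c) :
    act h (T1 hF (π a) hc) = T1 hF a hc := by
  refine Subtype.ext (funext fun i => ?_)
  change tv q (π a) c (π i) = tv q a c i
  simp [tv_apply, ← h a]

theorem val0 {m : ℕ} : ((0 : Fin (m + 6)) : ℕ) = 0 := rfl
theorem val1 {m : ℕ} : ((1 : Fin (m + 6)) : ℕ) = 1 := rfl
theorem val2 {m : ℕ} : ((2 : Fin (m + 6)) : ℕ) = 2 := rfl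
theorem val3 {m : ℕ} : ((3 : Fin (m + 6)) : ℕ) = 3 := rfl

theorem tri012 {m : ℕ} : Tri (0 : Fin (m + 6)) 1 2 := by
  constructor <;> simp only [DP, Ne, Fin.ext_iff, Fin.val_rev, val0, val1, val2] <;> omega

theorem exists_tv (hq : 3 ≤ q) {m : ℕ} {Y : Type*} [MulAction (AF (m + 6) hF).Isom Y]
    (R : R3 (m + 6) hF Y) (ω : Y)
    (hW : ∀ π (hπ : π ∈ Wy (m + 6)), ∀ t ∈ St _ hF ω, act hπ t ∈ St _ hF ω)
    (hneg : ∀ t : Tor F q (m + 6), (∀ i, t.1 i = -1) → t ∈ St _ hF ω) :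
    ∃ c : Fˣ, ∃ h : c ^ q = c, c ≠ 1 ∧ T1 hF 0 h ∈ St (m + 6) hF ω := by
  classical
  by_contra hc
  push Not at hc
  have H := tri012 (m := m)
  have h0 : ∀ t ∈ St _ hF ω, t.1 0 ^ (q + 1) = 1 := fun t ht => by_contra fun e =>
    hc _ _ e (div_act_swap H.na t ▸ div_mem ht (hW _ _ t ht))
  have hN : ∀ a : Fin (m + 6), a ≠ a.rev → DP 0 a → ∀ t ∈ St _ hF ω, t.1 a ^ (q + 1) = 1 :=
    fun a ha h t ht => by
      simpa [act, sw_a H.na h] using h0 _ (hW _ (sw_mem H.na ha h) t ht)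
  have h1 := hN 1 H.nb H.ab
  have h2 := hN 2 H.nc H.ac
  obtain ⟨y, hy⟩ := exists_gen hF
  rcases hq.lt_or_eq with hq | rfl
  · have hc0 := nrm_pow hF y
    obtain ⟨ψ, -, h3⟩ := exists_char ⊥ (a := (y ^ (q + 1)) ^ 2) (by
      rw [Subgroup.mem_bot, ← pow_mul, hy]
      intro e
      have := Nat.le_of_dvd (by omega) e
      have : q * 4 ≤ q ^ 2 := by nlinarith
      omega)
    let χ : Fin (m + 6) → Tor F q (m + 6) →* ℂˣ := fun b => ψ.comp (ev b ^ (q + 1))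
    have hχ : ∀ b t, χ b t = ψ (t.1 b ^ (q + 1)) := fun _ _ => rfl
    have h4 : ∀ a b, DP b a → χ b (T1 hF a hc0) = 1 := fun a b h => by simp [hχ, T1, h.tv]
    have h5 : ∀ a b, b ≠ b.rev → ¬ DP b a → χ b (T1 hF a hc0) ≠ 1 := fun a b hb h => by
      have ha : a ≠ a.rev := fun e => by
        unfold DP at h
        rw [← e, and_self, not_not] at h
        exact hb (h ▸ e)
      have e : (y ^ (q + 1)) ^ (q + 1) = (y ^ (q + 1)) ^ 2 := by rw [pow_succ, hc0, sq]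
      rcases tv_cases (q := q) ha h (y ^ (q + 1)) with e' | e' <;>
        simp only [hχ, T1, e', hc0, inv_pow, e, map_inv, Ne, inv_eq_one] <;> exact h3
    let A : (Tor F q (m + 6) →* ℂˣ) → Finset (Fin (m + 6)) :=
      fun θ => univ.filter fun a => θ (T1 hF a hc0) ≠ 1
    have hA : ∀ θ η, Rel θ η → (A θ).card = (A η).card := fun θ η ⟨π, hπ, e⟩ =>
      (card_equiv π fun a => by simp [A, e, act_T1]).symm
    have d0 : ∀ a : Fin (m + 6), ¬ DP a a := fun a h => h.1 rfl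
    have s1 : A (χ 0) ⊂ A (χ 0 * χ 1) := by
      refine (ssubset_iff_of_subset fun a ha => ?_).2 ⟨1, ?_, ?_⟩
      · simp only [A, mem_filter, mem_univ, true_and, MonoidHom.mul_apply] at ha ⊢
        rwa [h4 a 1 (H.ab.of_not fun e => ha (h4 _ _ e.symm)).symm, mul_one]
      · simpa [A, h4 1 0 H.ab] using h5 1 1 H.nb (d0 1)
      · simp [A, h4 1 0 H.ab]
    have s2 : A (χ 0 * χ 1) ⊂ A (χ 0 * χ 1 * χ 2) := by
      refine (ssubset_iff_of_subset fun a ha => ?_).2 ⟨2, ?_, ?_⟩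
      · simp only [A, mem_filter, mem_univ, true_and, MonoidHom.mul_apply] at ha ⊢
        rwa [h4 a 2, mul_one]
        by_contra e
        replace e := fun h : DP a 2 => e h.symm
        exact ha (by rw [h4 _ _ (H.ac.symm.of_not e).symm, h4 _ _ (H.bc.symm.of_not e).symm, mul_one])
      · simpa [A, h4 2 0 H.ac, h4 2 1 H.bc] using h5 2 2 H.nc (d0 2)
      · simp [A, h4 2 0 H.ac, h4 2 1 H.bc]
    have s0 : 0 ∈ A (χ 0) := by simpa [A] using h5 0 0 H.na (d0 0)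
    have hO : ∀ θ, 0 ∈ A θ → θ ≠ 1 := fun θ h e => by simp [A, e] at h
    have c1 := card_lt_card s1
    have c2 := card_lt_card s2
    rcases R.three (χ 0) (χ 0 * χ 1) (χ 0 * χ 1 * χ 2) ⟨hO _ s0, ω, fun t ht => by simp [hχ, h0 t ht]⟩
      ⟨hO _ (s1.1 s0), ω, fun t ht => by simp [hχ, h0 t ht, h1 t ht]⟩
      ⟨hO _ (s2.1 (s1.1 s0)), ω, fun t ht => by simp [hχ, h0 t ht, h1 t ht, h2 t ht]⟩ with e | e | e <;>
      have := hA _ _ e <;> omega
  have hm : (-1 : Fˣ) ^ 3 = -1 := by norm_num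
  have hy4 : y ^ 4 = -1 := by
    have e : (y ^ 4) ^ 2 = 1 := by rw [← pow_mul, hy]; norm_num
    rw [Units.ext_iff] at e
    exact Units.ext ((sq_eq_one_iff.1 (by simpa using e)).resolve_left fun e => by
      have := (hy 4).1 (Units.ext e); norm_num at this)
  have hm1 : (-1 : Fˣ) ≠ 1 := fun e => by have := (hy 4).1 (hy4.trans e); norm_num at this
  obtain ⟨θ, h3, h4⟩ := exists_char _ (hc _ hm hm1)
  have hsq : ∀ a, θ (T1 hF a hm) * θ (T1 hF a hm) = 1 := fun a => by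
    rw [← map_mul, ← map_one θ]; congr 1
    exact Subtype.ext (by change tv 3 a _ * tv 3 a _ = 1; rw [← map_mul]; simp)
  by_cases h5 : ∃ k d, Tri 0 k d ∧ θ (T1 hF k hm) = 1
  · obtain ⟨k, d, T, h5⟩ := h5
    let η : Tor F 3 (m + 6) →* ℂˣ := θ.comp ((T2 hF 0 k).comp (rt 0 k))
    have h6 : ∀ t ∈ St _ hF ω, η t = 1 := fun t ht => h3 _ (by
      have := div_mem ht (hW _ (sw_mem T.na T.nb T.ab) t ht)
      rwa [div_act_sw (hF := hF) T.na T.nb T.ab] at this)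
    have h7 : η (T2 hF 0 d y) ^ 4 ≠ 1 := by
      have e : rt 0 k (T2 hF 0 d y) = y := by
        simp [rt_apply, T2_apply, tv_self T.na, T.ac.tv, T.ab.symm.tv, T.bc.tv]
      have e' : T2 hF 0 k (-1) = T1 hF 0 hm / T1 hF k hm := Subtype.ext (funext fun i => by
        rw [T2_apply]; simp [T1, div_eq_mul_inv])
      simp only [η, MonoidHom.comp_apply, e]
      rwa [← map_pow, ← map_pow, hy4, e', map_div, h5, div_one]
    have h8 : ∀ t, η t ^ 8 = 1 := fun t => by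
      simp only [η, MonoidHom.comp_apply]
      have e : rt 0 k t ^ 8 = 1 := by
        have := pow_card_eq_one' (x := rt 0 k t)
        rwa [Nat.card_units, Nat.card_eq_fintype_card, hF] at this
      rw [← map_pow, ← map_pow, e, map_one, map_one]
    have h9 : ∀ j : ℕ, j ∣ 4 → Occ hF Y (η ^ j) := fun j ⟨i, e⟩ => ⟨fun e' => h7 (by
      rw [e, pow_mul, ← MonoidHom.pow_apply, e']; simp), ω, fun t ht => by simp [h6 t ht]⟩
    rcases R.three _ _ _ (h9 1 (by norm_num)) (h9 2 (by norm_num)) (h9 4 dvd_rfl) with e | e | e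
    · exact h7 (by simpa using e.pow_eq (k := 4) (fun t => by simp [← pow_mul, h8]) _)
    · exact h7 (by simpa using e.pow_eq (k := 4) (fun t => by
        rw [MonoidHom.pow_apply, ← pow_mul, show 4 * 4 = 8 * 2 by rfl, pow_mul, h8, one_pow]) _)
    · exact h7 (by simpa [← pow_mul] using e.pow_eq (k := 2) (fun t => by simp [← pow_mul, h8]) _)
  push Not at h5
  rcases Nat.eq_zero_or_pos m with rfl | hm0
  · have e : ∀ a, θ (T1 hF a hm) ≠ 1 → θ (T1 hF a hm) = -1 := fun a h =>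
      Units.ext ((mul_self_eq_one_iff.1 (by simpa using congrArg Units.val (hsq a))).resolve_left
        fun e => h (Units.ext e))
    have := h3 _ (hneg (T1 hF 0 hm * T1 hF 1 hm * T1 hF 2 hm) fun i => by
      fin_cases i <;> simp [T1, tv_apply, Fin.ext_iff, Fin.val_rev, hm])
    rw [map_mul, map_mul, e _ h4, e _ (h5 1 2 H), e _ (h5 2 1 ⟨H.na, H.nc, H.nb, H.ac, H.ab,
      H.bc.symm⟩)] at this
    have := congrArg Units.val this
    norm_num at this
  obtain ⟨ψ, -, h6⟩ := exists_char ⊥ (a := (-1 : Fˣ)) hm1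
  let χ : Fin (m + 6) → Tor F 3 (m + 6) →* ℂˣ := fun b => ψ.comp (ev b ^ 4)
  have hχ : ∀ b t, χ b t = ψ (t.1 b ^ 4) := fun _ _ => rfl
  have h7 : ∀ a b, χ b (T1 hF a hm) = 1 := fun a b => by
    rw [hχ, ← map_one ψ]; congr 1
    simp only [T1, tv_apply]
    split_ifs <;> norm_num
  have h8 : ∀ η : Tor F 3 (m + 6) →* ℂˣ, (∀ a, η (T1 hF a hm) = 1) → ¬ Rel θ η :=
    fun η h ⟨π, hπ, e⟩ => h4 (by
      have := act_T1 (hF := hF) hπ (π.symm 0) hm
      rw [Equiv.apply_symm_apply] at this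
      rw [e, this, h])
  have h9 : ∀ a b : Fin (m + 6), a ≠ a.rev → DP a b → χ a (T2 hF a b y) ≠ 1 := fun a b ha h => by
    simpa [hχ, T2_apply, tv_self ha, h.tv, hy4] using h6
  have h10 : ∀ a b c : Fin (m + 6), DP c a → DP c b → χ c (T2 hF a b y) = 1 := fun a b c h h' => by
    simp [hχ, T2_apply, h'.tv, h.tv]
  rcases R.three θ (χ 0) (χ 0 * χ 1) ⟨fun e => h4 (by simp [e]), ω, h3⟩
    ⟨fun e => h9 0 1 H.na H.ab (by simp [e]), ω, fun t ht => by simp [hχ, h0 t ht]⟩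
    ⟨fun e => h9 0 2 H.na H.ac (by
      simpa [h10 0 2 1 H.ab.symm H.bc] using DFunLike.congr_fun e (T2 hF 0 2 y)), ω, fun t ht => by simp [hχ, h0 t ht, h1 t ht]⟩ with e | e | e
  · exact h8 _ (fun a => h7 a 0) e
  · exact h8 _ (fun a => by simp [h7]) e
  obtain ⟨π, hπ, e⟩ := e.symm
  replace e : ∀ t, χ 0 t * χ 1 t = χ (π 0) t := e
  have h11 : DP (0 : Fin (m + 6)) 3 ∧ DP (1 : Fin (m + 6)) 3 ∧ DP (2 : Fin (m + 6)) 3 := by
    simp only [DP, Ne, Fin.ext_iff, Fin.val_rev, val0, val1, val2, val3]; omega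
  obtain ⟨b, b0, b1, b2⟩ : ∃ b : Fin (m + 6), DP 0 b ∧ DP 1 b ∧ DP (π 0) b := by
    by_cases e' : DP (π 0) 2
    · exact ⟨2, H.ac, H.bc, e'⟩
    · exact ⟨3, h11.1, h11.2.1, h11.2.2.of_not e'⟩
  by_cases e' : DP (π 0) 0
  · have := e (T2 hF 0 b y)
    rw [h10 _ _ _ e' b2, h10 _ _ _ H.ab.symm b1, mul_one] at this
    exact h9 _ _ H.na b0 this
  · have := e (T2 hF 1 b y)
    rw [h10 _ _ _ (H.ab.of_not e') b2, h10 _ _ _ H.ab b0, one_mul] at this
    exact h9 _ _ H.nb b1 this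

end Cfsg.Agent.Rk3
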