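import Mathlib

/-!
Abstract lemmas for rank three actions.
-/

set_option autoImplicit false

namespace Cfsg.Agent.Rk3

open MulAction Finset ComplexConjugate

section rank

variable {Γ X : Type*} [Group Γ] [Fintype Γ] [Fintype X] [MulAction Γ X]

theorem four_le [IsPretransitive Γ X] (x : X) (v : Fin 4 → X → ℂ) (h0 : ∀ i, v i ≠ 0)
    (ho : ∀ i j, i ≠ j → ∀ g : Γ, ∑ y, conj (v i (g • y)) * v j y = 0) :
    4 ≤ Nat.card (orbitRel.Quotient (stabilizer Γ x) X) := by
  classical
  let Φ : Fin 4 → X → X → ℂ := fun i z y => ∑ g : Γ, v i (g • z) * conj (v i (g • y))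
  have hΦ : ∀ i (h : Γ) z y, Φ i (h • z) (h • y) = Φ i z y := fun i h z y =>
    Fintype.sum_equiv (Equiv.mulRight h) _ _ fun g => by simp [mul_smul]
  let φ : Fin 4 → orbitRel.Quotient (stabilizer Γ x) X → ℂ := fun i =>
    Quotient.lift (Φ i x) (by
      rintro a b ⟨k, rfl⟩
      have := hΦ i k.1 x b
      rw [k.2] at this
      exact this)
  have := Fintype.ofFinite (orbitRel.Quotient (stabilizer Γ x) X)
  have hli : LinearIndependent ℂ φ := by
    rw [Fintype.linearIndependent_iff]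
    intro c hc j
    have h1 : ∀ z y, ∑ i, c i * Φ i z y = 0 := fun z y => by
      obtain ⟨h, rfl⟩ := exists_smul_eq Γ x z
      have := congrFun hc (Quotient.mk _ (h⁻¹ • y))
      simp only [Finset.sum_apply, Pi.smul_apply, smul_eq_mul, Pi.zero_apply] at this
      rw [← this]
      refine sum_congr rfl fun i _ => ?_
      rw [← hΦ i h⁻¹, inv_smul_smul]; rfl
    let S : Fin 4 → Γ → ℂ := fun i g => ∑ y, conj (v i (g • y)) * v j y
    have h2 : ∑ i, c i * ∑ g, conj (S i g) * S i g = 0 := by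
      have : ∑ z, ∑ y, conj (v j z) * (∑ i, c i * Φ i z y) * v j y = 0 := by simp [h1]
      rw [← this]
      simp only [S, Φ, map_sum, map_mul, Complex.conj_conj, sum_mul, mul_sum]
      rw [sum_comm]
      conv_rhs => enter [2, z]; rw [sum_comm]; enter [2, i]; rw [sum_comm]
      conv_rhs => rw [sum_comm]; enter [2, i]; rw [sum_comm]
      rw [sum_comm]
      refine sum_congr rfl fun i _ => sum_congr rfl fun g _ => ?_
      rw [sum_comm]
      refine sum_congr rfl fun z _ => sum_congr rfl fun y _ => by ring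
    rw [sum_eq_single j (fun i _ hi => by simp [S, ho i j hi]) (by simp)] at h2
    refine (mul_eq_zero.1 h2).resolve_right fun h3 => h0 j ?_
    simp only [← Complex.normSq_eq_conj_mul_self] at h3
    have h4 : ∑ g, Complex.normSq (S j g) = 0 := by exact_mod_cast h3
    have h5 := (sum_eq_zero_iff_of_nonneg fun g _ => Complex.normSq_nonneg _).1 h4 1 (mem_univ _)
    rw [Complex.normSq_eq_zero] at h5
    simp only [S, one_smul, ← Complex.normSq_eq_conj_mul_self] at h5
    have h6 : ∑ y, Complex.normSq (v j y) = 0 := by exact_mod_cast h5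
    ext y
    exact Complex.normSq_eq_zero.1
      ((sum_eq_zero_iff_of_nonneg fun g _ => Complex.normSq_nonneg _).1 h6 y (mem_univ _))
  simpa using hli.fintype_card_le_finrank

/-- eigenvectors of a subgroup -/
def Eig (B : Subgroup Γ) (θ : B →* ℂˣ) (v : X → ℂ) : Prop :=
  ∀ (b : B) y, v ((b : Γ) • y) = θ b * v y

omit [Fintype X] in
theorem exists_eig (B : Subgroup Γ) (θ : B →* ℂˣ) (x : X)
    (h : ∀ b : B, (b : Γ) • x = x → θ b = 1) : ∃ v : X → ℂ, v ≠ 0 ∧ Eig B θ v := by
  classical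
  refine ⟨fun y => ∑ b : B, if (b : Γ) • x = y then (θ b : ℂ) else 0, fun e => ?_, fun b y => ?_⟩
  · have := congrFun e x
    simp only [Pi.zero_apply] at this
    rw [sum_congr rfl (g := fun b : B => if (b : Γ) • x = x then (1 : ℂ) else 0)
      (fun b _ => by split_ifs with hb <;> simp [h b, *]), sum_boole, Nat.cast_eq_zero,
      card_eq_zero, filter_eq_empty_iff] at this
    exact this (mem_univ 1) (by simp)
  · rw [mul_sum]
    refine (Fintype.sum_equiv (Equiv.mulLeft b) _ _ fun c => ?_).symm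
    simp [mul_smul]

theorem conj_mul_char {B : Type*} [Group B] [Finite B] (θ : B →* ℂˣ) (b : B) :
    conj (θ b : ℂ) * θ b = 1 := by
  have h : (θ b : ℂ) ^ Nat.card B = 1 := by
    rw [← Units.val_pow_eq_pow_val, ← map_pow, pow_card_eq_one', map_one, Units.val_one]
  have := Complex.norm_eq_one_of_pow_eq_one h Nat.card_pos.ne'
  rw [← Complex.normSq_eq_conj_mul_self, Complex.normSq_eq_norm_sq, this]; simp

/-- two characters of a subgroup which disagree on every intersection -/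
def Sep (B : Subgroup Γ) (θ η : B →* ℂˣ) : Prop :=
  ∀ g : Γ, ∃ b : B, ∃ h : g * b * g⁻¹ ∈ B, θ ⟨_, h⟩ ≠ η b

theorem Eig.orth {B : Subgroup Γ} {θ η : B →* ℂˣ} {v w : X → ℂ} (hv : Eig B θ v) (hw : Eig B η w)
    (h : Sep B θ η) (g : Γ) : ∑ y, conj (v (g • y)) * w y = 0 := by
  obtain ⟨b, hb, hne⟩ := h g
  have h1 : ∑ y, conj (v (g • y)) * w y =
      conj (θ ⟨_, hb⟩ : ℂ) * η b * ∑ y, conj (v (g • y)) * w y := by
    rw [mul_sum]
    refine (Fintype.sum_equiv (MulAction.toPerm (b : Γ)) _ _ fun y => ?_).symm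
    have := hv ⟨_, hb⟩ (g • y)
    simp only [mul_smul, inv_smul_smul] at this
    simp only [toPerm_apply, this, hw b y, map_mul]; ring
  by_contra h2
  have h3 : conj (θ ⟨_, hb⟩ : ℂ) * η b = 1 := by
    apply mul_right_cancel₀ h2; rw [← h1, one_mul]
  refine hne (Units.ext ?_)
  have h4 := conj_mul_char θ ⟨_, hb⟩
  linear_combination (θ ⟨_, hb⟩ : ℂ) * (-h3) + (η b : ℂ) * h4

omit [Fintype Γ] in
theorem Eig.sum_eq {B : Subgroup Γ} {θ : B →* ℂˣ} {v : X → ℂ} (hv : Eig B θ v) (h : θ ≠ 1) :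
    ∑ y, v y = 0 := by
  obtain ⟨b, hb⟩ : ∃ b, θ b ≠ 1 := by
    by_contra hc; push Not at hc; exact h (MonoidHom.ext hc)
  have h1 : ∑ y, v y = θ b * ∑ y, v y := by
    rw [mul_sum]
    exact (Fintype.sum_equiv (MulAction.toPerm (b : Γ)) _ _ fun y => by simp [hv b y]).symm
  by_contra h2
  exact hb (Units.ext (mul_right_cancel₀ h2 (by rw [← h1]; simp)))

theorem not_three_aux [IsPretransitive Γ X] {x : X}
    (h3 : Nat.card (orbitRel.Quotient (stabilizer Γ x) X) = 3) {B : Subgroup Γ}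
    (θ : Fin 3 → B →* ℂˣ) (v : Fin 3 → X → ℂ) (h0 : ∀ i, v i ≠ 0) (he : ∀ i, Eig B (θ i) (v i))
    (hs : ∀ i, ∑ y, v i y = 0) (hsep : ∀ i j, i ≠ j → Sep B (θ i) (θ j)) : False := by
  have := four_le (Γ := Γ) x (Fin.cons (fun _ => 1) v : Fin 4 → X → ℂ) (fun i => by
    refine Fin.cases (fun e => ?_) (fun i => h0 i) i
    simpa using congrFun e x) (fun i j => by
    refine Fin.cases ?_ (fun i => ?_) i <;> refine Fin.cases ?_ (fun j => ?_) j <;> intro hij g
    · exact absurd rfl hij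
    · simpa using hs j
    · simp only [Fin.cons_succ, Fin.cons_zero, mul_one, ← map_sum]
      rw [show ∑ y, v i (g • y) = ∑ y, v i y from
        Fintype.sum_equiv (MulAction.toPerm g) _ _ fun y => rfl, hs, map_zero]
    · exact (he i).orth (he j) (hsep i j fun e => hij (by rw [e])) g)
  omega

theorem not_three [IsPretransitive Γ X] {x : X}
    (h3 : Nat.card (orbitRel.Quotient (stabilizer Γ x) X) = 3) {B : Subgroup Γ}
    (θ : Fin 3 → B →* ℂˣ) (h1 : ∀ i, θ i ≠ 1)
    (hx : ∀ i, ∃ y : X, ∀ b : B, (b : Γ) • y = y → θ i b = 1)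
    (hsep : ∀ i j, i ≠ j → Sep B (θ i) (θ j)) : False := by
  choose y hy using hx
  choose v h0 he using fun i => exists_eig B (θ i) (y i) (hy i)
  exact not_three_aux h3 θ v h0 he (fun i => (he i).sum_eq (h1 i)) hsep

theorem trans_of_two [IsPretransitive Γ X] {x : X}
    (h3 : Nat.card (orbitRel.Quotient (stabilizer Γ x) X) = 3) {B : Subgroup Γ}
    (θ : Fin 2 → B →* ℂˣ) (h1 : ∀ i, θ i ≠ 1)
    (hx : ∀ i, ∃ y : X, ∀ b : B, (b : Γ) • y = y → θ i b = 1)
    (hsep : ∀ i j, i ≠ j → Sep B (θ i) (θ j)) (hs1 : ∀ i, Sep B (θ i) 1 ∧ Sep B 1 (θ i))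
    (y z : X) : ∃ b : B, (b : Γ) • y = z := by
  classical
  by_contra hc
  choose y' hy using hx
  choose v h0 he using fun i => exists_eig B (θ i) (y' i) (hy i)
  let O := univ.filter fun w : X => ∃ b : B, (b : Γ) • y = w
  let w : X → ℂ := fun u => (if u ∈ O then (Fintype.card X : ℂ) else 0) - O.card
  refine not_three_aux h3 (Fin.cons 1 θ : Fin 3 → B →* ℂˣ) (Fin.cons w v : Fin 3 → X → ℂ)
    (fun i => ?_) (fun i => ?_) (fun i => ?_) fun i j => ?_
  · refine Fin.cases (fun e => ?_) (fun i => h0 i) i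
    have := congrFun e z
    simp only [Fin.cons_zero, w, O, mem_filter, mem_univ, true_and, if_neg hc, zero_sub,
      Pi.zero_apply, neg_eq_zero, Nat.cast_eq_zero, card_eq_zero, filter_eq_empty_iff] at this
    exact this (x := y) trivial ⟨1, by simp⟩
  · refine Fin.cases (fun b u => ?_) (fun i => he i) i
    have : (b : Γ) • u ∈ O ↔ u ∈ O := by
      simp only [O, mem_filter, mem_univ, true_and]
      exact ⟨fun ⟨c, hc⟩ => ⟨b⁻¹ * c, by simp [mul_smul, hc]⟩,
        fun ⟨c, hc⟩ => ⟨b * c, by simp [mul_smul, hc]⟩⟩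
    simp [w, this]
  · refine Fin.cases ?_ (fun i => (he i).sum_eq (h1 i)) i
    simp [w, sum_sub_distrib, mul_comm]
  · refine Fin.cases ?_ (fun i => ?_) i <;> refine Fin.cases ?_ (fun j => ?_) j <;> intro hij
    · exact absurd rfl hij
    · exact (hs1 j).2
    · exact (hs1 i).1
    · exact hsep i j fun e => hij (by rw [e])

omit [Fintype Γ] [Fintype X] in
/-- four distinct invariants give rank at least four -/
theorem four_le_of_inv [Finite X] {x : X} {A C : Type*} [MulAction Γ A] (W : A)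
    (hW : ∀ g : Γ, g • x = x → g • W = W) (I : A → C)
    (hI : ∀ k : Γ, k • W = W → ∀ W', I (k • W') = I W') (g : Fin 4 → Γ)
    (hg : Function.Injective fun i => I (g i • W)) :
    4 ≤ Nat.card (orbitRel.Quotient (stabilizer Γ x) X) := by
  have := Nat.card_le_card_of_injective (fun i : Fin 4 =>
    (Quotient.mk _ (g i • x) : orbitRel.Quotient (stabilizer Γ x) X)) fun i j e => by
      obtain ⟨k, hk⟩ := Quotient.exact e
      have h1 : ((g i)⁻¹ * k * g j) • x = x := by
        rw [mul_smul, mul_smul, inv_smul_eq_iff]; exact hk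
      have h2 := hW _ h1
      rw [mul_smul, mul_smul, inv_smul_eq_iff] at h2
      exact hg (by simp only [← h2, hI k (hW k k.2)])
  simpa using this

end rank

/-- there is no polarity without absolute points -/
theorem no_polarity {F V : Type*} [Field F] [Finite F] [AddCommGroup V] [Module F V] [Finite V]
    (h3 : 3 ≤ Module.finrank F V) (φ : V → V →ₗ[F] F) (h1 : ∀ v, v ≠ 0 → φ v v ≠ 0)
    (h2 : ∀ v w, v ≠ 0 → w ≠ 0 → φ v w = 0 → φ w v = 0) : False := by
  classical
  obtain ⟨p, hp⟩ := CharP.exists F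
  have := Fintype.ofFinite F
  have := Fintype.ofFinite V
  obtain ⟨k, hpp, hk⟩ := FiniteField.card F p
  have := Fact.mk hpp
  have key : ∀ S : Submodule F V, 0 < Module.finrank F S →
      ((univ.filter fun u : {v : V // v ≠ 0} => u.1 ∈ S).card : ZMod p) = -1 := fun S hS => by
    have h4 : (univ.filter fun u : {v : V // v ≠ 0} => u.1 ∈ S).card + 1 = Nat.card S := by
      rw [← Fintype.card_subtype, ← Fintype.card_option, ← Nat.card_eq_fintype_card]
      refine Nat.card_congr ⟨fun o => o.elim 0 fun u => ⟨u.1.1, u.2⟩,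
        fun s => if h : s.1 = 0 then none else some ⟨⟨s.1, h⟩, s.2⟩, ?_, fun s => ?_⟩
      · rintro (_ | ⟨⟨u, h⟩, h'⟩) <;> simp [*]
      · by_cases h : s.1 = 0
        · simp [h]; exact Subtype.ext h.symm
        · simp [h]
    rw [Module.natCard_eq_pow_finrank (K := F), Nat.card_eq_fintype_card, hk] at h4
    have h5 := congrArg (Nat.cast : ℕ → ZMod p) h4
    rw [Nat.cast_add, Nat.cast_pow, Nat.cast_pow, ZMod.natCast_self, zero_pow k.ne_zero,
      zero_pow hS.ne', Nat.cast_one] at h5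
    exact eq_neg_of_add_eq_zero_left h5
  have hk1 : ∀ ψ : V →ₗ[F] F, Module.finrank F V ≤ Module.finrank F (LinearMap.ker ψ) + 1 :=
    fun ψ => by
      have h6 := ψ.finrank_range_add_finrank_ker
      have h7 := Submodule.finrank_le (LinearMap.range ψ)
      rw [Module.finrank_self] at h7
      omega
  let A : Matrix {v : V // v ≠ 0} {v : V // v ≠ 0} (ZMod p) :=
    Matrix.of fun v w => if φ v.1 w.1 = 0 then 1 else 0
  let J : Matrix {v : V // v ≠ 0} {v : V // v ≠ 0} (ZMod p) := Matrix.of fun _ _ => 1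
  have hAA : A * A = -J := by
    ext v w
    have h8 := Submodule.finrank_sup_add_finrank_inf_eq (LinearMap.ker (φ v.1))
      (LinearMap.ker (φ w.1))
    have h9 := Submodule.finrank_le (LinearMap.ker (φ v.1) ⊔ LinearMap.ker (φ w.1))
    have := hk1 (φ v.1)
    have := hk1 (φ w.1)
    have h10 := key (LinearMap.ker (φ v.1) ⊓ LinearMap.ker (φ w.1)) (by omega)
    simp only [Matrix.mul_apply, A, J, Matrix.of_apply, Matrix.neg_apply, ← h10, ← sum_boole]
    refine sum_congr rfl fun u _ => ?_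
    have : φ u.1 w.1 = 0 ↔ φ w.1 u.1 = 0 := ⟨h2 _ _ u.2 w.2, h2 _ _ w.2 u.2⟩
    by_cases e1 : φ v.1 u.1 = 0 <;> by_cases e2 : φ w.1 u.1 = 0 <;> simp [e1, e2, this]
  have hAJ : A * J = -J := by
    ext v w
    have := hk1 (φ v.1)
    have h10 := key (LinearMap.ker (φ v.1)) (by omega)
    simp only [Matrix.mul_apply, A, J, Matrix.of_apply, Matrix.neg_apply, ← h10, ← sum_boole]
    refine sum_congr rfl fun u _ => by simp
  have hpow : ∀ j : ℕ, A ^ (j + 2) = (-1 : ZMod p) ^ (j + 1) • J := fun j => by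
    induction j with
    | zero => rw [zero_add, sq, hAA]; simp
    | succ j ih => rw [add_right_comm, pow_succ', ih, Matrix.mul_smul, hAJ, pow_succ (-1 : ZMod p) (j + 1)]; simp
  have ht := ZMod.trace_pow_card A
  obtain ⟨j, rfl⟩ : ∃ j, p = j + 2 := ⟨p - 2, by have := hpp.two_le; omega⟩
  have hJ : J.trace = -1 := by
    rw [← key ⊤ (by rw [finrank_top]; omega)]
    simp [J, Matrix.trace]
  have hA : A.trace = 0 := by
    simp only [Matrix.trace, Matrix.diag, A, Matrix.of_apply]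
    exact sum_eq_zero fun v _ => if_neg (h1 _ v.2)
  rw [hpow, Matrix.trace_smul, hJ, hA, zero_pow (by omega), smul_eq_mul, ← pow_succ] at ht
  exact pow_ne_zero _ (neg_ne_zero.2 one_ne_zero) ht

section coprime

variable {Γ A : Type*} [Group Γ] [Group A] {p : ℕ} [Fact p.Prime]

theorem cfix_one {r : ℕ} [Fact r.Prime] (hr : r ≠ p) (hA : IsPGroup r A) {N : Subgroup Γ}
    [Finite N] (hN : IsPGroup p N) (φ ψ : A →* Γ) (h1 : ∀ a, ∀ n ∈ N, ψ a * n * (ψ a)⁻¹ ∈ N)
    {x : Γ} (h2 : ∀ a, x⁻¹ * φ a * x * (ψ a)⁻¹ ∈ N) :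
    ∃ n ∈ N, ∀ a, φ a * (x * n) = x * n * ψ a := by
  let _ : MulAction A N :=
    { smul := fun a n => ⟨x⁻¹ * φ a * x * n * (ψ a)⁻¹, by
        have := mul_mem (h2 a) (h1 a n n.2)
        convert this using 1; group⟩
      one_smul := fun n => Subtype.ext (by
        change x⁻¹ * φ 1 * x * n * (ψ 1)⁻¹ = n
        simp)
      mul_smul := fun a b n => Subtype.ext (by
        change x⁻¹ * φ (a * b) * x * n * (ψ (a * b))⁻¹ =
          x⁻¹ * φ a * x * (x⁻¹ * φ b * x * n * (ψ b)⁻¹) * (ψ a)⁻¹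
        simp only [map_mul]; group) }
  obtain ⟨k, hk⟩ := IsPGroup.iff_card.1 hN
  obtain ⟨n, hn⟩ := hA.nonempty_fixed_point_of_prime_not_dvd_card N (by
    rw [hk]
    exact fun h => hr ((Nat.prime_dvd_prime_iff_eq Fact.out Fact.out).1
      ((Fact.out : r.Prime).dvd_of_dvd_pow h)))
  refine ⟨n, n.2, fun a => ?_⟩
  have : x⁻¹ * φ a * x * n * (ψ a)⁻¹ = n := congrArg Subtype.val (hn a)
  conv_rhs => rw [← this]
  group

theorem cfix [Finite A] (hc : ∀ a b : A, a * b = b * a) (hA : ¬ p ∣ Nat.card A) {N : Subgroup Γ}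
    [Finite N] (hN : IsPGroup p N) (φ ψ : A →* Γ) (h1 : ∀ a, ∀ n ∈ N, ψ a * n * (ψ a)⁻¹ ∈ N)
    {x : Γ} (h2 : ∀ a, x⁻¹ * φ a * x * (ψ a)⁻¹ ∈ N) :
    ∃ n ∈ N, ∀ a, φ a * (x * n) = x * n * ψ a := by
  classical
  have key : ∀ s : Finset A, (∀ a ∈ s, ∃ r : ℕ, r.Prime ∧ r ≠ p ∧ IsPGroup r (Subgroup.zpowers a)) →
      ∃ n ∈ N, ∀ a ∈ s, φ a * (x * n) = x * n * ψ a := fun s => by
    induction s using Finset.induction_on with
    | empty => exact fun _ => ⟨1, one_mem _, by simp⟩
    | insert b s _ ih =>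
    intro h
    obtain ⟨n, hn, h3⟩ := ih fun a ha => h a (mem_insert_of_mem ha)
    obtain ⟨r, hr, hrp, hb⟩ := h b (mem_insert_self _ _)
    have := Fact.mk hr
    let N' := N ⊓ Subgroup.centralizer (ψ '' s)
    have : Finite N' := Finite.of_injective _ (Subgroup.inclusion_injective (inf_le_left : N' ≤ N))
    have hcm : ∀ a c, ψ a * ψ c = ψ c * ψ a := fun a c => by rw [← map_mul, hc, map_mul]
    have hcm' : ∀ a c, φ a * φ c = φ c * φ a := fun a c => by rw [← map_mul, hc, map_mul]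
    obtain ⟨m, hm, h4⟩ := cfix_one hrp hb (N := N') (hN.to_le inf_le_left)
      (φ.comp (Subgroup.subtype _)) (ψ.comp (Subgroup.subtype _)) (x := x * n)
      (fun a m hm => ⟨h1 _ _ hm.1, by
        rintro _ ⟨c, hc, rfl⟩
        have e := hm.2 _ ⟨c, hc, rfl⟩
        simp only [MonoidHom.comp_apply, Subgroup.coe_subtype]
        calc ψ c * (ψ a * m * (ψ a)⁻¹) = (ψ c * ψ a) * m * (ψ a)⁻¹ := by group
          _ = ψ a * (ψ c * m) * (ψ a)⁻¹ := by rw [hcm]; group
          _ = ψ a * m * (ψ a)⁻¹ * (ψ a * ψ c) * (ψ a)⁻¹ := by rw [e]; group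
          _ = _ := by rw [hcm]; group⟩)
      (fun a => ⟨by
        have := mul_mem (mul_mem (inv_mem hn) (h2 a)) (h1 a n hn)
        rw [show n⁻¹ * (x⁻¹ * φ a * x * (ψ a)⁻¹) * (ψ a * n * (ψ a)⁻¹) =
          (x * n)⁻¹ * φ a * (x * n) * (ψ a)⁻¹ by group] at this
        exact this, by
        rintro _ ⟨c, hc, rfl⟩
        have e := h3 c hc
        simp only [MonoidHom.comp_apply, Subgroup.coe_subtype]
        generalize x * n = y at e ⊢
        have e' : ψ c = y⁻¹ * φ c * y := by rw [mul_assoc, e]; group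
        calc ψ c * (y⁻¹ * φ a * y * (ψ a)⁻¹) = y⁻¹ * (φ c * φ a) * y * (ψ a)⁻¹ := by
              rw [e']; group
          _ = y⁻¹ * φ a * y * (ψ a)⁻¹ * (ψ a * ψ c) * (ψ a)⁻¹ := by
              rw [hcm']; conv_rhs => rw [e']
              group
          _ = _ := by rw [hcm]; group⟩)
    refine ⟨n * m, mul_mem hn hm.1, fun a ha => ?_⟩
    rcases mem_insert.1 ha with rfl | ha
    · simpa [mul_assoc] using h4 ⟨a, Subgroup.mem_zpowers a⟩
    · have e := hm.2 _ ⟨a, ha, rfl⟩
      calc φ a * (x * (n * m)) = φ a * (x * n) * m := by group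
        _ = x * n * (ψ a * m) := by rw [h3 a ha]; group
        _ = _ := by rw [e]; group
  have := Fintype.ofFinite A
  obtain ⟨n, hn, h3⟩ := key (univ.filter fun a =>
    ∃ r : ℕ, r.Prime ∧ r ≠ p ∧ IsPGroup r (Subgroup.zpowers a)) fun a ha => (mem_filter.1 ha).2
  let H : Subgroup A := φ.eqLocus ((MulAut.conj (x * n)).toMonoidHom.comp ψ)
  have hH : ∀ a, a ∈ H ↔ φ a * (x * n) = x * n * ψ a := fun a => by
    change φ a = x * n * ψ a * (x * n)⁻¹ ↔ _
    rw [eq_mul_inv_iff_mul_eq]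
  suffices H = ⊤ from ⟨n, hn, fun a => (hH a).1 (this ▸ Subgroup.mem_top a)⟩
  rw [← Subgroup.index_eq_one]
  by_contra h4
  obtain ⟨r, hr, h5⟩ := Nat.exists_prime_and_dvd h4
  have := Fact.mk hr
  obtain ⟨S⟩ : Nonempty (Sylow r A) := inferInstance
  refine S.not_dvd_index (h5.trans (Subgroup.index_dvd_of_le fun a ha => (hH a).2 (h3 a ?_)))
  exact mem_filter.2 ⟨mem_univ _, r, hr, fun e => hA (e ▸ h5.trans H.index_dvd_card),
    S.2.to_le (Subgroup.zpowers_le.2 ha)⟩

end coprime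

theorem subring_eq_top {F : Type*} [Field F] [Finite F] {q : ℕ} (hF : Nat.card F = q ^ 2)
    (R : Subring F) (h : q < Nat.card R) : R = ⊤ := by
  have := Fintype.ofFinite F
  let K : Subfield F := { R with
    inv_mem' := fun x hx => by
      by_cases h0 : x = 0
      · simp [h0]
      have h1 := FiniteField.pow_card_sub_one_eq_one x h0
      have h2 : 1 < Fintype.card F := Fintype.one_lt_card
      rw [show Fintype.card F - 1 = Fintype.card F - 2 + 1 by omega, pow_succ'] at h1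
      rw [inv_eq_of_mul_eq_one_right h1]
      exact R.pow_mem hx _ }
  have h1 : Nat.card F = Nat.card R ^ Module.finrank K F := Module.natCard_eq_pow_finrank (K := K)
  have h2 : 0 < Module.finrank K F := Module.finrank_pos
  have h3 : Module.finrank K F < 2 := by
    by_contra h4
    have h5 := Nat.pow_le_pow_right (n := Nat.card R) (by omega) (not_lt.1 h4)
    have h6 := Nat.pow_lt_pow_left h two_ne_zero
    omega
  rw [show Module.finrank K F = 1 by omega, pow_one] at h1
  exact SetLike.coe_injective (Set.eq_univ_of_forall fun x =>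
    (AddSubgroup.eq_top_of_card_eq R.toAddSubgroup h1.symm).ge (AddSubgroup.mem_top x))

/-- the scalars preserving an additive subgroup -/
def scal (F : Type*) {V : Type*} [Field F] [AddCommGroup V] [Module F V] (A : AddSubgroup V) :
    Subring F where
  carrier := {c | ∀ a ∈ A, c • a ∈ A}
  mul_mem' {c d} hc hd a ha := by rw [mul_smul]; exact hc _ (hd a ha)
  one_mem' a ha := by rwa [one_smul]
  add_mem' {c d} hc hd a ha := by rw [add_smul]; exact add_mem (hc a ha) (hd a ha)
  zero_mem' a _ := by rw [zero_smul]; exact zero_mem _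
  neg_mem' {c} hc a ha := by rw [neg_smul]; exact neg_mem (hc a ha)

theorem eq_top_of_points {F : Type*} [Field F] [Finite F] (Y : AddSubgroup (F × F))
    (h0 : Y ≠ ⊥) (h : ∀ d d' : F × F, d ≠ 0 → d' ≠ 0 → ∃ a : F, a ≠ 0 ∧
      ∀ c : F, c • d ∈ Y → (c * a) • d' ∈ Y) : Y = ⊤ := by
  classical
  have := Fintype.ofFinite F
  obtain ⟨p, hp⟩ := CharP.exists F
  obtain ⟨k, hpp, hk⟩ := FiniteField.card F p
  have := Fact.mk hpp
  let C : F × F → AddSubgroup F := fun d =>
    Y.comap (LinearMap.toSpanSingleton F (F × F) d).toAddMonoidHom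
  have hle : ∀ d d', d ≠ 0 → d' ≠ 0 → Nat.card (C d) ≤ Nat.card (C d') := fun d d' h1 h2 => by
    obtain ⟨a, ha, h3⟩ := h d d' h1 h2
    exact Nat.card_le_card_of_injective (fun c => ⟨c.1 * a, h3 _ c.2⟩) fun c c' e =>
      Subtype.ext (mul_right_cancel₀ ha (congrArg Subtype.val e))
  have h10 : ((1, 0) : F × F) ≠ 0 := by simp
  obtain ⟨s, hs⟩ : ∃ s, Nat.card (C (1, 0)) = s := ⟨_, rfl⟩
  have heq : ∀ d, d ≠ 0 → Nat.card (C d) = s := fun d hd =>
    hs ▸ le_antisymm (hle _ _ hd h10) (hle _ _ h10 hd)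
  have hcnt : ∑ d : F × F, Nat.card (C d) = ∑ c : F, (univ.filter fun d => c • d ∈ Y).card := by
    simp only [card_filter]
    rw [sum_comm]
    refine sum_congr rfl fun d _ => ?_
    rw [← card_filter, ← Fintype.card_subtype, ← Nat.card_eq_fintype_card]; rfl
  have hc2 : ∀ c ∈ (univ : Finset F).erase 0, (univ.filter fun d => c • d ∈ Y).card = Nat.card Y :=
    fun c hc => by
      rw [← Fintype.card_subtype, ← Nat.card_eq_fintype_card]
      exact Nat.card_congr (Equiv.subtypeEquiv (MulAction.toPerm (Units.mk0 c (ne_of_mem_erase hc)))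
        fun _ => Iff.rfl)
  rw [← sum_erase_add _ _ (mem_univ 0), ← sum_erase_add _ _ (mem_univ 0),
    sum_congr rfl (g := fun _ => s) (fun d hd => heq d (ne_of_mem_erase hd)),
    sum_congr rfl hc2] at hcnt
  have hC0 : C 0 = ⊤ := by ext c; simp [C]
  simp only [hC0, sum_const, card_erase_of_mem (mem_univ _), card_univ, smul_eq_mul, zero_smul,
    zero_mem, filter_true, AddSubgroup.card_top, Nat.card_eq_fintype_card (α := F),
    Fintype.card_prod] at hcnt
  obtain ⟨a, -, ha⟩ := (Nat.dvd_prime_pow hpp (m := k + k) (i := Nat.card Y)).1 (by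
    rw [pow_add, ← hk, ← Fintype.card_prod, ← Nat.card_eq_fintype_card]
    exact Y.card_addSubgroup_dvd_card)
  obtain ⟨b, hb', hb⟩ := (Nat.dvd_prime_pow hpp (m := k) (i := s)).1 (by
    rw [← hk, ← Nat.card_eq_fintype_card]
    exact hs ▸ (C (1, 0)).card_addSubgroup_dvd_card)
  have h1 : 1 < Fintype.card F := Fintype.one_lt_card
  have h2 : 1 < Nat.card Y := by
    rw [← AddSubgroup.one_lt_card_iff_ne_bot] at h0; exact h0
  have h3 : (Fintype.card F + 1 : ℤ) * (s - 1) = Nat.card Y - 1 := by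
    apply mul_left_cancel₀ (a := (Fintype.card F - 1 : ℤ)) (by omega)
    zify [h1.le, show 1 ≤ Fintype.card F * Fintype.card F by nlinarith] at hcnt
    linear_combination hcnt
  rcases hb'.eq_or_lt with rfl | hb'
  · refine AddSubgroup.eq_top_of_card_eq _ ?_
    rw [Nat.card_prod, Nat.card_eq_fintype_card (α := F)]
    rw [hb, ← hk] at h3
    zify; linear_combination -h3
  exfalso
  have h4 : s < Nat.card Y := by
    have : (1 : ℤ) < s := by
      by_contra h5
      have : (Fintype.card F + 1 : ℤ) * (s - 1) ≤ 0 := by nlinarith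
      omega
    zify; nlinarith
  rw [ha, hb, Nat.pow_lt_pow_iff_right hpp.one_lt] at h4
  rw [ha, hb, hk] at h3
  have h5 : (p : ℤ) ^ (b + 1) ∣ p ^ b := by
    have e : (p : ℤ) ^ b = p ^ a + p ^ (k : ℕ) * (1 - p ^ b) := by
      push_cast at h3; linear_combination h3
    rw [e]
    exact dvd_add (pow_dvd_pow _ h4) ((pow_dvd_pow _ hb').mul_right _)
  have := (Nat.pow_dvd_pow_iff_le_right hpp.one_lt).1 (by exact_mod_cast h5)
  omega

end Cfsg.Agent.Rk3
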