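import Cfsg.Agent.Lib.Rk3.Torus

/-!
Characters of the torus killing the torus parts of the point stabilisers.
-/

set_option autoImplicit false

namespace Cfsg.Agent.Rk3

open Cfsg.Agent.Forms Cfsg.Agent.Forms.Form MulAction

theorem exists_char {A : Type*} [CommGroup A] [Finite A] (H : Subgroup A) {a : A} (h : a ∉ H) :
    ∃ θ : A →* ℂˣ, (∀ b ∈ H, θ b = 1) ∧ θ a ≠ 1 := by
  obtain ⟨φ, h1⟩ := CommGroup.exists_apply_ne_one_of_hasEnoughRootsOfUnity (A ⧸ H) ℂ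
    (a := (a : A ⧸ H)) (by rwa [Ne, QuotientGroup.eq_one_iff])
  exact ⟨φ.comp (QuotientGroup.mk' H), fun b hb => by
    simp [(QuotientGroup.eq_one_iff b).2 hb], h1⟩

variable {F : Type*} [Field F] [Fintype F] {q n : ℕ} (hF : Fintype.card F = q ^ 2)

include hF in
theorem exists_h90 {z : Fˣ} (h : z * z ^ q = 1) : ∃ x : Fˣ, x * (x ^ q)⁻¹ = z := by
  obtain ⟨a, ha⟩ := frobq_ne hF
  obtain ⟨u, h1, h2⟩ := hilbert90 (ι := frobq hF) (frobq_frobq hF) (ω := a)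
    (sub_ne_zero.2 ha.symm).isUnit (z := z) (by simpa [frobq_apply] using congrArg Units.val h)
  obtain ⟨u, rfl⟩ := h1
  exact ⟨u, by rw [mul_inv_eq_iff_eq_mul]; exact Units.ext (by simpa [frobq_apply] using h2)⟩

include hF in
theorem exists_nrm {c : Fˣ} (h : c ^ q = c) : ∃ x : Fˣ, x * x ^ q = c := by
  obtain ⟨a, ha⟩ := frobq_ne hF
  obtain ⟨u, h1⟩ := exists_norm_of_fixed (ι := frobq hF) (frobq_frobq hF) (ω := a)
    (sub_ne_zero.2 ha.symm).isUnit c.isUnit (by simpa [frobq_apply] using congrArg Units.val h)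
  exact ⟨Units.mk0 u (left_ne_zero_of_mul (h1 ▸ c.ne_zero)),
    Units.ext (by simpa [frobq_apply] using h1)⟩

theorem exists_dgm_mul (a : Fin n) (g : (AF n hF).Isom) :
    ∃ t : TG F q n, ∃ s ∈ (AF n hF).SIsom, g = dgm hF t * s := by
  obtain ⟨x, hx⟩ := exists_h90 hF (z := (AF n hF).detHom g) (Units.ext (by
    simpa [frobq_apply, coe_detHom] using (aForm_nondeg (hs := frobq_ne hF)).det_mul_σ_det g))
  refine ⟨⟨_, tv_mem_TG hF a x⟩, (dgm hF ⟨_, tv_mem_TG hF a x⟩)⁻¹ * g, ?_, by simp⟩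
  rw [SIsom, MonoidHom.mem_ker, map_mul, map_inv, det_dgm, prod_tv, hx, inv_mul_cancel]

theorem tB_mem {b : AB n hF} (h : b.1 ∈ (AF n hF).SIsom) : (tB hF b).1 ∈ Tor F q n :=
  ⟨(tB hF b).2, by rw [← detHom_eq]; exact h⟩

theorem dg_conj {b u : (AF n hF).Isom} (hb : b ∈ AB n hF) (hu : u ∈ AB n hF) (i : Fin n) :
    dg (u * b * u⁻¹) i = dg b i := by
  rw [dg_mul (mul_mem hu hb) (inv_mem hu), dg_mul hu hb, mul_comm, ← mul_assoc, dg_inv_mul hu,
    one_mul]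

variable {Y : Type*} [MulAction (AF n hF).Isom Y]

variable (n) in
/-- the torus part of a point stabiliser -/
def St (ω : Y) : Subgroup (Tor F q n) where
  carrier := {t | ∃ b ∈ AB n hF, b • ω = ω ∧ ∀ i, dg b i = t.1 i}
  one_mem' := ⟨1, one_mem _, one_smul _ _, fun i => dg_one i⟩
  mul_mem' := fun ⟨a, a1, a2, a3⟩ ⟨b, b1, b2, b3⟩ => ⟨a * b, mul_mem a1 b1, by rw [mul_smul, b2, a2],
    fun i => by rw [dg_mul a1 b1, a3, b3]; simp⟩
  inv_mem' := fun ⟨a, a1, a2, a3⟩ => ⟨a⁻¹, inv_mem a1, by rw [inv_smul_eq_iff, a2], fun i => by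
    simpa [← a3] using eq_inv_of_mul_eq_one_left (dg_inv_mul a1 i)⟩

theorem St_le {ω : Y} {b : (AF n hF).Isom} (hb : b ∈ AB n hF) : St n hF ω ≤ St n hF (b • ω) :=
  fun _ ⟨a, a1, a2, a3⟩ => ⟨b * a * b⁻¹, mul_mem (mul_mem hb a1) (inv_mem hb), by
    simp [mul_smul, a2], fun i => by rw [dg_conj hF a1 hb, a3]⟩

theorem St_smul {ω : Y} {b : (AF n hF).Isom} (hb : b ∈ AB n hF) : St n hF (b • ω) = St n hF ω :=
  le_antisymm (by simpa using St_le hF (ω := b • ω) (inv_mem hb)) (St_le hF hb)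

/-- characters occurring in the permutation module -/
def Occ (Y : Type*) [MulAction (AF n hF).Isom Y] (θ : Tor F q n →* ℂˣ) : Prop :=
  θ ≠ 1 ∧ ∃ ω : Y, ∀ t ∈ St n hF ω, θ t = 1

variable (n Y) in
/-- the consequences of rank three -/
structure R3 : Prop where
  det : ∀ (g : (AF n hF).Isom) (ω : Y), g • ω = ω → g ∈ (AF n hF).SIsom
  trans : IsPretransitive (AF n hF).Isom Y
  three : ∀ a b c : Tor F q n →* ℂˣ, Occ hF Y a → Occ hF Y b → Occ hF Y c → Rel a b ∨ Rel a c ∨ Rel b c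
  two : ∀ a b : Tor F q n →* ℂˣ, Occ hF Y a → Occ hF Y b → ¬ Rel a b → ∀ ω ω' : Y, ∃ b ∈ AB n hF, b • ω = ω'

theorem r3 (hq : 3 ≤ q) (a : Fin n) {X : Type*} [Fintype X] [MulAction (AF n hF).SIsom X]
    [IsPretransitive (AF n hF).SIsom X] {x : X}
    (h3 : Nat.card (orbitRel.Quotient (stabilizer (AF n hF).SIsom x) X) = 3) :
    R3 n hF ((AF n hF).Isom ⧸ (stabilizer (AF n hF).SIsom x).map (AF n hF).SIsom.subtype) := by
  set K := (stabilizer (AF n hF).SIsom x).map (AF n hF).SIsom.subtype with hK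
  have := Fintype.ofFinite (AF n hF).SIsom
  let B := (AB n hF).subgroupOf (AF n hF).SIsom
  let τ : B →* Tor F q n := MonoidHom.mk' (fun b => ⟨_, tB_mem hF (b := ⟨b.1.1, b.2⟩) b.1.2⟩)
    fun a b => Subtype.ext (congrArg (Subtype.val (p := (· ∈ TG F q n)))
      (map_mul (tB hF) ⟨a.1.1, a.2⟩ ⟨b.1.1, b.2⟩))
  have hτ : ∀ b i, ((τ b).1 i : F) = dg b.1.1 i := fun _ _ => rfl
  have hd : ∀ t : Tor F q n, dgm hF ⟨t, t.2.1⟩ ∈ (AF n hF).SIsom := fun t => by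
    rw [SIsom, MonoidHom.mem_ker, det_dgm]; exact t.2.2
  have hsep : ∀ θ η : Tor F q n →* ℂˣ, ¬ Rel θ η → Sep B (θ.comp τ) (η.comp τ) := fun θ η h g => by
    by_contra hc
    push Not at hc
    obtain ⟨π, hπ, h1⟩ := bruhat hF hq g.1
    refine h ⟨π, hπ, fun t => ?_⟩
    obtain ⟨b, b1, u, u1, u2, b2⟩ := h1 ⟨t, t.2.1⟩
    have h2 : b ∈ (AF n hF).SIsom := by
      have := Subgroup.Normal.conj_mem inferInstance _ (hd t) u⁻¹
      rw [inv_inv, ← u2] at this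
      simpa [mul_assoc] using Subgroup.Normal.conj_mem inferInstance _ this g.1⁻¹
    have h4 := aU_le_aB u1
    have := hc ⟨⟨b, h2⟩, b1⟩ (show g.1 * b * g.1⁻¹ ∈ AB n hF from
      u2 ▸ mul_mem (mul_mem (inv_mem h4) (dgm_mem hF _)) h4)
    simp only [MonoidHom.comp_apply] at this
    convert this using 2
    · ext i
      rw [hτ]
      change _ = dg (g.1 * b * g.1⁻¹) i
      have := dg_conj hF (dgm_mem hF ⟨t, t.2.1⟩) (inv_mem h4) i
      rw [inv_inv] at this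
      rw [u2, this, dg_dgm]
    · ext i
      exact (b2 i).symm
  have hne : ∀ θ : Tor F q n →* ℂˣ, θ ≠ 1 → θ.comp τ ≠ 1 := fun θ h e => h (MonoidHom.ext fun t => by
    have := DFunLike.congr_fun e ⟨⟨_, hd t⟩, dgm_mem hF _⟩
    simp only [MonoidHom.comp_apply, MonoidHom.one_apply] at this ⊢
    convert this using 2
    ext i
    rw [hτ, dg_dgm])
  have hfix : ∀ (s : (AF n hF).SIsom) (g : (AF n hF).Isom), s • x = x →
      (g * s : (AF n hF).Isom) = (g : (AF n hF).Isom ⧸ K) := fun s g h => by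
    rw [QuotientGroup.eq]
    exact ⟨s⁻¹, inv_mem h, by simp⟩
  have hocc : ∀ θ, Occ hF ((AF n hF).Isom ⧸ K) θ →
      ∃ y : X, ∀ b : B, (b : (AF n hF).SIsom) • y = y → θ.comp τ b = 1 := by
    rintro θ ⟨-, ω, h⟩
    obtain ⟨g, rfl⟩ := QuotientGroup.mk_surjective ω
    obtain ⟨t, s, hs, rfl⟩ := exists_dgm_mul hF a g
    rw [show ((dgm hF t * s : (AF n hF).Isom) : (AF n hF).Isom ⧸ K) =
      dgm hF t • (s : (AF n hF).Isom ⧸ K) from rfl, St_smul hF (dgm_mem hF t)] at h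
    refine ⟨(⟨s, hs⟩ : (AF n hF).SIsom) • x, fun b hb => h _ ⟨b.1.1, b.2, ?_, fun i => rfl⟩⟩
    rw [← mul_smul, ← inv_smul_eq_iff, ← mul_smul] at hb
    conv_rhs => rw [← hfix _ s hb]
    change ((_ * _ : (AF n hF).Isom) : _ ⧸ K) = _
    simp
  refine ⟨fun g ω h => ?_, inferInstance, fun a b c ha hb hc => ?_, fun a' b ha hb h ω ω' => ?_⟩
  · obtain ⟨k, rfl⟩ := QuotientGroup.mk_surjective ω
    obtain ⟨s, -, hs⟩ := QuotientGroup.eq.1 (show ((g * k : (AF n hF).Isom) : _ ⧸ K) = k from h)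
    have := Subgroup.Normal.conj_mem inferInstance _ (inv_mem s.2) k
    simpa [show s.1 = _ from hs, mul_assoc] using this
  · by_contra hcon
    push Not at hcon
    refine not_three h3 (fun i => (![a, b, c] i).comp τ) (fun i => hne _ ?_) (fun i => hocc _ ?_)
      fun i j hij => hsep _ _ fun h => ?_
    · fin_cases i
      exacts [ha.1, hb.1, hc.1]
    · fin_cases i
      exacts [ha, hb, hc]
    · fin_cases i <;> fin_cases j
      exacts [hij rfl, hcon.1 h, hcon.2.1 h, hcon.1 h.symm, hij rfl, hcon.2.2 h, hcon.2.1 h.symm,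
        hcon.2.2 h.symm, hij rfl]
  · obtain ⟨g, rfl⟩ := QuotientGroup.mk_surjective ω
    obtain ⟨g', rfl⟩ := QuotientGroup.mk_surjective ω'
    obtain ⟨t, s, hs, rfl⟩ := exists_dgm_mul hF a g
    obtain ⟨t', s', hs', rfl⟩ := exists_dgm_mul hF a g'
    have h1 : ∀ θ : Tor F q n →* ℂˣ, θ ≠ 1 → ¬ Rel θ 1 := fun θ h ⟨_, _, e⟩ => h (MonoidHom.ext e)
    have h2 : ∀ i, Occ hF _ (![a', b] i) := fun i => by
      fin_cases i
      exacts [ha, hb]
    obtain ⟨c, hc⟩ := trans_of_two h3 (fun i => (![a', b] i).comp τ) (fun i => hne _ (h2 i).1)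
      (fun i => hocc _ (h2 i)) (fun i j hij => hsep _ _ fun h' => by
        fin_cases i <;> fin_cases j
        exacts [hij rfl, h h', h h'.symm, hij rfl])
      (fun i => ⟨hsep _ 1 (h1 _ (h2 i).1), hsep 1 _ fun e => h1 _ (h2 i).1 e.symm⟩)
      ((⟨s, hs⟩ : (AF n hF).SIsom) • x) ((⟨s', hs'⟩ : (AF n hF).SIsom) • x)
    refine ⟨dgm hF t' * c.1.1 * (dgm hF t)⁻¹, mul_mem (mul_mem (dgm_mem hF _) c.2)
      (inv_mem (dgm_mem hF _)), ?_⟩
    rw [← mul_smul, ← inv_smul_eq_iff, ← mul_smul] at hc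
    rw [← hfix _ (dgm hF t' * s') hc]
    change ((_ * _ : (AF n hF).Isom) : _ ⧸ K) = _
    simp [mul_assoc]

end Cfsg.Agent.Rk3
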