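import Cfsg.Agent.Lib.Rk3.Split

/-!
Extraction of Eichler transformations.
-/

set_option autoImplicit false

namespace Cfsg.Agent.Rk3

open Module Cfsg.Agent.Forms Cfsg.Agent.Forms.Form Cfsg.Agent.Cls Cfsg.Agent.Deg Cfsg.Agent.MI
  MulAction

variable {F : Type*} [Field F] [Fintype F] {q m : ℕ} {hF : Fintype.card F = q ^ 2}

local notation:max "𝐞" i:max => (Pi.single i (1 : F) : Fin _ → F)

theorem low_one {v : Fin (m + 6) → F} (h : v ∈ low F _ 1) : v = v 0 • 𝐞 0 :=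
  sub_eq_zero.1 (low_zero (sub_single_mem_low (i := 0) h))

theorem low_two {v : Fin (m + 6) → F} (h : v ∈ low F _ 2) : v = v 0 • 𝐞 0 + v 1 • 𝐞 1 := by
  simpa [sub_eq_iff_eq_add] using low_one (sub_single_mem_low (i := 1) h)

theorem low_three {v : Fin (m + 6) → F} (h : v ∈ low F _ 3) :
    v = v 0 • 𝐞 0 + v 1 • 𝐞 1 + v 2 • 𝐞 2 := by
  have H := tri012 (m := m)
  simpa [sub_eq_iff_eq_add, H.ac.1, H.bc.1] using low_two (sub_single_mem_low (i := 2) h)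

theorem e0_low : 𝐞 (0 : Fin (m + 6)) ∈ low F _ 1 := single_mem_low Nat.one_pos 1
theorem e1_low : 𝐞 (1 : Fin (m + 6)) ∈ low F _ 2 := single_mem_low Nat.one_lt_two 1

theorem aU_e0 {u : (AF (m + 6) hF).Isom} (h : u ∈ AU _ hF) : u.1 𝐞 0 = 𝐞 0 :=
  sub_eq_zero.1 (low_zero (h 0 _ e0_low))

theorem aU_e1 {u : (AF (m + 6) hF).Isom} (h : u ∈ AU _ hF) : ∃ c : F, u.1 𝐞 1 = 𝐞 1 + c • 𝐞 0 :=
  ⟨_, sub_eq_iff_eq_add'.1 (low_one (h 1 _ e1_low))⟩

theorem Qe {n : ℕ} {i : Fin n} (h : i ≠ i.rev) : (AF n hF).Q 𝐞 i = 0 := aQ_single h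

variable (hF) in
theorem Be {n : ℕ} (u : Fin n → F) (i : Fin n) : (AF n hF).B u 𝐞 i = u i.rev := aForm_B_single u i

variable (hF) in
theorem eB {n : ℕ} (u : Fin n → F) (i : Fin n) : (AF n hF).B 𝐞 i u = frobq hF (u i.rev) :=
  aForm_single_B u i

theorem exists_tri {c : Fin (m + 6)} (h : c ≠ c.rev) (h' : DP 0 c) : ∃ d, Tri 0 c d := by
  have H := tri012 (m := m)
  by_cases e : DP c 1
  · exact ⟨1, H.na, h, H.nb, h', H.ab, e⟩
  · exact ⟨2, H.na, h, H.nc, h', H.ac, H.bc.of_not e⟩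

variable (hF) in
/-- the stabilisers have large tori -/
structure RII (n : ℕ) (Y : Type*) [MulAction (AF n hF).Isom Y] (l e : ℕ) : Prop where
  hq : 3 ≤ q
  hl : l.Prime
  he : e = 2 ∨ e = 3
  pw : ∀ (ω : Y) t, t ^ l ∈ St n hF ω
  root : ∀ a c d, Tri a c d → ∀ (ω : Y) (y : Fˣ), ∃ t ∈ St n hF ω, t.1 c = t.1 a * y ^ e

variable {Y : Type*} [MulAction (AF (m + 6) hF).Isom Y] {l e : ℕ} {ω : Y}

variable (hF) in
include hF in
theorem pow_sub_rev {n : ℕ} (t : Tor F q n) (i : Fin n) :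
    (t ^ (q - 1)).1 i.rev = (t ^ (q - 1)).1 i := by
  have hq := two_le_q hF
  obtain ⟨r, rfl⟩ : ∃ r, q = r + 1 := ⟨q - 1, by omega⟩
  simp only [SubgroupClass.coe_pow, Pi.pow_apply, TG.rev t.2.1, add_tsub_cancel_right, inv_pow]
  rw [inv_eq_iff_mul_eq_one, ← mul_pow]
  apply mul_right_cancel (b := t.1 i ^ (r + 1) * t.1 i)
  rw [← pow_succ, mul_pow, pow_qq hF, one_mul, mul_comm]

theorem RII.exists_h (R : RII hF (m + 6) Y l e) (ω : Y) :
    ∃ t ∈ St (m + 6) hF ω, (∀ i, t.1 i.rev = t.1 i) ∧ t.1 1 ≠ t.1 0 := by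
  obtain ⟨y, hy⟩ := exists_gen hF
  obtain ⟨t, h1, h2⟩ := R.root _ _ _ tri012 ω y
  refine ⟨t ^ (q - 1), pow_mem h1 _, pow_sub_rev hF t, fun h => ?_⟩
  simp only [SubgroupClass.coe_pow, Pi.pow_apply, h2, mul_pow, mul_eq_left, ← pow_mul, hy] at h
  have hq := R.hq
  obtain ⟨r, rfl⟩ : ∃ r, q = r + 1 := ⟨q - 1, by omega⟩
  rw [show (r + 1) ^ 2 - 1 = (r + 2) * r by rw [Nat.sub_eq_of_eq_add]; ring] at h
  have := Nat.le_of_dvd (by have := R.he; omega) (Nat.dvd_of_mul_dvd_mul_right (by omega) h)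
  have := R.he
  omega

theorem RII.ext (R : RII hF (m + 6) Y l e) (h : Spl (m + 6) hF ω) {k : (AF (m + 6) hF).Isom}
    (hk : k ∈ AU _ hF) (k1 : k • ω = ω) (k2 : k.1 𝐞 1 ≠ 𝐞 1) :
    ∃ a ∈ Sb (AF (m + 6) hF) 𝐞 0 ω, a (Fin.rev 1) ≠ 0 := by
  have H := tri012 (m := m)
  obtain ⟨p, -, hp, hc, -⟩ := exists_char_pow hF
  have := Fact.mk hp
  let A : Subgroup (Tor F q (m + 6)) := St (m + 6) hF ω ⊓ (rt 0 1).ker
  have hA : ∀ t ∈ A, t.1 0 = t.1 1 := fun t ht => div_eq_one.1 ht.2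
  let N : Subgroup (AF (m + 6) hF).Isom := AU _ hF ⊓ (stabilizer _ ω ⊓
    (stabilizer _ 𝐞 (1 : Fin (m + 6))).comap (AF (m + 6) hF).Isom.subtype)
  have hN : ∀ u, u ∈ N ↔ u ∈ AU _ hF ∧ u • ω = ω ∧ u.1 𝐞 1 = 𝐞 1 := fun _ => Iff.rfl
  have hd : ∀ (t : Tor F q (m + 6)) i, (dT hF t)⁻¹.1 𝐞 i = (t.1 i : F)⁻¹ • 𝐞 i := fun t i => by
    rw [← map_inv, dT_single]; simp
  obtain ⟨c, hc⟩ := aU_e1 hk
  obtain ⟨u, hu, h3⟩ := cfix (A := A) mul_comm (not_dvd_card hF ((Tor F q _).subtype.comp A.subtype)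
    (Subtype.val_injective.comp Subtype.val_injective)) (N := N)
    ((isPGroup_aU p).to_le inf_le_left) ((dT hF).comp A.subtype) ((dT hF).comp A.subtype)
    (fun a u hu => (hN _).2 ⟨conj_mem_aU (dT_mem hF _) hu.1, by
      have := h a a.2.1
      simp only [MonoidHom.comp_apply, Subgroup.coe_subtype, mul_smul,
        inv_smul_eq_iff.2 this.symm, ((hN _).1 hu).2.1, this], by
      simp only [Isom.mul_apply, MonoidHom.comp_apply, Subgroup.coe_subtype, hd, map_smul,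
        ((hN _).1 hu).2.2, dT_single]
      simp⟩) (x := k)
    fun a => (hN _).2 ⟨by
      simpa [mul_assoc] using mul_mem (inv_mem hk) (conj_mem_aU (dT_mem hF a) hk), by
      have := h a a.2.1
      simp only [MonoidHom.comp_apply, Subgroup.coe_subtype, mul_smul,
        inv_smul_eq_iff.2 this.symm, k1, this, inv_smul_eq_iff.2 k1.symm], by
      simp only [Isom.mul_apply, MonoidHom.comp_apply, Subgroup.coe_subtype, hd, map_smul]
      rw [hc, map_add, map_smul, dT_single, dT_single, hA a a.2, smul_comm c, ← smul_add, ← hc]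
      simp⟩
  obtain ⟨u1, u2, u3⟩ := (hN _).1 hu
  have k3 : (k * u).1 𝐞 1 = 𝐞 1 + c • 𝐞 0 := by rw [Isom.mul_apply, u3, hc]
  have k4 : (k * u) • ω = ω := by rw [mul_smul, u2, k1]
  have k5 := mul_mem hk u1
  generalize k * u = g at h3 k3 k4 k5
  have h4 : ∀ i j, DP i 0 → DP j 0 → DP i j → g.1 𝐞 j i = 0 := fun i j hi hj hij => by
    obtain ⟨s, h4, h5⟩ := exists_sep hF R.hq R.hl H hi hj hij
    have := congrArg (fun x : (AF (m + 6) hF).Isom => x.1 𝐞 j i)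
      (h3 ⟨s ^ l, R.pw ω s, div_eq_one.2 h4⟩)
    simp only [MonoidHom.comp_apply, Subgroup.coe_subtype, Isom.mul_apply, dT_apply, dT_single,
      map_smul, Pi.smul_apply, smul_eq_mul] at this
    exact (mul_eq_mul_right_iff.1 this).resolve_left fun e => h5 (Units.ext e)
  obtain ⟨t, t1, t2, t3⟩ := R.exists_h ω
  have h5 : ∀ w : Fin (m + 6) → F, w (Fin.rev 0) = 0 →
      (dT hF t).1 (g.1 w) - g.1 ((dT hF t).1 w) ∈ F ∙ 𝐞 0 := fun w hw => by
    rw [pi_eq_sum_univ' w]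
    simp only [map_sum, map_smul, ← Finset.sum_sub_distrib, ← smul_sub]
    refine Submodule.sum_mem _ fun j _ => ?_
    by_cases hj : j = Fin.rev 0
    · rw [hj, hw, zero_smul]; exact zero_mem _
    refine Submodule.smul_mem _ _ (Submodule.mem_span_singleton.2 ⟨_, (low_one fun i hi => ?_).symm⟩)
    rw [dT_single, map_smul, Pi.sub_apply, dT_apply, Pi.smul_apply, smul_eq_mul, ← sub_mul]
    have hi0 : i ≠ 0 := fun e => by simp [e] at hi
    by_cases hj0 : j = 0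
    · rw [hj0, aU_e0 k5, Pi.single_eq_of_ne hi0, mul_zero]
    by_cases hi1 : i = Fin.rev 0
    · rw [aU_le_aB k5 _ _ (single_mem_low (Nat.lt_succ_self _) 1) i, mul_zero]
      have := j.2
      simp only [hi1, Fin.ext_iff, Fin.val_rev, val0] at hj ⊢
      omega
    by_cases hij : DP i j
    · rw [h4 i j ⟨hi0, hi1⟩ ⟨hj0, hj⟩ hij, mul_zero]
    by_cases e : i = j
    · rw [e, sub_self, zero_mul]
    · rw [show i = j.rev from not_not.1 fun e' => hij ⟨e, e'⟩, t2, sub_self, zero_mul]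
  have h6 : dT hF t * g * (dT hF t)⁻¹ * g⁻¹ ∈ AU _ hF :=
    mul_mem (conj_mem_aU (dT_mem hF t) k5) (inv_mem k5)
  obtain ⟨a, s, h7⟩ := exists_isE_of_fix aForm_nondeg (Qe H.na) (by simp) (aU_e0 h6) fun w hw => by
    have := h5 ((dT hF t)⁻¹.1 (g⁻¹.1 w)) (by
      rw [← map_inv, dT_apply, ← Be hF (g⁻¹.1 w) 0, Isom.B_left, inv_inv, aU_e0 k5, hw, mul_zero])
    simpa [Isom.mul_apply] using this
  refine ⟨a, Fx.mem_Sb ⟨_, h7, by simp only [mul_smul, inv_smul_eq_iff.2 k4.symm,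
    inv_smul_eq_iff.2 (h t t1).symm, k4, h t t1]⟩, fun h8 => k2 ?_⟩
  have h9 := h7.apply_of_orth (w := g.1 𝐞 1) (by
    rw [← aU_e0 k5, Isom.map_B, aForm_B_single, Pi.single_eq_of_ne H.ab.symm.2.symm]) (by
    rw [k3, B_add_left, B_smul_left, aForm_single_B, h8, (AF _ hF).B_eq_zero_symm h7.orth]; simp)
  rw [Isom.mul_apply, Isom.inv_apply, Isom.mul_apply, hd, map_smul, Isom.mul_apply, k3, map_add,
    map_smul, dT_single, dT_single] at h9
  have h10 := congrFun h9 0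
  simp only [Pi.add_apply, Pi.smul_apply, Pi.single_eq_same, smul_eq_mul,
    Pi.single_eq_of_ne H.ab.1, mul_zero, zero_add, mul_one] at h10
  have h11 : c = 0 := by
    by_contra h11
    field_simp at h10
    exact t3 (Units.ext h10.symm)
  rw [hc, h11, zero_smul, add_zero]

theorem RII.ext12 (R : RII hF (m + 6) Y l e) {g : (AF (m + 6) hF).Isom} (g1 : g • ω = ω) {r s : F}
    (g2 : g.1 𝐞 0 = r • 𝐞 0) (g3 : g.1 𝐞 1 = r • 𝐞 1 + s • 𝐞 0) (hs : s ≠ 0) :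
    ∃ a ∈ Sb (AF (m + 6) hF) 𝐞 0 ω, a (Fin.rev 1) ≠ 0 := by
  have H := tri012 (m := m)
  obtain ⟨p, -, hp, hc, -⟩ := exists_char_pow hF
  have := Fact.mk hp
  let P : Subgroup (AF (m + 6) hF).Isom :=
    { carrier := {x | (∀ v ∈ low F _ 1, x.1 v ∈ low F _ 1) ∧ ∀ v ∈ low F _ 2, x.1 v ∈ low F _ 2}
      one_mem' := ⟨fun _ h => h, fun _ h => h⟩
      mul_mem' := fun ha hb => ⟨fun v h => ha.1 _ (hb.1 v h), fun v h => ha.2 _ (hb.2 v h)⟩
      inv_mem' := fun ha => inv_mem_of_mul_mem (S := {x : (AF (m + 6) hF).Isom |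
          (∀ v ∈ low F _ 1, x.1 v ∈ low F _ 1) ∧ ∀ v ∈ low F _ 2, x.1 v ∈ low F _ 2})
        ⟨fun _ h => h, fun _ h => h⟩
        (fun _ ha _ hb => ⟨fun v h => ha.1 _ (hb.1 v h), fun v h => ha.2 _ (hb.2 v h)⟩) ha }
  have h0 := low_mono (F := F) (n := m + 6) one_le_two e0_low
  have hg : g ∈ P := ⟨fun v hv => by
    rw [low_one hv, map_smul, g2]; exact Submodule.smul_mem _ _ (Submodule.smul_mem _ _ e0_low),
    fun v hv => by
      rw [low_two hv, map_add, map_smul, map_smul, g2, g3]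
      exact add_mem (Submodule.smul_mem _ _ (Submodule.smul_mem _ _ h0)) (Submodule.smul_mem _ _
        (add_mem (Submodule.smul_mem _ _ e1_low) (Submodule.smul_mem _ _ h0)))⟩
  have hr : r ≠ 0 := by rintro rfl; simp at g2
  have h1 : ∀ j : ℕ, (g ^ j).1 𝐞 1 = r ^ j • (𝐞 1 + (j * s / r) • 𝐞 0) := fun j => by
    induction j with
    | zero => simp
    | succ j ih =>
      rw [pow_succ', Isom.mul_apply, ih, map_smul, map_add, map_smul, g2, g3]
      push_cast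
      match_scalars <;> field_simp <;> ring
  obtain ⟨k, j, h2, h3⟩ := Nat.exists_eq_pow_mul_and_not_dvd (orderOf_pos g).ne' p hp.ne_one
  obtain ⟨x, hx, h4⟩ := exists_conj_aU p (P := P) (fun u hu => ⟨aU_le_aB hu 1, aU_le_aB hu 2⟩)
    (pow_mem hg j) (k := k) (by rw [← pow_mul, mul_comm, ← h3, pow_orderOf_eq_one])
  obtain ⟨u, hu, h5⟩ := exists_spl (n := m + 6) hF (x • ω)
  have hy : u * x ∈ P := mul_mem ⟨aU_le_aB hu 1, aU_le_aB hu 2⟩ hx
  have h6 : u * x * g ^ j * (u * x)⁻¹ ∈ AU _ hF := by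
    simpa [mul_assoc] using conj_mem_aU (aU_le_aB hu) h4
  rw [← mul_smul] at h5
  generalize u * x = y at hy h5 h6
  obtain ⟨a, a1, a2⟩ := R.ext h5 h6 (by
    rw [mul_smul, inv_smul_smul, mul_smul, (pow_mem (show g ∈ stabilizer _ ω from g1) j :)])
    fun e => by
      have e1 : (y * g ^ j * y⁻¹).1 (y.1 𝐞 1) = y.1 𝐞 1 := by
        rw [low_two (hy.2 _ e1_low), map_add, map_smul, map_smul, e, aU_e0 h6]
      simp only [Isom.mul_apply, Isom.inv_apply, EmbeddingLike.apply_eq_iff_eq, h1] at e1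
      simpa [hr, hs, H.ab.1, CharP.cast_eq_zero_iff F p, h2] using congrFun e1 0
  have h7 := low_one ((inv_mem hy).1 _ e0_low)
  have h8 : y⁻¹.1 𝐞 0 0 ≠ 0 := fun e => by rw [e, zero_smul] at h7; simp at h7
  have h9 := map_mem_Sb y⁻¹ a1
  rw [inv_smul_smul, h7, mem_Sb_smul (Qe H.na) h8] at h9
  refine ⟨_, h9, fun e => a2 ?_⟩
  rw [← Be hF a, ← Isom.map_B y⁻¹, low_two ((inv_mem hy).2 _ e1_low)]
  have h10 := orth_of_mem_Sb (Qe H.na) h9
  replace e := (Be hF _ 1).trans e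
  simp only [B_smul_left, mul_eq_zero, map_eq_zero, h8, false_or] at e h10
  rw [B_add_right, B_smul_right, B_smul_right, e, h10]; simp

end Cfsg.Agent.Rk3
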