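import Cfsg.Agent.Lib.MI.U5

/-!
Irreducible subgroups of unitary groups containing large groups of Eichler transformations.
-/

set_option autoImplicit false

namespace Cfsg.Agent.Rk3

open Module Cfsg.Agent.Forms Cfsg.Agent.Forms.Form Cfsg.Agent.Cls Cfsg.Agent.Deg Cfsg.Agent.MI

variable {F : Type*} [Field F] {V : Type*} [AddCommGroup V] [Module F V]
  [Fintype F] {q : ℕ} {hF : Fintype.card F = q ^ 2} {f : Form (uP hF) V}
  {X : Type*} [MulAction f.Isom X] {ω : X} {x y z a b w : V} {c l : F} {g k : f.Isom}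

theorem uE_app (h : IsE g x a l) (w : V) :
    g.1 w = w + f.B w x • a - f.B w a • x - (l * f.B w x) • x := by simpa using h.app w

theorem exists_lam0 (hF : Fintype.card F = q ^ 2) : ∃ l, l ≠ 0 ∧ Lam0 (uP hF) l := by
  obtain ⟨a, ha⟩ := frobq_ne hF
  exact ⟨frobq hF a - a, sub_ne_zero.2 ha, lam0_unit'.2 (by simp [frobq_frobq])⟩

theorem exists_fixed (hF : Fintype.card F = q ^ 2) (hq : 3 ≤ q) :
    ∃ c : F, c ≠ 0 ∧ c ≠ 1 ∧ frobq hF c = c := by
  obtain ⟨l, h0, hl⟩ := exists_lam0 hF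
  have : 2 < Nat.card (Lam (uP hF)) := by rw [card_Lam_unit]; omega
  obtain ⟨⟨m, hm⟩, h1, h2⟩ : ∃ m : Lam (uP hF), m ≠ 0 ∧ m ≠ ⟨l, hl⟩ := by
    have i := Fintype.ofFinite (Lam (uP hF))
    rw [Nat.card_eq_fintype_card] at this
    obtain ⟨a, b, c, h3, h4, h5⟩ := Fintype.two_lt_card_iff.1 this
    by_contra hc
    have key : ∀ m : Lam (uP hF), m = 0 ∨ m = ⟨l, hl⟩ := fun m => by
      by_contra! e; exact hc ⟨m, e⟩
    rcases key a with rfl | rfl <;> rcases key b with rfl | rfl <;> rcases key c with rfl | rfl <;>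
      contradiction
  refine ⟨m / l, div_ne_zero (fun e => h1 (Subtype.ext e)) h0,
    fun e => h2 (Subtype.ext ((div_eq_one_iff_eq h0).1 e)), ?_⟩
  rw [map_div₀, mem_Lam_unit.1 hm, lam0_unit'.1 hl, neg_div_neg_eq]

theorem fx_shift (hx : f.Q x = 0) (hy : f.Q y = 0) (hxy : f.B x y = 0) (hb : f.B b y = 0)
    (h : Fx f (x + c • y) b l ω) (h' : Fx f x b l ω) :
    frobq hF c • b - (l * frobq hF c) • x ∈ Sb f y ω := by
  obtain ⟨g, h1, h2⟩ := h
  obtain ⟨g', h1', h2'⟩ := h'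
  have h3 := (unit_isLam_iff f).1 h1.lam
  have h4 := h1'.orth
  have h5 := f.B_eq_zero_symm h4
  have h6 := f.B_self_of_Q hx
  obtain ⟨k, hk⟩ := exists_isE (v := frobq hF c • b - (l * frobq hF c) • x)
    (l := c * frobq hF c * l) hy (by simp [hb, hxy]) ((unit_isLam_iff f).2 (by
      simp [uB_smul, h4, h5, h6, frobq_frobq, ← h3]; ring))
  refine Fx.mem_Sb (l := c * frobq hF c * l) ⟨k, hk, ?_⟩
  have : g = k * g' := Isom.ext fun w => by
    simp only [Isom.mul_apply, uE_app hk, uE_app h1, uE_app h1', B_add_left, B_sub_left,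
      B_smul_left, B_add_right, B_sub_right, uB_smul, hb, hxy, h4, h5, h6, map_mul, frobq_frobq,
      ← h3]
    module
  rw [this, mul_smul, h2'] at h2
  exact h2

theorem tau_eq_of (hx : f.Q x = 0) (hb : b ∈ Sb f x ω) (h : ∀ c, ∃ b' ∈ Sb f x ω, f.B b' b = c) :
    tau f x ω = Lam (uP hF) := by
  refine le_antisymm (tau_le _ _) fun l hl => ?_
  obtain ⟨c, rfl⟩ := exists_sub_eq hl
  obtain ⟨b', h1, rfl⟩ := h c
  simpa [uB_symm b' b] using comm_mem_tau hx h1 hb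

theorem mem_Sb_of_add (s : F) (h : a + s • x ∈ Sb f x ω) : a ∈ Sb f x ω := by
  simpa using sub_mem h (smul_self_mem_Sb s)

variable (f) in
/-- centres of full transvection groups -/
def Dl (ω : X) (z : V) : Prop := f.Q z = 0 ∧ z ≠ 0 ∧ tau f z ω = Lam (uP hF)

theorem Dl.map (h : Dl f ω z) (hk : k • ω = ω) : Dl f ω (k.1 z) :=
  ⟨by rw [Isom.map_Q, h.1], (map_ne_zero_iff _ k.1.injective).2 h.2.1, by
    rw [← h.2.2, ← tau_map (u := z) k, hk]⟩

theorem Dl.smul (h : Dl f ω z) (hc : c ≠ 0) : Dl f ω (c • z) :=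
  ⟨by rw [f.Q_smul, h.1, mul_zero], smul_ne_zero hc h.2.1, tau_smul_eq_Lam h.1 h.2.2 hc⟩

variable (f) in
/-- an element scaling a hyperbolic pair -/
def Hs (ω : X) (x z : V) (c : F) : Prop := ∃ g : f.Isom, g • ω = ω ∧ g.1 x = c • x ∧
  (∀ w, f.B w x = 0 → g.1 w - w ∈ F ∙ x) ∧ c • g.1 z - z ∈ F ∙ x

theorem Hs.map (h : Hs f ω x z c) (hk : k • ω = ω) : Hs f ω (k.1 x) (k.1 z) c := by
  obtain ⟨g, h1, h2, h3, h4⟩ := h
  have key : ∀ v, v ∈ F ∙ x → k.1 v ∈ F ∙ k.1 x := fun v hv => by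
    obtain ⟨s, rfl⟩ := Submodule.mem_span_singleton.1 hv
    exact Submodule.mem_span_singleton.2 ⟨s, by simp⟩
  refine ⟨k * g * k⁻¹, by rw [mul_smul, mul_smul, inv_smul_eq_iff.2 hk.symm, h1, hk],
    by simp [h2], fun w hw => ?_, by simpa using key _ h4⟩
  simpa using key _ (h3 (k⁻¹.1 w) (by rwa [← Isom.B_right]))

theorem Hs.smul (h : Hs f ω x z c) {s : F} (hs : s ≠ 0) (t : F) : Hs f ω (s • x) (t • z) c := by
  obtain ⟨g, h1, h2, h3, h4⟩ := h
  rw [← Submodule.span_singleton_smul_eq hs.isUnit] at h3 h4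
  refine ⟨g, h1, by rw [map_smul, h2, smul_comm], fun w hw => h3 w ?_, ?_⟩
  · simpa [uB_smul, hs] using hw
  · rw [map_smul, smul_comm, ← smul_sub]; exact Submodule.smul_mem _ _ h4

theorem Hs.sub (hf : f.Nondeg) (hx : f.Q x = 0) (hc : c ≠ 0) (h : Hs f ω x z c) {z' : V}
    (h' : Hs f ω x z' c) (e : f.B z x = 1) (e' : f.B z' x = 1) : (1 - c) • (z' - z) ∈ Sb f x ω := by
  obtain ⟨g, h1, h2, h3, h4⟩ := h
  obtain ⟨g', h1', h2', h3', h4'⟩ := h'
  have h5 : g⁻¹.1 x = c⁻¹ • x := by rw [eq_inv_smul_iff₀ hc, ← map_smul, ← h2, Isom.inv_apply]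
  obtain ⟨v, l, hE⟩ := exists_isE_of_fix hf hx (by rintro rfl; simp at e) (g := g' * g⁻¹)
    (by rw [Isom.mul_apply, h5, map_smul, h2', inv_smul_smul₀ hc]) fun w hw => by
      have h6 : f.B (g⁻¹.1 w) x = 0 := by rw [Isom.B_left, inv_inv, h2, uB_smul, hw, mul_zero]
      simpa using sub_mem (h3' _ h6) (h3 _ h6)
  have h6 : v ∈ Sb f x ω :=
    Fx.mem_Sb ⟨_, hE, by rw [mul_smul, inv_smul_eq_iff.2 h1.symm, h1']⟩
  obtain ⟨s, hs⟩ := Submodule.mem_span_singleton.1 h4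
  obtain ⟨s', hs'⟩ := Submodule.mem_span_singleton.1 h4'
  obtain ⟨t, ht⟩ := Submodule.mem_span_singleton.1 (h3' (z' - z) (by simp [e, e']))
  have h7 := uE_app hE z
  have h8 : g⁻¹.1 z = c • z - (s * c⁻¹) • x := by
    rw [mul_smul, ← h5, ← map_smul, hs]; simp
  rw [Isom.mul_apply, h8, map_sub, map_smul, map_smul, h2', e] at h7
  rw [map_sub] at ht
  refine mem_Sb_of_add (s' - c * t - s * c⁻¹ * c + f.B z v + l) ?_
  convert h6 using 1
  linear_combination (norm := module) h7 + hs' - c • ht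

theorem hs_of_dl (hx : Dl f ω x) (hz : Dl f ω z) (e : f.B z x = 1) (hc : c ≠ 0)
    (hc' : frobq hF c = c) : Hs f ω x z c := by
  obtain ⟨l, h0, hl⟩ := exists_lam0 hF
  have hl' := lam0_unit'.1 hl
  have h1 : Lam0 (uP hF) (-l / c) := lam0_unit'.2 (by simp [hl', hc', neg_div])
  have h2 : Lam0 (uP hF) ((c - 1) / l) := lam0_unit'.2 (by simp [hl', hc', div_neg])
  have e' : f.B x z = 1 := by rw [uB_symm, e, map_one]
  have h3 : ∀ w, (tr f z _ hz.1 h1 * tr f x _ hx.1 h2 * tr f z _ hz.1 hl).1 w =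
      w + ((c - 1) * f.B w z - (c - 1) / l * f.B w x) • x + ((c⁻¹ - 1) * f.B w x) • z := fun w => by
    simp only [Isom.mul_apply, utr_apply, B_sub_left, B_smul_left, e, e', f.B_self_of_Q hz.1]
    match_scalars <;> field_simp <;> ring
  refine ⟨tr f z _ hz.1 h1 * tr f x _ hx.1 h2 * tr f z _ hz.1 hl, by
    rw [mul_smul, mul_smul, tr_smul_eq _ _ hz.2.2, tr_smul_eq _ _ hx.2.2, tr_smul_eq _ _ hz.2.2],
    ?_, fun w hw => ?_, ?_⟩
  · rw [h3, e', f.B_self_of_Q hx.1]; module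
  · rw [h3, hw]; exact Submodule.mem_span_singleton.2 ⟨(c - 1) * f.B w z, by module⟩
  · rw [h3, e, f.B_self_of_Q hz.1]
    exact Submodule.mem_span_singleton.2 ⟨-c * ((c - 1) / l), by match_scalars <;> field_simp <;> ring⟩

variable (f) in
/-- all transvections of the subspace lie in the stabiliser -/
def Phi (ω : X) (U : Submodule F V) : Prop := ∀ w ∈ U, f.Q w = 0 → w ≠ 0 → Dl f ω w

variable [Finite V]

theorem phi_of {M : Submodule F V} (hM : ∀ a ∈ M, a ∈ Sb f x ω) (hxM : x ∈ M) (hx : Dl f ω x)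
    (hz : Dl f ω z) (h : f.B x z ≠ 0) (hU : (f.restrict (M ⊔ F ∙ z)).Nondeg) :
    Phi f ω (M ⊔ F ∙ z) := by
  have key : ∀ w ∈ M ⊔ F ∙ z, f.Q w = 0 → f.B x w ≠ 0 → Dl f ω w := fun w hw h1 h2 => by
    obtain ⟨g, v, l, s, hs, hg, e⟩ := exists_isE_map hx.1 hz.1 h1 h h2
    obtain ⟨a, ha, _, hb, rfl⟩ := Submodule.mem_sup.1 hw
    obtain ⟨t, rfl⟩ := Submodule.mem_span_singleton.1 hb
    have h3 := Isom.map_B g z x
    have h4 := B_ne_symm h
    rw [e, hg.apply_self hx.1, B_smul_left, B_add_left, orth_of_mem_Sb hx.1 (hM a ha), zero_add,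
      B_smul_left, ← mul_assoc, mul_left_eq_self₀, or_iff_left h4] at h3
    have h5 : v ∈ M := by
      rw [← Submodule.smul_mem_iff _ h4]
      have : f.B z x • v = s • a + (f.B z v + l * f.B z x) • x := by
        linear_combination (norm := module) e - uE_app hg z + congrArg (· • z) h3
      exact this ▸ add_mem (M.smul_mem _ ha) (M.smul_mem _ hxM)
    have := (hz.map ((fx_of_tau hx.1 hx.2.2 (hM v h5) hg.lam).smul_eq hg)).smul (inv_ne_zero hs)
    rwa [e, inv_smul_smul₀ hs] at this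
  intro w hw h1 h2
  by_cases h3 : f.B x w = 0
  swap
  · exact key w hw h1 h3
  obtain ⟨w', h4, h5, h6⟩ := exists_nonorth hU (big_of_lam0 (exists_lam0 hF))
    (u := ⟨x, Submodule.mem_sup_left hxM⟩) (u' := ⟨w, hw⟩) hx.1 (fun e => hx.2.1 (congrArg Subtype.val e)) h1
    fun e => h2 (congrArg Subtype.val e)
  obtain ⟨l, h0, hl⟩ := exists_lam0 hF
  have h7 := key w' w'.2 h4 (B_ne_symm h5)
  have h8 := tr_smul_eq h7.1 hl h7.2.2
  have := (key ((tr f w'.1 l h7.1 hl).1 w) (by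
    rw [utr_apply]; exact sub_mem hw (Submodule.smul_mem _ _ w'.2)) (by rw [Isom.map_Q, h1]) (by
      rw [utr_apply, B_sub_right, h3, uB_smul, zero_sub, neg_ne_zero]
      exact mul_ne_zero ((uP hF).σ_ne_zero (mul_ne_zero h0 (B_ne_symm h6))) (B_ne_symm h5))).map
    (inv_smul_eq_iff.2 h8.symm)
  rwa [Isom.inv_apply] at this

variable {U : Submodule F V}

theorem exists_partner (hU : (f.restrict U).Nondeg) (hxU : x ∈ U) (hx : f.Q x = 0) (hx0 : x ≠ 0) :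
    ∃ z ∈ U, f.Q z = 0 ∧ f.B z x = 1 ∧ z ≠ 0 := by
  obtain ⟨e, he⟩ := hU.exists_hypPair (u := ⟨x, hxU⟩) hx fun e => hx0 (congrArg Subtype.val e)
  exact ⟨e, e.2, he.Qe, he.Beu, fun h => he.e_ne_zero (Subtype.ext h)⟩

theorem Phi.mem_Sb (hf : f.Nondeg) (hq : 3 ≤ q) (h : Phi f ω U) (hU : (f.restrict U).Nondeg)
    (hxU : x ∈ U) (hx : f.Q x = 0) (hx0 : x ≠ 0) (ha : a ∈ U) (hax : f.B a x = 0) :
    a ∈ Sb f x ω := by
  obtain ⟨c, h0, h1, h2⟩ := exists_fixed hF hq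
  obtain ⟨z, hzU, hz, e, hz0⟩ := exists_partner hU hxU hx hx0
  obtain ⟨l, hl⟩ := f.exists_isLam ((1 - c)⁻¹ • a)
  obtain ⟨g, hg⟩ := exists_isE hx (by simp [hax]) hl
  have h3 := uE_app hg z
  have := (hs_of_dl (h x hxU hx hx0) (h z hzU hz hz0) e h0 h2).sub hf hx h0
    (hs_of_dl (z := g.1 z) (h x hxU hx hx0) (h _ (by
      rw [h3]
      exact sub_mem (sub_mem (add_mem hzU (U.smul_mem _ (U.smul_mem _ ha))) (U.smul_mem _ hxU))
        (U.smul_mem _ hxU)) (by rw [Isom.map_Q, hz]) ((map_ne_zero_iff _ g.1.injective).2 hz0))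
      (by rw [← hg.apply_self hx, Isom.map_B, e]) h0 h2) e
      (by rw [← hg.apply_self hx, Isom.map_B, e])
  refine mem_Sb_of_add (-(1 - c) * (f.B z ((1 - c)⁻¹ • a) + l)) ?_
  convert this using 1
  have := sub_ne_zero.2 h1.symm
  rw [h3, e]; match_scalars <;> field_simp <;> ring

theorem Phi.step (hf : f.Nondeg) (hq : 3 ≤ q) (h : Phi f ω U) (hU : (f.restrict U).Nondeg)
    (hxU : x ∈ U) (hx : f.Q x = 0) (hyU : y ∈ U) (hy : f.Q y = 0) (hy0 : y ≠ 0)
    (hxy : f.B x y = 0) (h1 : x ∉ F ∙ y) (hw : w ∈ f.orth U) (h2 : w ∈ Sb f x ω) (c : F) :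
    c • w ∈ Sb f y ω := by
  obtain ⟨a, h3, h4⟩ := exists_B_two hU (u := ⟨y, hyU⟩) (w := ⟨x, hxU⟩)
    (fun e => hy0 (congrArg Subtype.val e)) (fun e => by
      obtain ⟨s, hs⟩ := Submodule.mem_span_singleton.1 e
      exact h1 (Submodule.mem_span_singleton.2 ⟨s, congrArg Subtype.val hs⟩)) 0 (-frobq hF c)
  obtain ⟨l, g, h5, h6⟩ := h.mem_Sb hf hq hU hyU hy hy0 a.2 (f.B_eq_zero_symm h3) hy
  obtain ⟨l', h7⟩ := h2 hx
  have h8 := h7.map_fix h6
  rw [h5.apply_of_orth (hw _ hyU) (hw _ a.2), uE_app h5, hxy, show f.B x a = _ from h4,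
    show x + (0 : F) • a.1 - -frobq hF c • y - (l * 0) • y = x + frobq hF c • y by module] at h8
  have := add_mem (fx_shift hx hy hxy (hw _ hyU) h8 h7) (h.mem_Sb hf hq hU hyU hy hy0
    (U.smul_mem (l' * c) hxU) (by simp [hxy]))
  simpa [frobq_frobq] using this

theorem Phi.all (hf : f.Nondeg) (hq : 3 ≤ q) (h : Phi f ω U) (hU : (f.restrict U).Nondeg)
    (h4 : 4 ≤ finrank F U) (hxU : x ∈ U) (hx : f.Q x = 0) (hx0 : x ≠ 0) (hyU : y ∈ U)
    (hy : f.Q y = 0) (hy0 : y ≠ 0) (hw : w ∈ f.orth U) (h2 : w ∈ Sb f x ω) (c : F) :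
    c • w ∈ Sb f y ω := by
  have key : ∀ x ∈ U, ∀ y ∈ U, f.Q x = 0 → f.Q y = 0 → f.B x y ≠ 0 → w ∈ Sb f x ω →
      ∀ c : F, c • w ∈ Sb f y ω := fun x hxU y hyU hx hy e h2 c => by
    obtain ⟨z, h5, h6, h7, h8⟩ := su_rk2 hU h4 _ _
      (hypPair_of_ne (f := f.restrict U) (z := ⟨x, hxU⟩) (w := ⟨y, hyU⟩) hx hy e)
    replace h8 : f.B z y = 0 := by simpa [uB_smul, show f.B x y ≠ 0 from e] using h8
    have h9 := h.step hf hq hU hxU hx z.2 h6 (fun e => h5 (Subtype.ext e)) (f.B_eq_zero_symm h7)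
      (not_mem_span_of_B h8 e) hw h2 1
    rw [one_smul] at h9
    refine h.step hf hq hU z.2 h6 hyU hy (by rintro rfl; simp at e) h8 (not_mem_span_symm
      (fun e => h5 (Subtype.ext e)) (not_mem_span_of_B h7 (B_ne_symm e))) hw h9 c
  obtain ⟨z, h5, h6, h7⟩ := exists_nonorth hU (big_of_lam0 (exists_lam0 hF))
    (u := ⟨x, hxU⟩) (u' := ⟨y, hyU⟩) hx (fun e => hx0 (congrArg Subtype.val e)) hy fun e => hy0 (congrArg Subtype.val e)
  exact key z z.2 y hyU h5 hy h7 (by simpa using key x hxU z z.2 hx h5 (B_ne_symm h6) h2 1) c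

theorem finish (hf : f.Nondeg) (hq : 3 ≤ q)
    (hirr : ∀ W : Submodule F V, (∀ k : f.Isom, k • ω = ω → ∀ v ∈ W, k.1 v ∈ W) → W = ⊥ ∨ W = ⊤)
    (h : Phi f ω U) (hU : (f.restrict U).Nondeg) (h4 : 4 ≤ finrank F U)
    (h5 : finrank F V < 2 * finrank F U) : Phi f ω ⊤ := by
  induction' hd : finrank F V - finrank F U using Nat.strong_induction_on with d ih generalizing U
  have hU' := (f.restrict_nondeg_iff U).1 hU
  let R : Submodule F V :=
    { carrier := {w | w ∈ f.orth U ∧ ∀ y ∈ U, f.Q y = 0 → y ≠ 0 → ∀ c : F, c • w ∈ Sb f y ω}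
      add_mem' := fun ha hb => ⟨add_mem ha.1 hb.1, fun y a b c d => by
        rw [smul_add]; exact add_mem (ha.2 y a b c d) (hb.2 y a b c d)⟩
      zero_mem' := ⟨zero_mem _, fun y a b c d => by simp⟩
      smul_mem' := fun s w hw => ⟨Submodule.smul_mem _ _ hw.1, fun y a b c d => by
        rw [smul_smul]; exact hw.2 y a b c _⟩ }
  obtain ⟨⟨x, hxU⟩, hx0, hx⟩ : ∃ x : U, x ≠ 0 ∧ (f.restrict U).Q x = 0 :=
    hU.unit_exists_singular (by omega)
  replace hx0 : x ≠ 0 := fun e => hx0 (Subtype.ext e)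
  obtain ⟨z, hzU, hz, hzx, hz0⟩ := exists_partner hU hxU hx hx0
  by_cases h6 : ∃ w ∈ R, f.B w w ≠ 0
  · obtain ⟨w, h6, h7⟩ := h6
    have h8 : (U ⊓ f.orth (F ∙ x) ⊔ F ∙ w) ⊔ F ∙ z = U ⊔ F ∙ w := by
      rw [sup_right_comm]
      congr 1
      refine le_antisymm (sup_le inf_le_left ((Submodule.span_singleton_le_iff_mem _ _).2 hzU))
        fun u hu => Submodule.mem_sup.2 ⟨u - f.B u x • z, ⟨sub_mem hu (U.smul_mem _ hzU),
          mem_orth_singleton.2 (by simp [hzx])⟩, _, Submodule.mem_span_singleton.2 ⟨f.B u x, rfl⟩,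
          by simp⟩
    have h9 : (f.restrict (U ⊔ F ∙ w)).Nondeg := by
      rw [restrict_nondeg_iff, Submodule.disjoint_def, orth_sup]
      rintro v hv ⟨h9, h10⟩
      obtain ⟨u, hu, _, hb, rfl⟩ := Submodule.mem_sup.1 hv
      obtain ⟨t, rfl⟩ := Submodule.mem_span_singleton.1 hb
      have h11 := mem_orth_singleton.1 h10
      rw [B_add_left, f.B_eq_zero_symm (h6.1 u hu), zero_add, B_smul_left,
        mul_eq_zero, or_iff_left h7] at h11
      rw [h11, zero_smul, add_zero] at h9 ⊢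
      exact Submodule.disjoint_def.1 hU' u hu h9
    have h10 : finrank F U < finrank F (U ⊔ F ∙ w :) := Submodule.finrank_lt_finrank_of_lt
      (left_lt_sup.2 fun e => h7 (h6.1 w (e (Submodule.mem_span_singleton_self w))))
    have h11 := Submodule.finrank_le (U ⊔ F ∙ w)
    refine ih _ (by omega) (h8 ▸ phi_of (x := x) (fun a ha => ?_) (Submodule.mem_sup_left
      ⟨hxU, mem_orth_singleton.2 (f.B_self_of_Q hx)⟩) (h x hxU hx hx0) (h z hzU hz hz0)
      (B_ne_symm (by simp [hzx])) (h8 ▸ h9)) h9 (by omega) (by omega) rfl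
    obtain ⟨u, hu, _, hb, rfl⟩ := Submodule.mem_sup.1 ha
    obtain ⟨t, rfl⟩ := Submodule.mem_span_singleton.1 hb
    exact add_mem (h.mem_Sb hf hq hU hxU hx hx0 hu.1 (mem_orth_singleton.1 hu.2))
      (h6.2 x hxU hx hx0 t)
  push Not at h6
  have hc := hf.isCompl_orth hU'
  have hH : (f.restrict U).HypPair ⟨z, hzU⟩ ⟨x, hxU⟩ := ⟨hz, hx, hzx⟩
  have h7 : ∀ v, Dl f ω v → v ∉ f.orth U → v ∈ U ⊔ R := fun v hv h7 => by
    obtain ⟨u, hu, w, hw, rfl⟩ := Submodule.mem_sup.1 (hc.sup_eq_top ▸ Submodule.mem_top (x := v))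
    obtain ⟨y, h8, h9⟩ := exists_sing_ne hU hH (a := ⟨u, hu⟩) fun e =>
      h7 (by rwa [show u = 0 from congrArg Subtype.val e, zero_add])
    replace h9 : f.B u y ≠ 0 := h9
    have hy0 : y.1 ≠ 0 := fun e => h9 (by simp [e])
    obtain ⟨y', h10, h11, h12, h13⟩ := exists_partner hU y.2 h8 hy0
    obtain ⟨c, h0, h1, h2⟩ := exists_fixed hF hq
    have e : f.B ((f.B u y)⁻¹ • (u + w)) y = 1 := by simp [hw _ y.2, h9]
    have h14 := sub_mem ((hs_of_dl (h y y.2 h8 hy0) (h y' h10 h11 h13) h12 h0 h2).sub hf h8 h0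
      (hs_of_dl (h y y.2 h8 hy0) (hv.smul (inv_ne_zero h9)) e h0 h2) h12 e)
      (h.mem_Sb hf hq hU y.2 h8 hy0 (U.smul_mem (1 - c) (sub_mem (U.smul_mem (f.B u y)⁻¹ hu) h10))
        (by simp [h9, h12]))
    rw [show (1 - c) • ((f.B u y)⁻¹ • (u + w) - y') - (1 - c) • ((f.B u y)⁻¹ • u - y') =
      ((1 - c) * (f.B u y)⁻¹) • w by module] at h14
    refine add_mem (Submodule.mem_sup_left hu) (Submodule.mem_sup_right ?_)
    rw [← R.smul_mem_iff (mul_ne_zero (sub_ne_zero.2 h1.symm) (inv_ne_zero h9))]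
    exact ⟨Submodule.smul_mem _ _ hw, fun y' a b c d =>
      h.all hf hq hU h4 y.2 h8 hy0 a b c (Submodule.smul_mem _ _ hw) h14 d⟩
  have h8 : ∀ S : Submodule F V, (∀ u ∈ U, f.Q u = 0 → u ∈ S) → U ≤ S := fun S hS u hu => by
    obtain ⟨w, s, t, h8, e⟩ := exists_sum_sing hH ⟨u, hu⟩
    rw [show u = w + s • z + t • x from congrArg Subtype.val e]
    exact add_mem (add_mem (hS _ w.2 h8) (S.smul_mem _ (hS _ hzU hz))) (S.smul_mem _ (hS _ hxU hx))
  have h9 : ∀ k : f.Isom, k • ω = ω → U.map k.1.toLinearMap ≤ U ⊔ R := fun k hk => by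
    obtain ⟨v, h9, h10, h11⟩ : ∃ v ∈ U, f.Q v = 0 ∧ k.1 v ∉ f.orth U := by
      by_contra! hcon
      have e1 := Submodule.finrank_mono (Submodule.map_le_iff_le_comap.2
        (h8 ((f.orth U).comap k.1.toLinearMap) hcon))
      rw [LinearEquiv.finrank_map_eq] at e1
      have := hf.finrank_add_orth U
      omega
    have key : ∀ u ∈ U, f.Q u = 0 → k.1 u ∉ f.orth U → k.1 u ∈ U ⊔ R := fun u a b c =>
      h7 _ ((h u a b (by rintro rfl; simp at c)).map hk) c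
    refine Submodule.map_le_iff_le_comap.2 (h8 _ fun u a b => ?_)
    change k.1 u ∈ U ⊔ R
    by_contra h12
    have h13 : k.1 u ∈ f.orth U := by_contra fun e => h12 (key u a b e)
    obtain ⟨s, hs, h14⟩ : ∃ s : F, s ≠ 0 ∧ f.Q (v + s • u) = 0 := by
      by_cases e : f.B v u = 0
      · exact ⟨1, one_ne_zero, by rw [one_smul, f.Q_add_of_orth e, h10, b, add_zero]⟩
      · obtain ⟨l, h0, hl⟩ := exists_lam0 hF
        refine ⟨-(l * f.B v u), neg_ne_zero.2 (mul_ne_zero h0 e), ?_⟩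
        rw [neg_smul, ← sub_eq_add_neg, ← utr_apply u l b hl, Isom.map_Q, h10]
    have := sub_mem (key _ (add_mem h9 (U.smul_mem s a)) h14 fun e => h11 (by
      simpa using sub_mem e (Submodule.smul_mem _ s h13))) (key v h9 h10 h11)
    exact h12 (by simpa [Submodule.smul_mem_iff _ hs] using this)
  have h10 : U ⊔ R = ⊤ := by
    rcases hirr (⨆ k : MulAction.stabilizer f.Isom ω, U.map k.1.1.toLinearMap) (fun k hk v hv => by
      refine Submodule.iSup_induction _ (motive := fun v => k.1 v ∈ _) hv ?_ (by simp)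
        fun a b ha hb => by rw [map_add]; exact add_mem ha hb
      rintro k' _ ⟨u, hu, rfl⟩
      exact Submodule.mem_iSup_of_mem (⟨k, hk⟩ * k') ⟨u, hu, rfl⟩) with e | e
    · exact absurd ((Submodule.eq_bot_iff _).1 e x (Submodule.mem_iSup_of_mem 1 ⟨x, hxU, rfl⟩)) hx0
    · exact top_le_iff.1 (e ▸ iSup_le fun k => h9 k k.2)
  have h11 : f.orth U ≤ U := by
    by_contra e
    obtain ⟨w, h11, h12⟩ := exists_aniso_orth hf U e
    obtain ⟨u, hu, r, hr, rfl⟩ := Submodule.mem_sup.1 (h10 ▸ Submodule.mem_top (x := w))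
    rw [Submodule.disjoint_def.1 hU' u hu (by simpa using sub_mem h11 hr.1), zero_add] at h12
    exact h12 (h6 r hr)
  rwa [← hc.sup_eq_top, sup_eq_left.2 h11]

end Cfsg.Agent.Rk3
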