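import Cfsg.Agent.Lib.Rk3.Geo
import Cfsg.Agent.Lib.MI.O1
import Cfsg.Agent.Lib.Forms.SpGauss

/-!
Reducible point stabilisers of rank three actions of special unitary groups.
-/

set_option autoImplicit false

namespace Cfsg.Agent.Rk3

open Module Cfsg.Agent.Forms Cfsg.Agent.Forms.Form Cfsg.Agent.Cls Cfsg.Agent.Deg Cfsg.Agent.MI
  MulAction

variable {F : Type*} [Field F] {V : Type*} [AddCommGroup V] [Module F V]
  [Fintype F] {q : ℕ} {hF : Fintype.card F = q ^ 2} {f : Form (uP hF) V} [Finite V]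
  {X : Type*} [MulAction f.SIsom X] [Finite X] {x : X} {W U : Submodule F V} {g k k' : f.Isom}

/-- invariance of a subspace -/
def Iv (W : Submodule F V) (g : f.Isom) : Prop := ∀ w ∈ W, g.1 w ∈ W

theorem four_le_iv (hW : ∀ k : f.SIsom, k • x = x → Iv W k.1) (P : Fin 4 → f.Isom → Prop)
    (hP : ∀ i (g k k' : f.Isom), Iv W k → Iv W k' → P i g → P i (k * g * k'))
    (g : Fin 4 → f.Isom) (hs : ∀ i, ∃ k, Iv W k ∧ g i * k ∈ f.SIsom)
    (h1 : ∀ i, P i (g i)) (h2 : ∀ i j, i < j → ¬ P i (g j)) :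
    4 ≤ Nat.card (orbitRel.Quotient (stabilizer f.SIsom x) X) := by
  choose k k1 k2 using hs
  let s : Fin 4 → f.SIsom := fun i => ⟨_, k2 i⟩
  have key : ∀ i j, (Quotient.mk _ (s j • x) : orbitRel.Quotient (stabilizer f.SIsom x) X) =
      Quotient.mk _ (s i • x) → P i (g j) := fun i j e => by
    obtain ⟨c, hc⟩ := Quotient.exact e
    have h3 : ((s j)⁻¹ * c * s i)⁻¹ • x = x := by
      rw [inv_smul_eq_iff, mul_smul, mul_smul, eq_inv_smul_iff]; exact hc.symm
    have := hP i _ _ (k i * (((s j)⁻¹ * c * s i)⁻¹ :).1 * (k j)⁻¹) (hW c c.2)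
      (fun w hw => k1 i _ (hW _ h3 _ (Isom.inv_mem (k1 j) w hw))) (h1 i)
    simpa [s, mul_assoc] using this
  have := Nat.card_le_card_of_injective (fun i : Fin 4 =>
    (Quotient.mk _ (s i • x) : orbitRel.Quotient (stabilizer f.SIsom x) X)) fun i j e => by
      rcases lt_trichotomy i j with h | h | h
      exacts [absurd (key i j e.symm) (h2 i j h), h, absurd (key j i e) (h2 j i h)]
  simpa using this

/-- the size of the intersection with a translate -/
noncomputable def Dn (W : Submodule F V) (g : f.Isom) : ℕ := {w | w ∈ W ∧ g.1 w ∈ W}.ncard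

theorem Dn_le (h : Iv W k) (h' : Iv W k') : Dn W g ≤ Dn W (k * g * k') :=
  Set.ncard_le_ncard_of_injOn k'⁻¹.1 (fun w hw => ⟨Isom.inv_mem h' w hw.1, by
    simpa [Isom.mul_apply] using h _ hw.2⟩) k'⁻¹.1.injective.injOn

variable (W) in
/-- products of transvections -/
def Ch (g : f.Isom) (U : Submodule F V) : Prop :=
  g ∈ f.SIsom ∧ (∀ w, g.1 w - w ∈ U) ∧ ∀ w ∈ W, g.1 w ∈ W ↔ w ∈ f.orth U

theorem Ch.step (hf : f.Nondeg) (hW : W ≤ f.orth W) (h : Ch W g U)
    (hd : finrank F U < finrank F W) : ∃ (g' : f.Isom) (U' : Submodule F V), Ch W g' U' ∧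
      finrank F U' ≤ finrank F U + 1 ∧ Dn W g' < Dn W g ∧ ∃ e ∈ W, f.B (g'.1 e) e ≠ 0 := by
  obtain ⟨h1, h2, h3⟩ := h
  obtain ⟨e, ⟨e1, e2⟩, e0⟩ := Submodule.exists_mem_ne_zero_of_ne_bot (p := W ⊓ f.orth U) fun e => by
    have := Submodule.finrank_sup_add_finrank_inf_eq W (f.orth U)
    rw [e, finrank_bot] at this
    have := (W ⊔ f.orth U).finrank_le
    have := hf.finrank_add_orth U
    omega
  obtain ⟨y, hy⟩ := hf.exists_hypPair (u := e) (by rw [unit_Q]; exact hW e1 e e1) e0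
  obtain ⟨l, l0, hl⟩ := exists_lam0 hF
  have h4 : ∀ w ∈ W, f.B ((g * tr f y l hy.Qe hl).1 w) e = -(l * f.B w y) := fun w hw => by
    have := mem_orth'.1 e2 _ (h2 ((tr f y l hy.Qe hl).1 w))
    rw [B_sub_left, sub_eq_zero] at this
    rw [Isom.mul_apply, this, utr_apply, B_sub_left, hW hw e e1, B_smul_left, hy.Beu]
    simp
  have h5 : ∀ w ∈ W, (g * tr f y l hy.Qe hl).1 w ∈ W ↔ g.1 w ∈ W ∧ f.B w y = 0 := fun w hw => by
    refine ⟨fun h => ?_, fun h => by simpa [Isom.mul_apply, utr_apply, h.2] using h.1⟩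
    have : f.B w y = 0 := by simpa [l0] using (h4 w hw).symm.trans (hW h e e1)
    exact ⟨by simpa [Isom.mul_apply, utr_apply, this] using h, this⟩
  refine ⟨g * tr f y l hy.Qe hl, U ⊔ F ∙ y, ⟨mul_mem h1 (isE_mem_SIsom hy.Qe (isE_tr _ _)),
    fun w => ?_, fun w hw => ?_⟩, ?_, Set.ncard_lt_ncard ⟨fun w hw => ⟨hw.1, ((h5 w hw.1).1 hw.2).1⟩,
      fun h => ?_⟩, e, e1, by rw [h4 e e1]; simp [l0, hy.Bue]⟩
  · have := add_mem (Submodule.mem_sup_left (T := F ∙ y) (h2 ((tr f y l hy.Qe hl).1 w)))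
      (Submodule.mem_sup_right (Submodule.mem_span_singleton.2 ⟨-(l * f.B w y), rfl⟩))
    convert this using 1
    rw [Isom.mul_apply, utr_apply]; module
  · rw [h5 w hw, h3 w hw, orth_sup, Submodule.mem_inf, mem_orth_singleton]
  · have := Submodule.finrank_add_le_finrank_add_finrank U (F ∙ y)
    rwa [finrank_span_singleton hy.e_ne_zero] at this
  · simpa [hy.Bue] using ((h5 e e1).1 (h ⟨e1, (h3 e e1).2 e2⟩).2).2

theorem four_le_ti (hf : f.Nondeg) (h6 : 6 ≤ finrank F V)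
    (hK : ∀ k : f.SIsom, k • x = x → Iv W k.1) (hW : W ≤ f.orth W) (h2 : 2 ≤ finrank F W) :
    4 ≤ Nat.card (orbitRel.Quotient (stabilizer f.SIsom x) X) := by
  have h0 : Ch W (1 : f.Isom) ⊥ := ⟨one_mem _, by simp, by simp⟩
  obtain ⟨g1, U1, a1, a2, a3, a4⟩ := h0.step hf hW (by rw [finrank_bot]; omega)
  rw [finrank_bot] at a2
  obtain ⟨g2, U2, b1, b2, b3, b4⟩ := a1.step hf hW (by omega)
  by_cases h3 : 3 ≤ finrank F W
  · obtain ⟨g3, U3, c1, -, c3, -⟩ := b1.step hf hW (by omega)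
    refine four_le_iv hK (fun i g => Dn W (![1, g1, g2, g3] i) ≤ Dn W g)
      (fun i g k k' hk hk' h => h.trans (Dn_le hk hk')) ![1, g1, g2, g3]
      (fun i => ⟨1, fun _ h => h, ?_⟩) (fun i => le_rfl) fun i j hij => ?_
    · fin_cases i <;> simp [a1.1, b1.1, c1.1]
    · fin_cases i <;> fin_cases j <;> simp at hij ⊢ <;> omega
  obtain ⟨T, t1, t2, t3⟩ := exists_nondeg_perp hf W
  obtain ⟨z, z0, hz⟩ := t2.unit_exists_singular (by omega)
  have z1 := not_mem_of_nondeg t1 t2 z.2 fun e => z0 (Subtype.ext e)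
  obtain ⟨e, e1, e2⟩ := a4
  have e0 : e ≠ 0 := fun h => e2 (by simp [h])
  obtain ⟨y, hy, hy'⟩ := hf.exists_hypPair_orth (u := e) (H := F ∙ z.1)
    (by rw [unit_Q]; exact hW e1 e e1) (fun h => by
      obtain ⟨c, rfl⟩ := Submodule.mem_span_singleton.1 h
      exact z1 ((W.smul_mem_iff (left_ne_zero_of_smul e0)).1 e1)) fun w hw => by
      obtain ⟨c, rfl⟩ := Submodule.mem_span_singleton.1 hw
      rw [B_smul_left, t1 z.2 e e1, mul_zero]
  obtain ⟨g, hg⟩ := exists_isE hy.Qe (hy' _ (Submodule.mem_span_singleton_self _))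
    (f.isLam_zero_of_Q hz)
  have g0 : ∀ w ∈ W, g.1 w = w + f.B w y • z.1 := fun w hw => by
    simp [uE_app hg, mem_orth'.1 (t1 z.2) w hw]
  refine four_le_iv hK ![Iv W, fun g => ∀ w ∈ W, g.1 w ∈ f.orth W, fun g => Dn W g1 ≤ Dn W g,
    fun _ => True] (fun i g k k' hk hk' => ?_) ![1, g, g1, g2] (fun i => ⟨1, fun _ h => h, ?_⟩)
    (fun i => ?_) fun i j hij => ?_
  · fin_cases i
    exacts [fun h w hw => hk _ (h _ (hk' w hw)),
      fun h w hw => Isom.orth_invariant k hk _ (h _ (hk' w hw)), fun h => h.trans (Dn_le hk hk'), id]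
  · fin_cases i <;> simp [a1.1, b1.1, isE_mem_SIsom hy.Qe hg]
  · fin_cases i
    exacts [fun _ h => h, fun w hw => g0 w hw ▸ add_mem (hW hw) (Submodule.smul_mem _ _ (t1 z.2)),
      le_rfl, trivial]
  · obtain ⟨e', e3, e4⟩ := b4
    fin_cases i <;> fin_cases j <;> simp at hij
    · intro h
      have : g.1 e ∈ W := h e e1
      rw [g0 e e1, hy.Bue, one_smul] at this
      exact z1 ((W.add_mem_iff_right e1).1 this)
    exacts [fun h => e2 (hW (h e e1) e e1), fun h => e4 (hW (h e' e3) e' e3),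
      fun h => e2 (h e e1 e e1), fun h => e4 (h e' e3 e' e3), b3.not_ge]

theorem four_le_nd (hf : f.Nondeg) (hq : 3 ≤ q) (hK : ∀ k : f.SIsom, k • x = x → Iv W k.1)
    (hW : Disjoint W (f.orth W)) (h0 : W ≠ ⊥) (h2 : 2 ≤ finrank F (f.orth W)) :
    4 ≤ Nat.card (orbitRel.Quotient (stabilizer f.SIsom x) X) := by
  have := Submodule.nontrivial_iff_ne_bot.2 h0
  have : Nontrivial (f.orth W) := (finrank_pos_iff (R := F)).1 (by omega)
  obtain ⟨⟨v, hv⟩, v1⟩ := ((f.restrict_nondeg_iff W).2 hW).unit_exists_B_eq (map_one _) one_ne_zero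
  replace v1 : f.B v v = 1 := v1
  have hd := Submodule.disjoint_def.1 hW
  have key : ∀ (a : F) (b : f.orth W), b ≠ 0 → a * frobq hF a + f.B b b = 1 →
      ∃ g : f.Isom, ∀ w ∈ W, g.1 w = (w + (f.B w v * (a - 1)) • v) + f.B w v • b.1 :=
    fun a b b0 hb => by
    have h3 : f.B (a • v + b) (a • v + b) = 1 := by
      simp [uB_smul, v1, b.2 v hv, mem_orth'.1 b.2 v hv, hb, mul_comm]
    obtain ⟨g, -, g1, g2⟩ := hf.witt_step f.containsElem_top (W ⊓ f.orth (F ∙ v)) (x := v)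
      (y := a • v + b) (fun h => by simpa [v1] using mem_orth_singleton.1 h.2)
      (fun h => b0 (Subtype.ext (hd _ ((W.add_mem_iff_right (W.smul_mem a hv)).1 h.1) b.2)))
      (fun w hw => by simp [uB_smul, mem_orth_singleton.1 hw.2, mem_orth'.1 b.2 w hw.1])
      (v1.trans h3.symm) (by rw [unit_Q, unit_Q, v1, h3])
    refine ⟨g, fun w hw => ?_⟩
    have := g1 (w - f.B w v • v) ⟨sub_mem hw (W.smul_mem _ hv), mem_orth_singleton.2 (by simp [v1])⟩
    rw [map_sub, map_smul, g2] at this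
    linear_combination (norm := module) this
  have hO := hf.restrict_orth hW
  obtain ⟨b1, a1, a2⟩ := hO.unit_exists_singular h2
  rw [unit_Q, restrict_B] at a2
  obtain ⟨g1, hg1⟩ := key 1 b1 a1 (by simp [a2])
  obtain ⟨c, c0, c1, c2⟩ := exists_fixed hF hq
  obtain ⟨a, rfl⟩ := exists_norm_eq hF c2
  obtain ⟨b2, a3⟩ := hO.unit_exists_B_eq (c := 1 - a * frobq hF a) (by rw [map_sub, c2, map_one])
    (sub_ne_zero.2 c1.symm)
  rw [restrict_B] at a3
  have a4 : f.B b2 b2 ≠ 0 := a3 ▸ sub_ne_zero.2 c1.symm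
  obtain ⟨g2, hg2⟩ := key a b2 (fun e => a4 (by simp [e])) (by simp [a3])
  obtain ⟨b3, a5⟩ := hO.unit_exists_B_eq (map_one _) one_ne_zero
  rw [restrict_B] at a5
  obtain ⟨g3, hg3⟩ := key 0 b3 (fun e => by simp [e] at a5) (by simp [a5])
  have h4 : ∀ w ∈ W, ∀ s : F, w + s • v ∈ W := fun w hw s => add_mem hw (W.smul_mem _ hv)
  have h5 : ∀ g : f.Isom, Iv W g → ∀ w ∈ W, ∀ a ∈ W, ∀ b ∈ f.orth W, g.1 w = a + b → b = 0 :=
    fun g h w hw a ha b hb e => hd b ((W.add_mem_iff_right ha).1 (e ▸ h w hw)) hb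
  refine four_le_iv hK ![Iv W, fun g => ∀ w ∈ W, ∀ a ∈ W, ∀ b ∈ f.orth W, g.1 w = a + b → f.B b b = 0,
    fun g => ∀ w ∈ W, g.1 w ∈ f.orth W → w = 0, fun _ => True] (fun i g k k' hk hk' => ?_)
    ![1, g1, g2, g3] (fun i => ?_) (fun i => ?_) fun i j hij => ?_
  · have hk2 := Isom.orth_invariant k⁻¹ (Isom.inv_mem hk)
    fin_cases i
    exacts [fun h w hw => hk _ (h _ (hk' w hw)), fun h w hw a ha b hb e =>
      (Isom.map_B k⁻¹ b b).symm.trans (h _ (hk' w hw) _ (Isom.inv_mem hk a ha) _ (hk2 b hb) (by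
        rw [← map_add, ← e, Isom.mul_apply, Isom.mul_apply, Isom.inv_apply])),
      fun h w hw e => by simpa using h _ (hk' w hw) (by simpa [Isom.mul_apply] using hk2 _ e), id]
  · obtain ⟨r, r1, r2⟩ := exists_qrefl_det (v1 ▸ one_ne_zero : f.B v v ≠ 0)
      (hf.det_mul_σ_det (![1, g1, g2, g3] i)⁻¹)
    exact ⟨r, fun w hw => r2 w ▸ sub_mem hw (W.smul_mem _ hv), by
      rw [SIsom, MonoidHom.mem_ker, map_mul, Units.ext r1, ← map_mul, mul_inv_cancel, map_one]⟩
  · fin_cases i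
    · exact fun _ h => h
    · intro w hw a ha b hb e
      replace e := (hg1 w hw).symm.trans e
      have : b - f.B w v • b1.1 = 0 := hd _ (by
        convert sub_mem (h4 w hw (f.B w v * (1 - 1))) ha using 1
        linear_combination (norm := module) -e) (sub_mem hb (Submodule.smul_mem _ _ b1.2))
      simp [sub_eq_zero.1 this, uB_smul, a2]
    · intro w hw e
      replace e : _ + _ ∈ f.orth W := hg2 w hw ▸ e
      have h6 := hd _ (h4 w hw _) ((Submodule.add_mem_iff_left _ (Submodule.smul_mem _ _ b2.2)).1 e)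
      have h7 := congrArg (f.B · v) h6
      simp only [B_add_left, B_smul_left, v1, B_zero_left] at h7
      have h8 : f.B w v = 0 :=
        mul_right_cancel₀ (left_ne_zero_of_mul c0) (by linear_combination h7)
      simpa [h8] using h6
    · trivial
  · fin_cases i <;> fin_cases j <;> simp at hij <;> intro h
    · simpa [v1, a1] using h5 g1 h v hv _ (h4 v hv _) _ (Submodule.smul_mem _ _ b1.2) (hg1 v hv)
    · exact a4 (by simpa [v1] using congrArg (f.B · b2) (h5 g2 h v hv _ (h4 v hv _) _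
        (Submodule.smul_mem _ _ b2.2) (hg2 v hv)))
    · simpa [v1, a5] using congrArg (f.B · b3) (h5 g3 h v hv _ (h4 v hv _) _
        (Submodule.smul_mem _ _ b3.2) (hg3 v hv))
    · simpa [v1, a4] using h v hv _ (h4 v hv _) _ (Submodule.smul_mem _ _ b2.2) (hg2 v hv)
    · simpa [v1, a5] using h v hv _ (h4 v hv _) _ (Submodule.smul_mem _ _ b3.2) (hg3 v hv)
    · have := h v hv (show g3.1 v ∈ _ by rw [hg3 v hv]; simp [v1])
      simp [this] at v1

theorem card_of_red (hf : f.Nondeg) (hq : 3 ≤ q) (h6 : 6 ≤ finrank F V)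
    [IsPreprimitive f.SIsom X] (h3 : Nat.card (orbitRel.Quotient (stabilizer f.SIsom x) X) = 3)
    (hK : ∀ k : f.SIsom, k • x = x → Iv W k.1) (h0 : W ≠ ⊥) (h1 : W ≠ ⊤) :
    Nat.card X * (q ^ 2 - 1) = {w | f.Q w = 0 ∧ w ≠ 0}.ncard := by
  have hK' : ∀ k : f.SIsom, k • x = x → Iv (f.orth W) k.1 := fun k hk =>
    Isom.orth_invariant _ (hK k hk)
  by_cases hd : Disjoint W (f.orth W)
  · exfalso
    by_cases h2 : 2 ≤ finrank F (f.orth W)
    · have := four_le_nd hf hq hK hd h0 h2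
      omega
    · have := four_le_nd hf hq hK' (hf.disjoint_orth_orth hd) (fun e => h1 (by
        rw [← hf.orth_orth W, e, orth_bot])) (by
          have := hf.finrank_add_orth W
          rw [hf.orth_orth]; omega)
      omega
  have hR : ∀ k : f.SIsom, k • x = x → Iv (W ⊓ f.orth W) k.1 := fun k hk w hw =>
    ⟨hK k hk w hw.1, hK' k hk w hw.2⟩
  have hR' : W ⊓ f.orth W ≤ f.orth (W ⊓ f.orth W) := fun a ha b hb => ha.2 b hb.1
  rw [disjoint_iff] at hd
  generalize W ⊓ f.orth W = R at hd hR hR'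
  obtain ⟨u, hu, hu0⟩ := Submodule.exists_mem_ne_zero_of_ne_bot hd
  have h4 : F ∙ u = R := Submodule.eq_of_le_of_finrank_le (by simpa) (by
    rw [finrank_span_singleton hu0]
    by_contra e
    have := four_le_ti hf h6 hR hR' (by omega)
    omega)
  have hQ : f.Q u = 0 := by rw [unit_Q]; exact hR' hu u hu
  obtain ⟨H, h5, h7⟩ := exists_index f.SIsom (C := {w | f.Q w = 0 ∧ w ≠ 0}) hu0
    (fun g _ a ha => ⟨by rw [f.Q_smul, Isom.map_Q, hQ, mul_zero], by simpa [ha] using hu0⟩)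
    fun w hw => by
      obtain ⟨z, hz, h1, h2⟩ := exists_nonorth hf (big_of_lam0 (exists_lam0 hF)) hQ hu0 hw.1 hw.2
      obtain ⟨g, v, l, s, hs, hg, e⟩ := exists_isE_map hz hQ hw.1 h1 h2
      exact ⟨g, isE_mem_SIsom hz hg, s, hs, e⟩
  have : Nontrivial X := by
    by_contra e
    rw [not_nontrivial_iff_subsingleton] at e
    have := Finite.card_le_one_iff_subsingleton.2
      (inferInstance : Subsingleton (orbitRel.Quotient (stabilizer f.SIsom x) X))
    omega
  rw [card_F hF] at h7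
  rw [← h7, ← index_stabilizer_of_transitive f.SIsom x]
  congr 2
  by_contra e
  have h8 := (IsPreprimitive.isCoatom_stabilizer_of_isPreprimitive f.SIsom x).2 H
    (lt_of_le_of_ne (fun k hk => h5 k (h4 ▸ hR k hk u hu)) e)
  obtain ⟨k, hk⟩ : ∃ k, finrank F V = k + 2 := ⟨finrank F V - 2, by omega⟩
  have h9 := su_card_sing hf hk
  rw [← h7, h8, Subgroup.index_top, one_mul, Nat.cast_sub (Nat.one_le_pow _ _ (by omega))] at h9
  have h10 : (1 : ℤ) ≤ q ^ k := one_le_pow₀ (by omega)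
  have h11 : (3 : ℤ) ≤ q := by omega
  push_cast at h9
  generalize (q : ℤ) ^ k = Q at h9 h10
  have h12 : (q : ℤ) ^ 2 ≤ q ^ 2 * Q := le_mul_of_one_le_right (by positivity) h10
  have h13 : (q : ℤ) ≤ q * Q := le_mul_of_one_le_right (by positivity) h10
  rcases neg_one_pow_eq_or ℤ k with e | e <;> rw [e] at h9 <;> nlinarith

end Cfsg.Agent.Rk3
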