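import Cfsg.Agent.Lib.Rk3.Geo
import Cfsg.Agent.Lib.Rk3.Panel
import Cfsg.Agent.Lib.MI.O1

/-!
Flag transitive subgroups of unitary groups.
-/

set_option autoImplicit false

namespace Cfsg.Agent.Rk3

open Module Cfsg.Agent.Forms Cfsg.Agent.Forms.Form Cfsg.Agent.Cls Cfsg.Agent.Deg Cfsg.Agent.MI
  Submodule

variable {F : Type*} [Field F] {V : Type*} [AddCommGroup V] [Module F V]
  [Fintype F] {q : ℕ} {hF : Fintype.card F = q ^ 2} {f : Form (uP hF) V} [Finite V]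
  {X : Type*} [MulAction f.Isom X] {ω : X} {x y z a b w : V} {c l : F} {g k : f.Isom}

variable (f) in
/-- totally isotropic flags of length three -/
structure Fl (x y z : V) : Prop where
  qx : f.Q x = 0
  x0 : x ≠ 0
  cs : y ∈ Cs f x
  qz : f.Q z = 0
  zx : f.B z x = 0
  zy : f.B z y = 0
  zn : z ∉ span F {x, y}

theorem exists_fl (hf : f.Nondeg) (h6 : 6 ≤ finrank F V) (hx : f.Q x = 0) (hx0 : x ≠ 0)
    (hy : y ∈ Cs f x) : ∃ z, Fl f x y z := by
  obtain ⟨T, h1, h2, h3⟩ := exists_nondeg_perp hf (span F {x, y})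
  have h4 : finrank F (span F {x, y}) ≤ 2 := by
    classical
    have := (finrank_span_finset_le_card (R := F) ({x, y} : Finset V)).trans Finset.card_le_two
    rwa [Finset.coe_pair] at this
  obtain ⟨z, h5, h7⟩ := h2.unit_exists_singular (by omega)
  exact ⟨z, hx, hx0, hy, h7, (mem_orth_pair.1 (h1 z.2)).1, (mem_orth_pair.1 (h1 z.2)).2,
    not_mem_of_nondeg h1 h2 z.2 fun e => h5 (Subtype.ext e)⟩

omit [Finite V] in
theorem Fl.indep (h : Fl f x y z) {r s t : F} (e : r • x + s • y + t • z = 0) :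
    r = 0 ∧ s = 0 ∧ t = 0 := by
  have h1 : t = 0 := by_contra fun h1 => h.zn (mem_span_pair.2 ⟨-r / t, -s / t, by
    rw [← sub_eq_zero, ← smul_eq_zero_iff_right h1, ← neg_eq_zero, ← e]
    match_scalars <;> field_simp⟩)
  rw [h1, zero_smul, add_zero] at e
  have h2 : s = 0 := by_contra fun h2 => h.cs.2.2 (mem_span_singleton.2 ⟨-r / s, by
    rw [← sub_eq_zero, ← smul_eq_zero_iff_right h2, ← neg_eq_zero, ← e]
    match_scalars <;> field_simp⟩)
  rw [h2, zero_smul, add_zero] at e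
  exact ⟨(smul_eq_zero_iff_left h.x0).1 e, h2, h1⟩

omit [Finite V] in
theorem Fl.swap (h : Fl f x y z) : Fl f y x z :=
  have h0 : y ≠ 0 := fun e => h.cs.2.2 (e ▸ zero_mem _)
  ⟨h.cs.2.1, h0, ⟨f.B_eq_zero_symm h.cs.1, h.qx, fun e => by
    obtain ⟨s, hs⟩ := mem_span_singleton.1 e
    simpa using (h.indep (r := 1) (s := -s) (t := 0) (by simp [hs])).1⟩, h.qz, h.zy, h.zx,
    Set.pair_comm x y ▸ h.zn⟩

omit [Finite V] in
theorem Fl.change (h : Fl f x y z) {d e : F × F} (hd : dt d e ≠ 0) :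
    Fl f x (d.1 • y + d.2 • z) (e.1 • y + e.2 • z) := by
  have h1 : ∀ s t s' t' : F, f.B (s • y + t • z) (s' • y + t' • z) = 0 := fun s t s' t' => by
    simp [uB_smul, f.B_self_of_Q h.cs.2.1, f.B_self_of_Q h.qz, h.zy, f.B_eq_zero_symm h.zy]
  have h2 : ∀ s t : F, f.B (s • y + t • z) x = 0 := fun s t => by simp [h.cs.1, h.zx]
  refine ⟨h.qx, h.x0, ⟨h2 _ _, by rw [unit_Q, h1], fun e => ?_⟩, by rw [unit_Q, h1], h2 _ _,
    h1 _ _ _ _, fun e' => ?_⟩
  · obtain ⟨s, hs⟩ := mem_span_singleton.1 e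
    obtain ⟨-, h3, h4⟩ := h.indep (r := -s) (s := d.1) (t := d.2) (by rw [add_assoc, ← hs]; simp)
    simp [dt, h3, h4] at hd
  · obtain ⟨s, t, hs⟩ := mem_span_pair.1 e'
    obtain ⟨-, h3, h4⟩ := h.indep (r := s) (s := t * d.1 - e.1) (t := t * d.2 - e.2)
      (by linear_combination (norm := module) hs)
    exact hd (by simp only [dt]; linear_combination d.2 * h3 - d.1 * h4)

variable (f) in
/-- flag transitivity -/
def CT (ω : X) : Prop := ∀ x y z x' y' z', Fl f x y z → Fl f x' y' z' → ∃ k : f.Isom,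
  k • ω = ω ∧ k.1 x ∈ span F {x'} ∧ k.1 y ∈ span F {x', y'} ∧ k.1 z ∈ span F {x', y', z'}

omit [Finite V] in
theorem conj_Sb {x' : V} (hk : k • ω = ω) (hx : f.Q x' = 0) (e : k.1 x = c • x') (hc : c ≠ 0)
    (h : a ∈ Sb f x ω) : frobq hF c • k.1 a ∈ Sb f x' ω := by
  have := map_mem_Sb k h
  rwa [hk, e, mem_Sb_smul hx hc] at this

theorem CT.two (H : CT f ω) (hf : f.Nondeg) (h6 : 6 ≤ finrank F V) {x' y' : V} (hx : f.Q x = 0)
    (hx0 : x ≠ 0) (hy : y ∈ Cs f x) (hx' : f.Q x' = 0) (hx0' : x' ≠ 0) (hy' : y' ∈ Cs f x') :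
    ∃ k : f.Isom, k • ω = ω ∧ ∃ r s t : F, r ≠ 0 ∧ t ≠ 0 ∧ k.1 x = r • x' ∧
      k.1 y = s • x' + t • y' := by
  obtain ⟨z, h⟩ := exists_fl hf h6 hx hx0 hy
  obtain ⟨z', h'⟩ := exists_fl hf h6 hx' hx0' hy'
  obtain ⟨k, h1, h2, h3, -⟩ := H _ _ _ _ _ _ h h'
  obtain ⟨r, hr⟩ := mem_span_singleton.1 h2
  obtain ⟨s, t, hs⟩ := mem_span_pair.1 h3
  have h0 : r ≠ 0 := by rintro rfl; exact hx0 (k.1.injective (by simp [← hr]))
  refine ⟨k, h1, r, s, t, h0, ?_, hr.symm, hs.symm⟩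
  rintro rfl
  exact hy.2.2 (mem_span_singleton.2 ⟨s / r, k.1.injective (by
    rw [map_smul, ← hr, ← hs, smul_smul, div_mul_cancel₀ _ h0]; simp)⟩)

theorem CT.one (H : CT f ω) (hf : f.Nondeg) (h6 : 6 ≤ finrank F V) {x' : V} (hx : f.Q x = 0)
    (hx0 : x ≠ 0) (hx' : f.Q x' = 0) (hx0' : x' ≠ 0) :
    ∃ k : f.Isom, k • ω = ω ∧ ∃ r : F, r ≠ 0 ∧ k.1 x = r • x' := by
  obtain ⟨y, h⟩ := exists_mem_Cs hf (by omega) hx hx0
  obtain ⟨y', h'⟩ := exists_mem_Cs hf (by omega) hx' hx0'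
  obtain ⟨k, h1, r, -, -, h2, -, h3, -⟩ := H.two hf h6 hx hx0 h hx' hx0' h'
  exact ⟨k, h1, r, h2, h3⟩

theorem CT.exists_not_mem (H : CT f ω) (hf : f.Nondeg) (h6 : 6 ≤ finrank F V) (hx : f.Q x = 0)
    (hzx : f.B z x = 1) (h0 : c ≠ 0) (h1 : c ≠ 1) (h2 : frobq hF c = c) (hs : Hs f ω x z c) :
    ∃ x, f.Q x = 0 ∧ x ≠ 0 ∧ ∃ a ∈ Sb f x ω, a ∉ F ∙ x := by
  by_contra! hc
  have h3 : ∀ v, f.Q v = 0 → v ≠ 0 → ∃ p, f.B p v = 1 ∧ Hs f ω v p c := fun v hv hv0 => by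
    obtain ⟨k, hk, r, hr, e⟩ := H.one hf h6 hx (by rintro rfl; simp at hzx) hv hv0
    have := (hs.map hk).smul (inv_ne_zero hr) (frobq hF r)
    rw [e, inv_smul_smul₀ hr] at this
    exact ⟨_, by rw [B_smul_left, ← uB_smul, ← e, Isom.map_B, hzx], this⟩
  choose! p h3 h4 using h3
  obtain ⟨φ, h5, h7, h8, -⟩ := unit_exists_emb hf (m := 3) (by omega) (x₀ := 1) one_ne_zero
    (d := x) (by rintro rfl; simp at hzx) hx
  have h9 : ∀ v, v ≠ 0 → φ v ≠ 0 := fun v => (map_ne_zero_iff _ h5).2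
  refine no_polarity (F := F) (V := Fin 3 → F) (by simp) (fun v => (f.B.flip (p (φ v))).comp φ)
    (fun v hv => ?_) fun v w hv hw e => ?_
  · exact B_ne_symm (by rw [h3 _ (h7 v) (h9 v hv)]; exact one_ne_zero)
  replace e : f.B (φ w) (p (φ v)) = 0 := e
  change f.B (φ v) (p (φ w)) = 0
  obtain ⟨g, g1, g2, g3, g4⟩ := h4 _ (h7 v) (h9 v hv)
  obtain ⟨s, hs⟩ := mem_span_singleton.1 (g3 _ (h8 w v))
  obtain ⟨t, ht⟩ := mem_span_singleton.1 g4
  have g5 : g.1 (φ w) = φ w := by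
    have e1 : f.B (g.1 (φ w)) (c • g.1 (p (φ v))) = 0 := by rw [uB_smul, Isom.map_B, e, mul_zero]
    rw [← sub_add_cancel (g.1 (φ w)) (φ w), ← hs, ← sub_add_cancel (c • _) (p (φ v)), ← ht] at e1
    simp [uB_smul, h8, e, uB_symm (p (φ v)), h3 _ (h7 v) (h9 v hv)] at e1
    rw [← sub_eq_zero, ← hs, e1, zero_smul]
  have g6 := (h4 _ (h7 w) (h9 w hw)).map g1
  rw [g5] at g6
  obtain ⟨r, hr⟩ := mem_span_singleton.1 (hc _ (h7 w) (h9 w hw) _ ((h4 _ (h7 w) (h9 w hw)).sub hf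
    (h7 w) h0 g6 (h3 _ (h7 w) (h9 w hw))
    (by rw [← h3 _ (h7 w) (h9 w hw), ← Isom.map_B g (p _), g5])))
  have e1 := congrArg (f.B · (φ v)) hr
  have e2 := Isom.map_B g (p (φ w)) (φ v)
  simp only [B_smul_left, B_sub_left, h8, mul_zero] at e1
  rw [g2, uB_smul, h2] at e2
  have h10 := sub_ne_zero.2 h1
  apply f.B_eq_zero_symm
  apply mul_left_cancel₀ (mul_ne_zero h10 h10)
  linear_combination -c * e1 + (c - 1) * e2

theorem CT.surj (H : CT f ω) (hf : f.Nondeg) (h6 : 6 ≤ finrank F V)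
    (h : ∃ x, f.Q x = 0 ∧ x ≠ 0 ∧ ∃ a ∈ Sb f x ω, a ∉ F ∙ x) (hx : Fl f x y z) (s t : F) :
    ∃ a ∈ Sb f x ω, f.B a y = s ∧ f.B a z = t := by
  let ν : V →ₗ[F] F × F := (f.B.flip y).prod (f.B.flip z)
  have hν : ∀ a, ν a = (f.B a y, f.B a z) := fun _ => rfl
  suffices (Sb f x ω).map ν.toAddMonoidHom = ⊤ by
    obtain ⟨a, h1, h2⟩ := this.ge (AddSubgroup.mem_top (s, t))
    exact ⟨a, h1, congrArg Prod.fst h2, congrArg Prod.snd h2⟩
  refine eq_top_of_points _ (fun e => ?_) fun d d' hd hd' => ?_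
  · obtain ⟨x', h1, h2, a, h3, h4⟩ := h
    obtain ⟨y', h5⟩ := exists_mem_Cs hf (by omega) h1 h2
    obtain ⟨y'', h7, h8⟩ := exists_hyp_perp hf h5
    obtain ⟨u, h9, h10, h11⟩ := exists_sing_perp_of_hyp hf h7 (mem_orth_singleton.2 h5.1)
      (mem_orth_singleton.2 h8) h4
    obtain ⟨k, hk, r, s, t, h12, h13, h14, h15⟩ := H.two hf h6 h1 h2 (y := u)
      ⟨mem_orth_singleton.1 h9, h10, fun e => by
        obtain ⟨s, rfl⟩ := mem_span_singleton.1 e
        exact h11 (by rw [uB_smul, orth_of_mem_Sb h1 h3, mul_zero])⟩ hx.qx hx.x0 hx.cs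
    have h16 := conj_Sb hk hx.qx h14 h12 h3
    have h17 := congrArg Prod.fst (AddSubgroup.mem_bot.1 (e.le ⟨_, h16, rfl⟩))
    have h18 := orth_of_mem_Sb hx.qx h16
    apply h11
    rw [← Isom.map_B k, h15]
    simp only [LinearMap.toAddMonoidHom_coe, hν, B_smul_left, Prod.fst_zero, mul_eq_zero,
      map_eq_zero, h12, false_or] at h17 h18
    simp [uB_smul, h17, h18]
  have key : ∀ d : F × F, d ≠ 0 → ∃ u v, Fl f x u v ∧ span F {x, u, v} = span F {x, y, z} ∧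
      ∀ a, f.B a u = dt (ν a) d := fun d hd => by
    obtain ⟨e, he⟩ := exists_dt (a := (frobq hF d.2, -frobq hF d.1)) (fun e => hd (Prod.ext
      (by simpa using congrArg Prod.snd e) (by simpa using congrArg Prod.fst e)))
    refine ⟨_, _, hx.change he, le_antisymm (span_le.2 ?_) (span_le.2 ?_), fun a => by
      simp [hν, dt, uB_smul, frobq_frobq]; ring⟩
    · rintro _ (rfl | rfl | rfl)
      · exact subset_span (by simp)
      all_goals exact add_mem (smul_mem _ _ (subset_span (by simp))) (smul_mem _ _ (subset_span (by simp)))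
    · have h1 : ∀ v : F × F, v.1 • y + v.2 • z ∈ span F {x, frobq hF d.2 • y + -frobq hF d.1 • z,
          e.1 • y + e.2 • z} := fun v => by
        rw [dt_decomp he v]
        generalize dt v e / _ = α
        generalize dt _ v / _ = β
        simp only [Prod.fst_add, Prod.snd_add, Prod.smul_fst, Prod.smul_snd, smul_eq_mul]
        rw [show (α * frobq hF d.2 + β * e.1) • y + (α * -frobq hF d.1 + β * e.2) • z =
          α • (frobq hF d.2 • y + -frobq hF d.1 • z) + β • (e.1 • y + e.2 • z) by module]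
        exact add_mem (smul_mem _ _ (subset_span (by simp))) (smul_mem _ _ (subset_span (by simp)))
      rintro _ (rfl | rfl | rfl)
      · exact subset_span (by simp)
      · simpa using h1 (1, 0)
      · simpa using h1 (0, 1)
  obtain ⟨u, v, h1, h2, h3⟩ := key d hd
  obtain ⟨u', v', h1', h2', h3'⟩ := key d' hd'
  obtain ⟨k, hk, k1, k2, k3⟩ := H _ _ _ _ _ _ h1 h1'
  have k4 : ∀ w ∈ span F {x, y, z}, k.1 w ∈ span F {x, y, z} := fun w hw => by
    rw [← h2] at hw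
    rw [← h2']
    refine (span_le (p := (span F {x, u', v'}).comap k.1.toLinearMap)).2 ?_ hw
    rintro _ (rfl | rfl | rfl)
    · exact span_mono (by simp) k1
    · exact span_mono (by simp [Set.subset_def]) k2
    · exact k3
  have k5 : ∀ w, w ∈ f.orth (span F {x, y, z}) ↔ f.B w x = 0 ∧ ν w = 0 := fun w => by
    simp [mem_orth_span, hν]
  obtain ⟨r, hr⟩ := mem_span_singleton.1 k1
  have h0 : r ≠ 0 := by rintro rfl; exact hx.x0 (k.1.injective (by simp [← hr]))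
  obtain ⟨α, β, k6⟩ := mem_span_pair.1 k2
  have hβ : β ≠ 0 := by
    rintro rfl
    exact h1.cs.2.2 (mem_span_singleton.2 ⟨α / r, k.1.injective (by
      rw [map_smul, ← hr, ← k6, smul_smul, div_mul_cancel₀ _ h0]; simp)⟩)
  obtain ⟨a₀, a1, a2⟩ : ∃ a, f.B a x = 0 ∧ ν a = d := by
    obtain ⟨a, ha⟩ := hf.exists_B_eq (u := ![x, y, z]) (Fintype.linearIndependent_iff.2
      fun g hg i => by
        have := hx.indep (r := g 0) (s := g 1) (t := g 2) (by simpa [Fin.sum_univ_three] using hg)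
        fin_cases i
        exacts [this.1, this.2.1, this.2.2]) ![0, frobq hF d.1, frobq hF d.2]
    exact ⟨a, f.B_eq_zero_symm (ha 0), Prod.ext (by
      simpa [hν, frobq_frobq, uB_symm y] using congrArg (frobq hF) (ha 1)) (by
        simpa [hν, frobq_frobq, uB_symm z] using congrArg (frobq hF) (ha 2))⟩
  have a3 : f.B (k.1 a₀) x = 0 := by
    have := Isom.map_B k a₀ x
    rwa [← hr, uB_smul, a1, mul_eq_zero, map_eq_zero, or_iff_right h0] at this
  have a4 : dt (ν (k.1 a₀)) d' = 0 := by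
    have := Isom.map_B k a₀ u
    rw [← k6, h3, a2, B_add_right, uB_smul, uB_smul, a3, h3'] at this
    simpa [hβ, dt, mul_comm] using this
  obtain ⟨e, he⟩ := exists_dt hd'
  have a5 := dt_decomp he (ν (k.1 a₀))
  rw [show dt d' (ν (k.1 a₀)) = 0 by simp only [dt] at a4 ⊢; linear_combination -a4, zero_div,
    zero_smul, add_zero] at a5
  generalize dt (ν (k.1 a₀)) e / dt d' e = m at a5
  refine ⟨frobq hF r * m, mul_ne_zero ((uP hF).σ_ne_zero h0) fun e => hd ?_, ?_⟩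
  · rw [e, zero_smul] at a5
    rw [← a2]
    exact ((k5 _).1 fun w hw => by rw [← Isom.map_B k, (k5 _).2 ⟨a3, a5⟩ _ (k4 w hw)]).2
  rintro c ⟨a, ha, e⟩
  refine ⟨_, conj_Sb hk hx.qx hr.symm h0 ha, ?_⟩
  have := ((k5 _).1 (Isom.orth_invariant k k4 (a - c • a₀) ((k5 _).2 ⟨by
    simp [a1, orth_of_mem_Sb hx.qx ha], by rw [map_sub, map_smul, a2]; exact sub_eq_zero.2 e⟩))).2
  rw [map_sub, map_smul, map_sub, map_smul, sub_eq_zero, a5] at this
  simp only [LinearMap.toAddMonoidHom_coe, map_smul, this, smul_smul]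
  congr 1; ring

theorem CT.phi (H : CT f ω) (hf : f.Nondeg) (h6 : 6 ≤ finrank F V)
    (h : ∃ x, f.Q x = 0 ∧ x ≠ 0 ∧ ∃ a ∈ Sb f x ω, a ∉ F ∙ x) : Phi f ω ⊤ := by
  have hs := fun x y z => H.surj (x := x) (y := y) (z := z) hf h6 h
  obtain ⟨x, hx, hx0, -⟩ := h
  suffices tau f x ω = Lam (uP hF) from fun w _ h1 h2 => by
    obtain ⟨k, hk, r, hr, e⟩ := H.one hf h6 hx hx0 h1 h2
    have := (Dl.map ⟨hx, hx0, this⟩ hk).smul (inv_ne_zero hr)
    rwa [e, inv_smul_smul₀ hr] at this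
  have key : ∀ x y a b, f.Q y = 0 → a ∈ Sb f y ω → f.B a x = 0 → f.B x y = 0 → b ∈ Sb f x ω →
      f.B b y = 0 → f.B b a • y ∈ Sb f x ω := fun x y a b hy ha hax hxy hb hby => by
    obtain ⟨l, g, h1, h2⟩ := ha hy
    have := map_mem_Sb g hb
    rw [h2, h1.apply_of_orth hxy (f.B_eq_zero_symm hax), uE_app h1, hby] at this
    simpa using sub_mem hb this
  obtain ⟨y, hy⟩ := exists_mem_Cs hf (by omega) hx hx0
  by_cases hA : ∃ a ∈ Sb f y ω, f.B a x = 0 ∧ ∃ b ∈ Sb f x ω, f.B b y = 0 ∧ f.B b a ≠ 0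
  · obtain ⟨a, a1, a2, b, b1, b2, b3⟩ := hA
    have h1 := key x y a b hy.2.1 a1 a2 (f.B_eq_zero_symm hy.1) b1 b2
    have h2 : ∀ y ∈ Cs f x, ∀ c : F, c • y ∈ Sb f x ω := fun y' hy' c => by
      obtain ⟨z, hz⟩ := exists_fl hf h6 hx hx0 hy'
      obtain ⟨k, hk, r, s, t, k1, k2, k3, k4⟩ := H.two hf h6 hx hx0 hy hy'.2.1 hz.swap.x0 (y' := z)
        ⟨hz.zy, hz.qz, fun e => hz.zn (span_mono (by simp) e)⟩
      have h3 := conj_Sb hk hy'.2.1 k3 k1 h1
      rw [map_smul, k4, smul_add, smul_add, add_comm, smul_smul, smul_smul, smul_smul,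
        smul_smul] at h3
      have h4 := mul_ne_zero (mul_ne_zero ((map_ne_zero (frobq hF)).2 k1) b3) k2
      obtain ⟨b', h5, h7, h8⟩ := hs _ _ _ hz 0 (c / frobq hF (frobq hF r * f.B b a * t))
      have := key x y' _ b' hy'.2.1 (mem_Sb_of_add _ h3) (by simp [hz.zx])
        (f.B_eq_zero_symm hy'.1) h5 h7
      rwa [uB_smul, h8, mul_div_cancel₀ _ ((map_ne_zero _).2 h4)] at this
    obtain ⟨y', h3, h4⟩ := exists_hyp_perp hf hy
    refine tau_eq_of hx (b := y') (by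
      simpa using h2 y' ⟨h4, h3.Qe, not_mem_span_of_B (f.B_eq_zero_symm hy.1)
        (by rw [h3.Beu]; simp)⟩ 1) fun c => ⟨_, h2 y hy c, by simp [h3.Bue]⟩
  push Not at hA
  obtain ⟨z, hz⟩ := exists_fl hf h6 hx hx0 hy
  choose b b1 b2 b3 using hs _ _ _ hz 0
  have b4 := fun t => orth_of_mem_Sb hx (b1 t)
  have h1 : ∀ r s t : F, f.Q (r • b 1 + s • b t) = 0 → r • b 1 + s • b t ∈ span F {x, y} :=
    fun r s t e => by_contra fun e' => by
      obtain ⟨a, a1, a2, a3⟩ := hs y x _ (Fl.swap ⟨hx, hx0, hy, e, by simp [b4], by simp [b2], e'⟩)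
        0 1
      have := fun t => f.B_eq_zero_symm (hA a a1 a2 _ (b1 t) (b2 t))
      simp [uB_smul, this] at a3
  have h2 : ∀ v ∈ span F {x, y}, f.B v z = 0 ∧ f.B v (b 1) = 0 := fun v hv => by
    obtain ⟨s, t, rfl⟩ := mem_span_pair.1 hv
    simp [f.B_eq_zero_symm hz.zx, f.B_eq_zero_symm hz.zy, f.B_eq_zero_symm (b4 1),
      f.B_eq_zero_symm (b2 1)]
  have h3 : f.B (b 1) (b 1) ≠ 0 := fun e => by
    simpa [b3] using (h2 _ (h1 1 0 0 (by simpa [unit_Q] using e))).1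
  refine tau_eq_of hx (b1 1) fun c => ⟨_, b1 (c / f.B (b 1) (b 1)), ?_⟩
  generalize ht : c / f.B (b 1) (b 1) = t
  obtain rfl : c = t * f.B (b 1) (b 1) := by rw [← ht, div_mul_cancel₀ _ h3]
  set v := -(f.B (b t) (b 1) / f.B (b 1) (b 1)) • b 1 + b t with hv
  have h4 : f.B v (b 1) = 0 := by simp [hv, h3]
  obtain ⟨r, hr⟩ := exists_norm_eq hF (c := -f.B v v / f.B (b 1) (b 1)) (by
    rw [map_div₀, map_neg, ← uB_symm, ← uB_symm])
  have h5 := h2 _ (h1 (r - f.B (b t) (b 1) / f.B (b 1) (b 1)) 1 t (by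
    rw [show (r - f.B (b t) (b 1) / f.B (b 1) (b 1)) • b 1 + (1 : F) • b t = r • b 1 + v by
      rw [hv]; module, f.Q_add_of_orth (by rw [B_smul_left, f.B_eq_zero_symm h4, mul_zero]),
      f.Q_smul, unit_Q, unit_Q]
    simp only [Param.unit_σ, hr]; field_simp; ring))
  simp only [B_add_left, B_smul_left, b3] at h5
  have h7 : r = 0 := by
    apply mul_right_cancel₀ h3
    have := h5.2
    field_simp at this
    linear_combination this
  have := h5.1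
  rw [h7] at this
  field_simp at this
  linear_combination -this

end Cfsg.Agent.Rk3
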