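import Cfsg.Agent.Lib.Rk3.Ext

/-!
Point stabilisers with large tori: the local analysis.
-/

set_option autoImplicit false

namespace Cfsg.Agent.Rk3

open Module Cfsg.Agent.Forms Cfsg.Agent.Forms.Form Cfsg.Agent.Cls Cfsg.Agent.Deg Cfsg.Agent.MI
  MulAction

variable {F : Type*} [Field F] [Fintype F] {q m : ℕ} {hF : Fintype.card F = q ^ 2}

local notation:max "𝐞" i:max => (Pi.single i (1 : F) : Fin _ → F)

variable {Y : Type*} [MulAction (AF (m + 6) hF).Isom Y] {l e : ℕ} {ω : Y}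

variable (hF m) in
/-- exchange of the first two planes -/
noncomputable def s01 : (AF (m + 6) hF).Isom := pm hF (sw_mem tri012.na tri012.nb tri012.ab)

theorem s01_apply (v : Fin (m + 6) → F) (i : Fin (m + 6)) : (s01 m hF).1 v i = v (sw 0 1 i) := rfl

theorem s01_e0 : (s01 m hF).1 𝐞 0 = 𝐞 1 := by
  have := pm_single hF (sw_mem (tri012 (m := m)).na tri012.nb tri012.ab) 1
  rwa [sw_b tri012.nb tri012.ab] at this

theorem s01_e1 : (s01 m hF).1 𝐞 1 = 𝐞 0 := by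
  have := pm_single hF (sw_mem (tri012 (m := m)).na tri012.nb tri012.ab) 0
  rwa [sw_a tri012.na tri012.ab] at this

theorem s01_inv : (s01 m hF)⁻¹ = s01 m hF :=
  inv_eq_of_mul_eq_one_left (Isom.ext fun v => funext fun i => by
    simp [Isom.mul_apply, s01_apply, sw_sw tri012.na tri012.nb tri012.ab])

theorem RII.dich (R : RII hF (m + 6) Y l e) (h : Spl (m + 6) hF ω) :
    (∃ a ∈ Sb (AF (m + 6) hF) 𝐞 0 ω, a (Fin.rev 1) ≠ 0) ∨
      ∃ a ∈ Sb (AF (m + 6) hF) 𝐞 0 (s01 m hF • ω), a (Fin.rev 1) ≠ 0 := by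
  have H := tri012 (m := m)
  let P : Subgroup (AF (m + 6) hF).Isom :=
    { carrier := {x | x • ω = ω ∧ ∀ v ∈ low F _ 2, x.1 v ∈ low F _ 2}
      one_mem' := ⟨one_smul _ _, fun _ h => h⟩
      mul_mem' := fun ha hb => ⟨by rw [mul_smul, hb.1, ha.1], fun v h => ha.2 _ (hb.2 v h)⟩
      inv_mem' := fun ha => inv_mem_of_mul_mem (S := {x : (AF (m + 6) hF).Isom |
          x • ω = ω ∧ ∀ v ∈ low F _ 2, x.1 v ∈ low F _ 2}) ⟨one_smul _ _, fun _ h => h⟩
        (fun _ ha _ hb => ⟨by rw [mul_smul, hb.1, ha.1], fun v h => ha.2 _ (hb.2 v h)⟩) ha }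
  let ι : F × F →ₗ[F] Fin (m + 6) → F :=
    (LinearMap.fst F F F).smulRight 𝐞 0 + (LinearMap.snd F F F).smulRight 𝐞 1
  let κ : (Fin (m + 6) → F) →ₗ[F] F × F := (LinearMap.proj 0).prod (LinearMap.proj 1)
  have h0 := low_mono (F := F) (n := m + 6) one_le_two e0_low
  have i1 : ∀ v, ι v ∈ low F _ 2 := fun v =>
    add_mem (Submodule.smul_mem _ _ h0) (Submodule.smul_mem _ _ e1_low)
  have i2 : ∀ v, κ (ι v) = v := fun v => by ext <;> simp [κ, ι, H.ab.1, H.ab.1.symm]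
  have i3 : ∀ v ∈ low F _ 2, ι (κ v) = v := fun v hv => (low_two hv).symm
  have i4 : ι (1, 0) = 𝐞 0 := by simp [ι]
  have i5 : ι (0, 1) = 𝐞 1 := by simp [ι]
  let ρ : P →* Module.End F (F × F) :=
    { toFun := fun x => κ ∘ₗ x.1.1.toLinearMap ∘ₗ ι
      map_one' := LinearMap.ext i2
      map_mul' := fun x y => LinearMap.ext fun v => by
        simp only [LinearMap.comp_apply, Module.End.mul_apply, LinearEquiv.coe_coe]
        rw [i3 _ (y.2.2 _ (i1 v))]; rfl }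
  have i6 : ∀ (x : P) v, x.1.1 (ι v) = ι (ρ x v) := fun x v => (i3 _ (x.2.2 _ (i1 v))).symm
  have i7 : ∀ (x : P) v w, x.1.1 (ι v) = ι w → ρ x v = w := fun x v w e => by
    rw [← i2 w, ← e]; rfl
  refine (panel (ρ := ρ) (card_F hF) R.hq R.he (fun a ha y hy => ?_)
    ⟨by simp [dt], fun y hy => ?_⟩).imp (fun h1 => ?_) fun h1 => ?_
  rotate_left 2
  · obtain ⟨⟨s, g, r, hr, h2⟩, h3⟩ := AddSubgroup.ne_bot_iff_exists_ne_zero.1 h1
    refine R.ext12 g.2.1 (r := r) (s := -(r * s)) ?_ ?_ fun e => h3 (Subtype.ext ?_)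
    · rw [← i4, i6, h2, ← map_smul]; simp [dt]
    · rw [← i4, ← i5, i6, h2, ← map_smul, ← map_smul, ← map_add]; simp [dt]
    · simpa [hr] using e
  · obtain ⟨⟨s, g, r, hr, h2⟩, h3⟩ := AddSubgroup.ne_bot_iff_exists_ne_zero.1 h1
    have h4 : g.1.1 𝐞 1 = r • 𝐞 1 := by rw [← i5, i6, h2, ← map_smul]; simp [dt]
    have h5 : g.1.1 𝐞 0 = r • 𝐞 0 + (r * s) • 𝐞 1 := by
      rw [← i4, ← i5, i6, h2, ← map_smul, ← map_smul, ← map_add]; simp [dt]
    refine R.ext12 (g := s01 m hF * g * (s01 m hF)⁻¹) (r := r) (s := r * s)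
      (by rw [mul_smul, inv_smul_smul, mul_smul, g.2.1]) ?_ ?_ fun e => h3 (Subtype.ext ?_)
    · rw [Isom.mul_apply, Isom.mul_apply, s01_inv, s01_e0, h4, map_smul, s01_e1]
    · rw [Isom.mul_apply, Isom.mul_apply, s01_inv, s01_e1, h5, map_add, map_smul, map_smul,
        s01_e0, s01_e1]
    · simpa [hr] using e
  · obtain ⟨b, hb⟩ := exists_dt ha
    have i8 : ∀ v w, (AF (m + 6) hF).B (ι v) (ι w) = 0 := fun v w =>
      aForm_B_low (k := 2) (l := 2) (by omega) (i1 v) (i1 w)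
    let β : F × F →ₗ[F] F × F :=
      (LinearMap.fst F F F).smulRight a + (LinearMap.snd F F F).smulRight b
    have hβ : ∀ v, β v = v.1 • a + v.2 • b := fun _ => rfl
    have hβ' : ∀ v, ∃ w, β w = v := fun v => ⟨(_, _), (dt_decomp hb v).symm⟩
    obtain ⟨k, hk⟩ := (aForm_nondeg (hs := frobq_ne hF)).witt_maps ι (ι ∘ₗ β)
      (Function.LeftInverse.injective i2) ((Function.LeftInverse.injective i2).comp
        (Finite.injective_iff_surjective.2 hβ')) (fun v w => (i8 _ _).trans (i8 _ _).symm)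
      fun v => by rw [unit_Q, unit_Q]; exact (i8 _ _).trans (i8 _ _).symm
    replace hk : ∀ v, k.1 (ι v) = ι (β v) := hk
    obtain ⟨t, ⟨g, g1, g2, g3⟩, h1⟩ := R.root _ _ _ H (k⁻¹ • ω) (Units.mk0 y hy)
    have h2 : ∀ v, (k * g * k⁻¹).1 (ι (β v)) = ι (β (κ (g.1 (ι v)))) := fun v => by
      rw [← hk, ← hk, i3 _ (g1 _ _ (i1 v))]; simp [Isom.mul_apply]
    have h3 : k * g * k⁻¹ ∈ P := ⟨by rw [mul_smul, mul_smul, g2, smul_inv_smul], fun v hv => by
      obtain ⟨w, hw⟩ := hβ' (κ v)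
      rw [← i3 v hv, ← hw, h2]; exact i1 _⟩
    have h4 : κ (g.1 (ι (1, 0))) = ((t.1 0 : F), 0) := by
      rw [i4]; exact Prod.ext (g3 0) (g1 _ _ e0_low 1 le_rfl)
    refine ⟨⟨_, h3⟩, t.1 0, ?_, fun v => ?_⟩
    · have := i7 ⟨_, h3⟩ _ _ (h2 (1, 0))
      simpa [h4, hβ] using this
    · obtain ⟨w, rfl⟩ := hβ' v
      have h5 : (κ (g.1 (ι w))).2 = t.1 0 * y ^ e * w.2 := by
        have := apply_eq_dg g1 (i := 1) (i1 w)
        rw [g3, h1, show ι w 1 = w.2 from congrArg Prod.snd (i2 w)] at this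
        simpa [κ] using this
      refine ⟨(κ (g.1 (ι w))).1 - t.1 0 * y ^ e * w.1, ?_⟩
      rw [i7 ⟨_, h3⟩ _ _ (h2 w), hβ, hβ, h5]; module
  · obtain ⟨t, h1, h2⟩ := R.root _ _ _ H ω (Units.mk0 y hy)
    refine ⟨⟨dT hF t, h t h1, dT_mem hF t 2⟩, t.1 0, i7 _ _ _ ?_, i7 _ _ _ ?_⟩
    · rw [map_smul, i4, dT_single]
    · rw [map_smul, i5, dT_single, h2]; simp

theorem dT_Sb (h : Spl (m + 6) hF ω) {t : Tor F q (m + 6)} (ht : t ∈ St (m + 6) hF ω)
    {a : Fin (m + 6) → F} (ha : a ∈ Sb (AF (m + 6) hF) 𝐞 0 ω) :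
    (fun i => ((t.1 0 ^ q * t.1 i : Fˣ) : F) * a i) ∈ Sb (AF (m + 6) hF) 𝐞 0 ω := by
  convert conj_Sb (h t ht) (Qe tri012.na) (dT_single hF t 0) (Units.ne_zero _) ha using 1
  ext i; simp [dT_apply, frobq_apply, mul_assoc]

theorem RII.avg (R : RII hF (m + 6) Y l e) (h : Spl (m + 6) hF ω) {c : Fin (m + 6)}
    (hc : c ≠ c.rev) (hc0 : DP 0 c) {a : Fin (m + 6) → F} (ha : a ∈ Sb (AF (m + 6) hF) 𝐞 0 ω) :
    ∃ b ∈ Sb (AF (m + 6) hF) 𝐞 0 ω, b c = a c ∧ (b c.rev = a c.rev ∨ b c.rev = 0) ∧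
      ∀ i, DP i c → b i = 0 := by
  classical
  obtain ⟨p, -, hp, hc', -⟩ := exists_char_pow hF
  have := Fact.mk hp
  let A : Subgroup (Tor F q (m + 6)) := St (m + 6) hF ω ⊓ (rt 0 c.rev).ker
  have := Fintype.ofFinite A
  let χ : Fin (m + 6) → A →* Fˣ := fun i => (ev 0 ^ q * ev i : Tor F q _ →* Fˣ).comp A.subtype
  have h1 := sum_mem (t := Finset.univ) fun (t : A) _ => dT_Sb h t.2.1 ha
  have h2 : (Fintype.card A : F) ≠ 0 := by
    rw [Ne, CharP.cast_eq_zero_iff F p, ← Nat.card_eq_fintype_card]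
    exact not_dvd_card hF ((Tor F q _).subtype.comp A.subtype)
      (Subtype.val_injective.comp Subtype.val_injective)
  have h3 := nsmul_mem h1 (Fintype.card A ^ (Fintype.card F - 2))
  have h4 : ∀ i, (Fintype.card A ^ (Fintype.card F - 2) • ∑ t : A,
      fun i => ((t.1.1 0 ^ q * t.1.1 i : Fˣ) : F) * a i) i = if χ i = 1 then a i else 0 := fun i => by
    have h5 := sum_hom_units ((Units.coeHom F).comp (χ i))
    have h6 := FiniteField.pow_card_sub_one_eq_one _ h2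
    have h7 := Fintype.one_lt_card (α := F)
    rw [show Fintype.card F - 1 = Fintype.card F - 2 + 1 by omega, pow_succ] at h6
    rw [Pi.smul_apply, Finset.sum_apply, ← Finset.sum_mul]
    change _ • ((∑ t, ((Units.coeHom F).comp (χ i)) t) * _) = _
    rw [h5]
    by_cases e : χ i = 1
    · simp [e, ← mul_assoc, h6]
    · rw [if_neg e, if_neg fun e' => e (MonoidHom.ext fun t =>
        Units.ext (DFunLike.congr_fun e' t))]; simp
  generalize (Fintype.card A ^ (Fintype.card F - 2) • ∑ t : A,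
      fun i => ((t.1.1 0 ^ q * t.1.1 i : Fˣ) : F) * a i) = b at h3 h4
  have h5 : χ c = 1 := MonoidHom.ext fun t => by
    have e : t.1.1 0 = t.1.1 c.rev := div_eq_one.1 t.2.2
    change t.1.1 0 ^ q * t.1.1 c = 1
    rw [e, mul_comm]; exact t.1.2.1 c
  obtain ⟨d, H⟩ := exists_tri (c := c.rev) (by rw [Fin.rev_rev]; exact hc.symm) hc0.symm.rev.symm
  refine ⟨b - b 0 • 𝐞 0, sub_mem h3 (smul_self_mem_Sb _), by
    rw [Pi.sub_apply, h4 c, if_pos h5]; simp [hc0.1.symm], ?_,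
    fun i hi => ?_⟩
  · simp only [Pi.sub_apply, Pi.smul_apply, Pi.single_eq_of_ne hc0.2.symm, h4, smul_zero, sub_zero]
    split_ifs <;> simp
  by_cases e : i = 0
  · simp [e]
  simp only [Pi.sub_apply, Pi.smul_apply, Pi.single_eq_of_ne e, h4, smul_zero, sub_zero]
  split_ifs with h6
  swap
  · rfl
  by_cases e' : i = Fin.rev 0
  · rw [e', ← Be hF a 0, orth_of_mem_Sb (Qe H.na) ha]
  obtain ⟨s, h7, h8⟩ := exists_sep hF R.hq R.hl H ⟨e, e'⟩ hc0.symm hi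
  have e1 := DFunLike.congr_fun (h6.trans h5.symm) ⟨s ^ l, R.pw ω s, div_eq_one.2 h7⟩
  exact absurd (mul_left_cancel e1) h8

/-- projection to a plane -/
def pr {n : ℕ} (c : Fin n) (a : Fin n → F) : Fin n → F := fun i => if i = c ∨ i = c.rev then a i else 0

omit [Fintype F] in
theorem pr_of {n : ℕ} {c i : Fin n} (h : DP i c) (a : Fin n → F) : pr c a i = 0 := by
  simp [pr, h.1, h.2]

omit [Fintype F] in
theorem eq_pr {n : ℕ} {c : Fin n} {a b : Fin n → F} (h1 : b c = a c) (h2 : b c.rev = a c.rev)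
    (h3 : ∀ i, DP i c → b i = 0) : b = pr c a := funext fun i => by
  by_cases e : i = c
  · simp [pr, e, h1]
  by_cases e' : i = c.rev
  · simp [pr, e', h2]
  simp [pr, e, e', h3 i ⟨e, e'⟩]

theorem RII.proj (R : RII hF (m + 6) Y l e) (h : Spl (m + 6) hF ω) {c : Fin (m + 6)}
    (hc : c ≠ c.rev) (hc0 : DP 0 c) {a : Fin (m + 6) → F} (ha : a ∈ Sb (AF (m + 6) hF) 𝐞 0 ω)
    (s : F) : s • pr c a ∈ Sb (AF (m + 6) hF) 𝐞 0 ω := by
  have h1 : pr c a ∈ Sb (AF (m + 6) hF) 𝐞 0 ω := by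
    obtain ⟨b, b1, b2, b3, b4⟩ := R.avg h hc hc0 ha
    obtain ⟨b', b1', b2', b3', b4'⟩ := R.avg h (c := c.rev) (by rw [Fin.rev_rev]; exact hc.symm)
      hc0.symm.rev.symm ha
    rw [Fin.rev_rev] at b3'
    replace b4' : ∀ i, DP i c → b' i = 0 := fun i hi => b4' i hi.symm.rev.symm
    rcases b3 with b3 | b3
    · exact eq_pr b2 b3 b4 ▸ b1
    rcases b3' with b3' | b3'
    · exact eq_pr b3' b2' b4' ▸ b1'
    exact eq_pr (c := c) (a := a) (b := b + b') (by simp [b2, b3']) (by simp [b3, b2'])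
      (fun i hi => by simp [b4 i hi, b4' i hi]) ▸ add_mem b1 b1'
  let J : AddSubgroup (Fin (m + 6) → F) := Sb (AF (m + 6) hF) 𝐞 0 ω ⊓
    ⨅ i : {i // DP i c}, (Pi.evalAddMonoidHom (fun _ => F) i.1).ker
  have hJ : ∀ b, b ∈ J ↔ b ∈ Sb (AF (m + 6) hF) 𝐞 0 ω ∧ ∀ i, DP i c → b i = 0 := fun b => by
    simp [J, AddSubgroup.mem_iInf]
  obtain ⟨d, H⟩ := exists_tri hc hc0
  have h2 := eq_top_of_two hF R.hq R.hl R.he
    ((St (m + 6) hF ω ⊓ (rt c c.rev).ker).map (ev 0 ^ q * ev c)) (fun x => ?_) (fun x => ?_)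
    (scal F J) ?_
  · exact ((hJ _).1 ((h2.ge (Subring.mem_top s) : s ∈ scal F J) _
      ((hJ _).2 ⟨h1, fun i hi => pr_of hi a⟩))).1
  · refine ⟨T2 hF 0 d (x ^ q) ^ l, ⟨R.pw ω _, ?_⟩, ?_⟩
    · simp [rt_apply, T2_apply, H.ab.symm.tv, H.bc.tv, H.ab.symm.rev.tv, H.bc.rev.tv]
    · rw [map_pow]
      simp [ev_apply, T2_apply, H.ab.symm.tv, H.bc.tv, H.ac.tv, tv_self H.na, pow_qq hF]
  · obtain ⟨t, h2, h3⟩ := R.root _ _ _ H ω x
    refine ⟨t ^ (q - 1), ⟨pow_mem h2 _, div_eq_one.2 (pow_sub_rev hF t c).symm⟩, ?_⟩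
    have := pow_sub_rev hF t 0
    simp only [SubgroupClass.coe_pow, Pi.pow_apply, TG.rev t.2.1, inv_pow,
      inv_eq_iff_mul_eq_one] at this
    simp only [map_pow, MonoidHom.mul_apply, MonoidHom.pow_apply, ev_apply, h3, mul_pow,
      ← mul_assoc, this, one_mul, pow_mul]
  · rintro _ ⟨t, ⟨h2, h3⟩, rfl⟩ b hb
    obtain ⟨h4, h5⟩ := (hJ b).1 hb
    refine (hJ _).2 ⟨?_, fun i hi => by simp [h5 i hi]⟩
    convert dT_Sb h h2 h4 using 1
    ext i
    rcases idx_cases c c i with rfl | rfl | rfl | rfl | ⟨e, -⟩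
    · rfl
    · rw [← show t.1 c = t.1 c.rev from div_eq_one.1 h3]; rfl
    · rfl
    · rw [← show t.1 c = t.1 c.rev from div_eq_one.1 h3]; rfl
    · simp [h5 i e]

theorem RII.swap (R : RII hF (m + 6) Y l e) (h : Spl (m + 6) hF ω)
    (h1 : ∀ s : F, s • 𝐞 1 ∈ Sb (AF (m + 6) hF) 𝐞 0 ω) (s : F) :
    s • 𝐞 0 ∈ Sb (AF (m + 6) hF) 𝐞 1 ω := by
  have H := tri012 (m := m)
  obtain ⟨t, t1, t2, t3⟩ := R.exists_h ω
  have h2 : (t.1 0 : F) * frobq hF (t.1 0) = 1 := by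
    have := t.2.1 0
    rw [t2] at this
    rw [frobq_apply, ← Units.val_pow_eq_pow_val, ← Units.val_mul, this, Units.val_one]
  have h3 : frobq hF (t.1 0) * t.1 1 - 1 ≠ 0 := fun e => t3 (Units.ext (by
    linear_combination (t.1 0 : F) * e - (t.1 1 : F) * h2))
  obtain ⟨r, h4⟩ := h1 (-frobq hF s / (frobq hF (t.1 0) * t.1 1 - 1)) (Qe H.na)
  have h5 := h4.map_fix (h t t1)
  rw [dT_single, map_smul, dT_single] at h5
  have h6 := ((h5.smul_left (Units.ne_zero _)).mul (Qe H.na) (h4.inv (Qe H.na))).congr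
    (v' := -frobq hF s • 𝐞 1) (l' := 0) (by
      simp only [Param.unit_σ]; match_scalars; field_simp; ring) (by
      have := (unit_isLam_iff _).1 h4.lam
      simp only [B_smul_left, B_neg_left, uB_smul, Be, Pi.single_eq_of_ne H.nb.symm, mul_zero,
        Param.unit_σ, Param.unit_ε, h2] at this ⊢
      linear_combination this)
  simpa [frobq_frobq] using (h6.swap (Qe H.na) (by
    rw [Be, Pi.single_eq_of_ne H.ab.2.symm])).mem_Sb

end Cfsg.Agent.Rk3
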