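import Cfsg.Agent.Lib.Rk3.Reg2

/-!
Irreducible point stabilisers contain the special unitary group.
-/

set_option autoImplicit false

namespace Cfsg.Agent.Rk3

open Module Cfsg.Agent.Forms Cfsg.Agent.Forms.Form Cfsg.Agent.Cls Cfsg.Agent.Deg Cfsg.Agent.MI
  MulAction

variable {F : Type*} [Field F] [Fintype F] {q m : ℕ} {hF : Fintype.card F = q ^ 2}

local notation:max "𝐞" i:max => (Pi.single i (1 : F) : Fin _ → F)

variable {Y : Type*} [MulAction (AF (m + 6) hF).Isom Y] {l e : ℕ} {ω : Y}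

variable (hF m) in
/-- split points with maximal torus -/
def Good (ω : Y) : Prop := Spl (m + 6) hF ω ∧
  ∀ ω' : Y, Nat.card (St (m + 6) hF ω') ≤ Nat.card (St (m + 6) hF ω)

theorem exists_max_of_bdd {α : Type*} [Nonempty α] (g : α → ℕ) (N : ℕ) (h : ∀ a, g a ≤ N) :
    ∃ a, ∀ b, g b ≤ g a :=
  ⟨Function.argmin fun a => N - g a, fun b => by
    have := Function.argmin_le (fun a => N - g a) b
    have := h b
    omega⟩

theorem exists_good (ω : Y) : ∃ ω : Y, Good m hF ω := by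
  have : Nonempty Y := ⟨ω⟩
  obtain ⟨ω, h⟩ := exists_max_of_bdd (fun ω : Y => Nat.card (St (m + 6) hF ω))
    (Nat.card (Tor F q (m + 6))) fun _ => Subgroup.card_le_card_group _
  obtain ⟨u, hu, h1⟩ := exists_spl (n := m + 6) hF ω
  exact ⟨_, h1, by rwa [St_smul hF (aU_le_aB hu)]⟩

theorem Good.map (h : Good m hF ω) {g : (AF (m + 6) hF).Isom}
    (hg : ∀ t ∈ St (m + 6) hF ω, ∃ t', g * dT hF t * g⁻¹ = dT hF t') : Good m hF (g • ω) := by
  choose! φ h1 using hg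
  have h2 : ∀ t ∈ St (m + 6) hF ω, dT hF (φ t) • g • ω = g • ω := fun t ht => by
    rw [← h1 t ht, mul_smul, inv_smul_smul, mul_smul, h.1 t ht]
  let ψ : St (m + 6) hF ω → St (m + 6) hF (g • ω) := fun t => ⟨φ t, mem_St hF (h2 t t.2)⟩
  have h3 : Function.Injective ψ := fun s t e => Subtype.ext (dT_inj hF (by
    have := h1 s s.2
    rw [show φ s = φ t from congrArg Subtype.val e, ← h1 t t.2] at this
    simpa using this))
  have h4 := h3.bijective_of_nat_card_le (h.2 _)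
  refine ⟨fun t ht => ?_, fun ω' => Nat.card_eq_of_bijective ψ h4 ▸ h.2 ω'⟩
  obtain ⟨s, hs⟩ := h4.2 ⟨t, ht⟩
  rw [← show φ s = t from congrArg Subtype.val hs]
  exact h2 s s.2

theorem Good.pm (h : Good m hF ω) {π : Equiv.Perm (Fin (m + 6))} (hπ : π ∈ Wy _) :
    Good m hF (pm hF hπ • ω) := h.map fun t _ => ⟨_, pm_conj hF hπ t⟩

/-- vectors supported on a plane -/
def Sup {n : ℕ} (c : Fin n) (a : Fin n → F) : Prop := ∀ i, DP i c → a i = 0

variable (hF m) in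
/-- the parameters of the Eichler transformations supported on one plane -/
def Am (ω : Y) : Set (Fin (m + 6) → F) :=
  {a | a ∈ Sb (AF (m + 6) hF) 𝐞 0 ω ∧ ∃ c, c ≠ c.rev ∧ DP 0 c ∧ Sup c a}

theorem Sup.B {n : ℕ} {c : Fin n} (hc : c ≠ c.rev) {a : Fin n → F} (h : Sup c a) (b : Fin n → F) :
    (AF n hF).B a b = a c * frobq hF (b c.rev) + a c.rev * frobq hF (b c) := by
  rw [aForm_B, Finset.sum_eq_add c c.rev hc (fun i _ hi => by rw [h i hi, zero_mul]) (by simp)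
    (by simp), Fin.rev_rev]

theorem ncard_Am_le {g : (AF (m + 6) hF).Isom} (h1 : g.1 𝐞 0 = 𝐞 0)
    (h2 : ∀ c, c ≠ c.rev → DP 0 c → ∃ d, d ≠ d.rev ∧ DP 0 d ∧ ∀ a, Sup c a → Sup d (g.1 a)) :
    (Am m hF ω).ncard ≤ (Am m hF (g • ω)).ncard :=
  Set.ncard_le_ncard_of_injOn g.1 (fun a ⟨h3, c, h4, h5, h6⟩ =>
    let ⟨d, h7, h8, h9⟩ := h2 c h4 h5
    ⟨h1 ▸ map_mem_Sb g h3, d, h7, h8, h9 a h6⟩) g.1.injective.injOn

theorem RII.lt (R : RII hF (m + 6) Y l e) (h : Good m hF ω)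
    (h1 : ∀ a ∈ Sb (AF (m + 6) hF) 𝐞 0 ω, Sup 1 a → a (Fin.rev 1) = 0) :
    (Am m hF ω).ncard < (Am m hF (s01 m hF • ω)).ncard := by
  have H := tri012 (m := m)
  have h' : Good m hF (s01 m hF • ω) := h.pm _
  obtain ⟨a, a1, a2⟩ := (R.dich h.1).resolve_left fun ⟨a, a1, a2⟩ => a2 (by
    simpa [pr] using h1 _ (R.proj h.1 H.nb H.ab a1 1) fun i hi => by simp [pr_of hi])
  have a3 := R.proj h'.1 H.nb H.ab a1 1
  rw [one_smul] at a3
  have a4 : Sup 1 (pr 1 a) := fun i hi => pr_of hi a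
  replace a2 : pr 1 a (Fin.rev 1) ≠ 0 := by simpa [pr] using a2
  generalize pr 1 a = a at a2 a3 a4
  refine Set.ncard_lt_ncard ((Set.ssubset_iff_of_subset ?_).2 ⟨a, ⟨a3, 1, H.nb, H.ab, a4⟩,
    fun e => a2 (h1 a e.1 a4)⟩)
  rintro b ⟨b1, c, c1, c2, c3⟩
  refine ⟨?_, c, c1, c2, c3⟩
  by_cases hc : DP c 1
  · have b2 := map_mem_Sb (s01 m hF) b1
    rw [s01_e0, show (s01 m hF).1 b = b from funext fun i => by
      by_cases e : DP i c
      · rw [s01_apply, c3 i e, c3]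
        simpa [sw_of c2.symm hc] using e.map (sw_mem H.na H.nb H.ab)
      · rw [s01_apply, sw_of (c2.symm.of_not e) (hc.of_not e)]] at b2
    obtain ⟨r, g, g1, g2⟩ := a3 (Qe H.na)
    obtain ⟨r', b3⟩ := b2 (Qe H.nb)
    have b4 := b3.map_fix g2
    have b5 : (AF (m + 6) hF).B b 𝐞 0 = 0 := by rw [Be, c3 _ c2.rev]
    have b6 : (AF (m + 6) hF).B 𝐞 1 𝐞 0 = 0 := by rw [Be, Pi.single_eq_of_ne H.ab.rev.1]
    rw [g1.apply_of_orth b5 (by rw [c3.B c1, a4 _ hc, a4 _ hc.rev]; simp), uE_app g1, b6, eB,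
      show 𝐞 1 + (0 : F) • a - frobq hF (a (Fin.rev 1)) • 𝐞 0 - (r * 0) • 𝐞 0 =
        𝐞 1 + (-frobq hF (a (Fin.rev 1))) • 𝐞 0 by module] at b4
    have b7 := R.proj h'.1 c1 c2 (fx_shift (Qe H.nb) (Qe H.na) b6 b5 b4 b3) (-a (Fin.rev 1))⁻¹
    rw [← eq_pr (b := -a (Fin.rev 1) • b) (by simp [frobq_frobq, hc.1]) (by
      simp [frobq_frobq, hc.rev.1]) fun i hi => by simp [c3 i hi],
      inv_smul_smul₀ (neg_ne_zero.2 a2)] at b7
    exact b7
  · have c4 : Sup 1 b := fun i hi => c3 i (hi.symm.of_not hc).symm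
    have c5 : ∀ s : F, s • pr 1 b = (s * b 1) • 𝐞 1 := fun s => by
      rw [← eq_pr (b := b 1 • 𝐞 1) (by simp) (by simp [h1 b b1 c4, H.nb.symm])
        fun i hi => by simp [hi.1], smul_smul]
    have c6 : b = b 1 • 𝐞 1 := by simpa [← eq_pr rfl rfl c4] using c5 1
    by_cases e : b 1 = 0
    · rw [c6, e, zero_smul]; exact zero_mem _
    have c7 := map_mem_Sb (s01 m hF) (R.swap h.1 (fun s => by
      simpa [c5, e] using R.proj h.1 H.nb H.ab b1 (s / b 1)) (b 1))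
    rwa [map_smul, s01_e0, s01_e1, ← c6] at c7

theorem RII.aniso (R : RII hF (m + 6) Y l e) (h : Good m hF ω)
    (hm : ∀ ω' : Y, Good m hF ω' → (Am m hF ω').ncard ≤ (Am m hF ω).ncard) {c : Fin (m + 6)}
    (hc : c ≠ c.rev) (hc0 : DP 0 c) :
    ∃ a ∈ Sb (AF (m + 6) hF) 𝐞 0 ω, Sup c a ∧ (AF (m + 6) hF).B a a ≠ 0 := by
  have H := tri012 (m := m)
  by_contra! hcon
  have key : ∀ (ω' : Y) (c : Fin (m + 6)), c ≠ c.rev → DP 0 c → Good m hF ω' →
      (Am m hF ω).ncard ≤ (Am m hF ω').ncard →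
      (∀ a ∈ Sb (AF (m + 6) hF) 𝐞 0 ω', Sup c a → a c.rev = 0) → False :=
      fun ω' c hc hc0 h' h1 h2 => by
    obtain ⟨π, hπ, p1, p2⟩ := exists_move H.nb hc
    have p3 := p2 0 H.ab hc0
    have p4 : (pm hF hπ).1 𝐞 0 = 𝐞 0 := by simpa [p3] using pm_single hF hπ 0
    have p5 := ncard_Am_le (ω := ω') p4 fun d d1 d2 => ⟨π⁻¹ d, fun e => d1 (by
      simpa [hπ _] using congrArg π e), by
        have := d2.map (inv_mem hπ)
        rwa [Equiv.Perm.inv_eq_iff_eq.2 p3.symm] at this,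
      fun a ha i hi => ha _ (by simpa using hi.map hπ)⟩
    have p6 := R.lt (h'.pm hπ) fun a a1 a2 => by
      obtain ⟨a, rfl⟩ := (pm hF hπ).1.surjective a
      rw [← p4, map_mem_Sb_iff] at a1
      rw [pm_apply, hπ, p1]
      refine h2 a a1 fun i hi => ?_
      have := hi.map (inv_mem hπ)
      rw [Equiv.Perm.inv_eq_iff_eq.2 p1.symm] at this
      simpa [pm_apply] using a2 _ this
    have := hm _ ((h'.pm hπ).pm (sw_mem H.na H.nb H.ab))
    change (Am m hF (s01 m hF • _)).ncard ≤ _ at this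
    omega
  have hrev : ∀ a : Fin (m + 6) → F, Sup c.rev a ↔ Sup c a := fun a =>
    ⟨fun h i hi => h i hi.symm.rev.symm, fun h i hi => h i (by simpa using hi.symm.rev.symm)⟩
  have hc' : c.rev ≠ c.rev.rev := by rw [Fin.rev_rev]; exact hc.symm
  have hsm : ∀ a ∈ Sb (AF (m + 6) hF) 𝐞 0 ω, Sup c a → ∀ s : F,
      s • a ∈ Sb (AF (m + 6) hF) 𝐞 0 ω := fun a a1 a2 s =>
    eq_pr rfl rfl a2 ▸ R.proj h.1 hc hc0 a1 s
  have horth : ∀ a ∈ Sb (AF (m + 6) hF) 𝐞 0 ω, Sup c a → ∀ b ∈ Sb (AF (m + 6) hF) 𝐞 0 ω, Sup c b →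
      (AF (m + 6) hF).B a b = 0 := fun a a1 a2 b b1 b2 => by
    by_contra e
    obtain ⟨r, hr⟩ := exists_trace (hF := hF) (t := 1) (map_one _)
    have := hcon _ (add_mem (hsm a a1 a2 (r / (AF (m + 6) hF).B a b)) b1)
      fun i hi => by simp [a2 i hi, b2 i hi]
    simp only [B_add_left, B_add_right, B_smul_left, uB_smul, hcon a a1 a2, hcon b b1 b2,
      uB_symm a b, ← map_mul, div_mul_cancel₀ _ e] at this
    exact one_ne_zero (by linear_combination this - hr)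
  obtain ⟨a, a1, a2, a3⟩ : ∃ a ∈ Sb (AF (m + 6) hF) 𝐞 0 ω, Sup c a ∧ a c.rev ≠ 0 := by
    by_contra! e
    exact key ω c hc hc0 h le_rfl e
  obtain ⟨b, b1, b2, b3⟩ : ∃ b ∈ Sb (AF (m + 6) hF) 𝐞 0 ω, Sup c b ∧ b c ≠ 0 := by
    by_contra! e
    exact key ω c.rev hc' hc0.symm.rev.symm h le_rfl fun a a1 a2 => by
      rw [Fin.rev_rev]; exact e a a1 ((hrev a).1 a2)
  have a4 : a c ≠ 0 := fun e => by
    have := horth a a1 a2 b b1 b2
    simp [a2.B hc, e, a3, b3] at this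
  have a5 := hcon a a1 a2
  rw [a2.B hc] at a5
  have hl : Lam0 (uP hF) (a c / a c.rev) := lam0_unit'.2 (by
    have := (map_ne_zero (frobq hF)).2 a3
    rw [map_div₀]; field_simp; linear_combination a5)
  have hg : ∀ w, (tr (AF (m + 6) hF) 𝐞 c _ (Qe hc) hl).1 w = w - (a c / a c.rev * w c.rev) • 𝐞 c :=
    fun w => by rw [utr_apply, Be]
  generalize tr (AF (m + 6) hF) 𝐞 c _ (Qe hc) hl = g at hg
  have g0 : g.1 𝐞 0 = 𝐞 0 := by simp [hg, hc0.symm.rev.1]
  refine key (g • ω) c.rev hc' hc0.symm.rev.symm (h.map fun t ht => ⟨t, ?_⟩)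
    (ncard_Am_le g0 fun d d1 d2 => ⟨d, d1, d2, fun w hw i hi => ?_⟩) fun w w1 w2 => ?_
  · have e : t.1 c = t.1 c.rev := by
      have := horth _ (dT_Sb h.1 ht a1) (fun i hi => by simp [a2 i hi]) a a1 a2
      rw [Sup.B hc fun i hi => by simp [a2 i hi]] at this
      refine mul_left_cancel (a := t.1 0 ^ q) (Units.ext (mul_right_cancel₀
        (mul_ne_zero a4 ((map_ne_zero (frobq hF)).2 a3)) ?_))
      linear_combination this - ((t.1 0 ^ q * t.1 c.rev : Fˣ) : F) * a5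
    rw [mul_inv_eq_iff_eq_mul]
    refine Isom.ext fun v => funext fun i => ?_
    by_cases e' : i = c <;> simp [Isom.mul_apply, hg, dT_apply, e', ← e]; ring
  · by_cases e : i = c
    · simp [hg, e, hw c (e ▸ hi), hw c.rev (e ▸ hi).rev]
    · simp [hg, e, hw i hi]
  · obtain ⟨w, rfl⟩ := g.1.surjective w
    rw [← g0, map_mem_Sb_iff] at w1
    have w3 : Sup c w := fun i hi => by simpa [hg, hi.1] using (hrev _).1 w2 i hi
    have := horth w w1 w3 a a1 a2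
    rw [w3.B hc] at this
    rw [Fin.rev_rev, hg]
    simp only [Pi.sub_apply, Pi.smul_apply, Pi.single_eq_same, smul_eq_mul, mul_one]
    apply mul_right_cancel₀ ((map_ne_zero (frobq hF)).2 a3)
    field_simp
    linear_combination a c.rev * this - w c.rev * a5

theorem nondeg_sup {V : Type*} [AddCommGroup V] [Module F V] [Finite V] {f : Form (uP hF) V}
    {U : Submodule F V} (hU : (f.restrict U).Nondeg) {w : V} (h : w ∈ f.orth U)
    (h' : f.B w w ≠ 0) :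
    (f.restrict (U ⊔ F ∙ w)).Nondeg ∧ finrank F U < finrank F (U ⊔ F ∙ w :) := by
  refine ⟨?_, Submodule.finrank_lt_finrank_of_lt
    (left_lt_sup.2 fun e => h' (h w (e (Submodule.mem_span_singleton_self w))))⟩
  rw [restrict_nondeg_iff, Submodule.disjoint_def, orth_sup]
  rintro v hv ⟨h9, h10⟩
  obtain ⟨u, hu, _, hb, rfl⟩ := Submodule.mem_sup.1 hv
  obtain ⟨t, rfl⟩ := Submodule.mem_span_singleton.1 hb
  have h11 := mem_orth_singleton.1 h10
  rw [B_add_left, f.B_eq_zero_symm (h u hu), zero_add, B_smul_left, mul_eq_zero,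
    or_iff_left h'] at h11
  rw [h11, zero_smul, add_zero] at h9 ⊢
  exact Submodule.disjoint_def.1 ((f.restrict_nondeg_iff U).1 hU) u hu h9

variable (hF m) in
/-- irreducible stabilisers -/
def Irr (ω : Y) : Prop := ∀ W : Submodule F (Fin (m + 6) → F),
  (∀ k : (AF (m + 6) hF).Isom, k • ω = ω → ∀ v ∈ W, k.1 v ∈ W) → W = ⊥ ∨ W = ⊤

theorem Irr.map (h : Irr m hF ω) (g : (AF (m + 6) hF).Isom) : Irr m hF (g • ω) := fun W hW => by
  rcases h (W.comap g.1.toLinearMap) (fun k hk v hv => by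
    simpa [Isom.mul_apply] using hW (g * k * g⁻¹) (by simp [mul_smul, hk]) _ hv) with e | e
  · exact Or.inl ((Submodule.eq_bot_iff _).2 fun v hv => by
      simpa using (Submodule.eq_bot_iff _).1 e (g⁻¹.1 v) (by simpa using hv))
  · exact Or.inr (Submodule.eq_top_iff'.2 fun v => by
      simpa using Submodule.eq_top_iff'.1 e (g⁻¹.1 v))

theorem RII.phi (R : RII hF (m + 6) Y l e) (ω : Y) (hirr : ∀ ω : Y, Irr m hF ω) :
    ∃ ω : Y, Phi (AF (m + 6) hF) ω ⊤ := by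
  have H := tri012 (m := m)
  obtain ⟨ω, h⟩ := exists_good (m := m) (hF := hF) ω
  have : Nonempty {ω : Y // Good m hF ω} := ⟨⟨ω, h⟩⟩
  obtain ⟨⟨ω, h⟩, hm⟩ := exists_max_of_bdd
    (fun ω : {ω : Y // Good m hF ω} => (Am m hF ω.1).ncard) (Nat.card (Fin (m + 6) → F))
    fun _ => Set.ncard_le_card _
  have h1 : ∀ c : Fin (m + 6), c ≠ c.rev → DP 0 c → ∃ a, Sup c a ∧ (AF (m + 6) hF).B a a ≠ 0 ∧
      ∀ s : F, s • a ∈ Sb (AF (m + 6) hF) 𝐞 0 ω := fun c hc hc0 => by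
    obtain ⟨a, a1, a2, a3⟩ := R.aniso h (fun ω' h' => hm ⟨ω', h'⟩) hc hc0
    exact ⟨a, a2, a3, fun s => eq_pr rfl rfl a2 ▸ R.proj h.1 hc hc0 a1 s⟩
  have h2 : ∀ j : ℕ, 2 * j + 2 ≤ m + 6 → ∃ U : Submodule F (Fin (m + 6) → F),
      (∀ a ∈ U, a ∈ Sb (AF (m + 6) hF) 𝐞 0 ω) ∧ ((AF (m + 6) hF).restrict U).Nondeg ∧
      j ≤ finrank F U ∧ ∀ a ∈ U, ∀ i : Fin (m + 6), j < i → j < i.rev → a i = 0 := fun j hj => by
    induction j with
    | zero => exact ⟨⊥, by simp, fun x _ => Subsingleton.elim _ _, by simp, by simp⟩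
    | succ j ih =>
    obtain ⟨U, u1, u2, u3, u4⟩ := ih (by omega)
    let c : Fin (m + 6) := ⟨j + 1, by omega⟩
    have hc : (c : ℕ) = j + 1 := rfl
    have hc1 : c ≠ c.rev := by rw [Ne, Fin.ext_iff, Fin.val_rev]; omega
    obtain ⟨a, a1, a2, a3⟩ := h1 c hc1 (by
      simp only [DP, Ne, Fin.ext_iff, Fin.val_rev, val0]; omega)
    have := nondeg_sup u2 (w := a) (fun v hv => by
      rw [a1.B hc1, u4 v hv c (by omega) (by rw [Fin.val_rev]; omega),
        u4 v hv c.rev (by rw [Fin.val_rev]; omega) (by rw [Fin.rev_rev]; omega)]; simp) a2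
    refine ⟨U ⊔ F ∙ a, fun v hv => ?_, this.1, by omega, fun v hv i i1 i2 => ?_⟩
    all_goals
      obtain ⟨u, hu, _, hb, rfl⟩ := Submodule.mem_sup.1 hv
      obtain ⟨t, rfl⟩ := Submodule.mem_span_singleton.1 hb
    · exact add_mem (u1 u hu) (a3 t)
    · rw [Pi.add_apply, u4 u hu i (by omega) (by omega), Pi.smul_apply, a1 i, smul_zero, add_zero]
      simp only [DP, Ne, Fin.ext_iff, Fin.val_rev] at i2 ⊢; omega
  obtain ⟨U, u1, u2, u3, -⟩ := h2 ((m + 6) / 2 - 1) (by omega)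
  obtain ⟨a, -, a2, a3⟩ := h1 1 H.nb H.ab
  have hx : Dl (AF (m + 6) hF) ω 𝐞 0 := ⟨Qe H.na, by simp, tau_eq_of (Qe H.na) (b := a)
    (by simpa using a3 1) fun c => ⟨_, a3 (c / (AF (m + 6) hF).B a a), by simp [a2]⟩⟩
  obtain ⟨z, hz, hxz⟩ : ∃ z, Dl (AF (m + 6) hF) ω z ∧ (AF (m + 6) hF).B 𝐞 0 z ≠ 0 := by
    by_contra! hc
    rcases hirr ω (Submodule.span F {z | Dl (AF (m + 6) hF) ω z}) (fun k hk v hv =>
      (Submodule.span_le (p := Submodule.comap k.1.toLinearMap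
        (Submodule.span F {z | Dl (AF (m + 6) hF) ω z}))).2
        (fun z hz => Submodule.mem_comap.2 (Submodule.subset_span (Dl.map hz hk))) hv) with e | e
    · exact hx.2.1 (Submodule.span_eq_bot.1 e _ hx)
    · exact hx.2.1 (aForm_nondeg _ fun y => mem_orth_span.2 hc y (e ▸ Submodule.mem_top))
  have u4 := fun u hu => orth_of_mem_Sb (Qe H.na) (u1 u hu)
  have h3 : ((AF (m + 6) hF).restrict ((U ⊔ F ∙ 𝐞 0) ⊔ F ∙ z)).Nondeg := by
    rw [restrict_nondeg_iff, Submodule.disjoint_def, orth_sup, orth_sup]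
    rintro v hv ⟨⟨h9, h10⟩, h11⟩
    obtain ⟨_, hb', _, hb, rfl⟩ := Submodule.mem_sup.1 hv
    obtain ⟨t, rfl⟩ := Submodule.mem_span_singleton.1 hb
    obtain ⟨u, hu, _, hb, rfl⟩ := Submodule.mem_sup.1 hb'
    obtain ⟨s, rfl⟩ := Submodule.mem_span_singleton.1 hb
    replace h10 := mem_orth_singleton.1 h10
    replace h11 := mem_orth_singleton.1 h11
    simp only [B_add_left, B_smul_left, u4 u hu, (AF _ hF).B_self_of_Q hx.1, mul_zero, zero_add,
      mul_eq_zero, B_ne_symm hxz, or_false] at h10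
    subst h10
    obtain rfl : u = 0 := Submodule.disjoint_def.1 ((restrict_nondeg_iff _ U).1 u2) u hu
      fun w hw => by simpa [(AF _ hF).B_eq_zero_symm (u4 w hw)] using h9 w hw
    simp only [B_add_left, B_smul_left, B_zero_left, zero_mul, zero_add, add_zero, mul_eq_zero,
      hxz, or_false] at h11
    simp [h11]
  have h4 : finrank F U < finrank F (U ⊔ F ∙ 𝐞 0 :) := Submodule.finrank_lt_finrank_of_lt
    (left_lt_sup.2 fun e => hx.2.1 (Submodule.disjoint_def.1 ((restrict_nondeg_iff _ U).1 u2) _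
      (e (Submodule.mem_span_singleton_self _)) fun w hw => (AF _ hF).B_eq_zero_symm (u4 w hw)))
  have h5 : ∀ v ∈ U ⊔ F ∙ 𝐞 0, v ∈ Sb (AF (m + 6) hF) 𝐞 0 ω := fun v hv => by
    obtain ⟨u, hu, _, hb, rfl⟩ := Submodule.mem_sup.1 hv
    obtain ⟨s, rfl⟩ := Submodule.mem_span_singleton.1 hb
    exact add_mem (u1 u hu) (smul_self_mem_Sb s)
  have h6 : finrank F (U ⊔ F ∙ 𝐞 0 :) < finrank F ((U ⊔ F ∙ 𝐞 0) ⊔ F ∙ z :) :=
    Submodule.finrank_lt_finrank_of_lt (left_lt_sup.2 fun e => B_ne_symm hxz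
      (orth_of_mem_Sb hx.1 (h5 _ (e (Submodule.mem_span_singleton_self _)))))
  exact ⟨ω, finish aForm_nondeg R.hq (hirr ω) (phi_of h5 (Submodule.mem_sup_right
    (Submodule.mem_span_singleton_self _)) hx hz hxz h3) h3 (by omega) (by simp; omega)⟩

theorem R3.phi (R : R3 (m + 6) hF Y) (hq : 3 ≤ q) (ω : Y) (hirr : Irr m hF ω)
    (hneg : ∀ (ω : Y) (g : (AF (m + 6) hF).Isom), g ∈ (AF (m + 6) hF).SIsom →
      (∀ v, g.1 v = -v) → g • ω = ω) : ∃ ω : Y, Phi (AF (m + 6) hF) ω ⊤ := by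
  have H := tri012 (m := m)
  by_cases h : ∀ a b : Tor F q (m + 6) →* ℂˣ, Occ hF Y a → Occ hF Y b → Rel a b
  · obtain ⟨l, h1, h2⟩ := exists_prime h
    obtain ⟨e, h3, h4⟩ := exists_root h h1 h2
    refine RII.phi ⟨hq, h1, h3, h2, h4⟩ ω fun ω' => ?_
    obtain ⟨g, rfl⟩ := R.trans.exists_smul_eq ω ω'
    exact hirr.map g
  push Not at h
  obtain ⟨a, b, ha, hb, h⟩ := h
  have ht := R.two a b ha hb h
  obtain ⟨u, -, h1⟩ := exists_spl (n := m + 6) hF ω
  generalize u • ω = ω at h1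
  obtain ⟨c, c1, c2, c3⟩ := exists_tv hq R ω (fun π hπ t h2 => by
    obtain ⟨b, b1, b2⟩ := ht ω (pm hF hπ • ω)
    rw [← St_smul hF b1, b2]
    exact mem_St hF (by rw [← pm_conj, mul_smul, inv_smul_smul, mul_smul, h1 t h2]))
    fun t h2 => mem_St hF (hneg _ _ (by
      rw [SIsom, MonoidHom.mem_ker]; exact (det_dgm hF _).trans t.2.2)
      fun v => funext fun i => by simp [dT_apply, h2])
  have hCT : CT (AF (m + 6) hF) ω := by
    have hl : ∀ i, ![𝐞 (0 : Fin (m + 6)), 𝐞 1, 𝐞 2] i ∈ low F _ 3 := fun i => by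
      fin_cases i <;> exact single_mem_low (by simp only [val0, val1, val2]; omega) 1
    have key : ∀ x y z, Fl (AF (m + 6) hF) x y z → ∃ g : (AF (m + 6) hF).Isom,
        g.1 𝐞 0 = x ∧ g.1 𝐞 1 = y ∧ g.1 𝐞 2 = z := fun x y z h => by
      obtain ⟨g, hg⟩ := (show (AF (m + 6) hF).Nondeg from aForm_nondeg).witt_family
        (v := ![𝐞 (0 : Fin (m + 6)), 𝐞 1, 𝐞 2]) (w := ![x, y, z])
        (Fintype.linearIndependent_iff.2 fun g hg i => by
          rw [Fin.sum_univ_three] at hg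
          have h0 := congrFun hg 0
          have h1 := congrFun hg 1
          have h2 := congrFun hg 2
          fin_cases i <;> simp_all [H.ab.1, H.ac.1, H.bc.1, H.ab.1.symm, H.ac.1.symm, H.bc.1.symm])
        (Fintype.linearIndependent_iff.2 fun g hg i => by
          have := h.indep (r := g 0) (s := g 1) (t := g 2) (by simpa [Fin.sum_univ_three] using hg)
          fin_cases i
          exacts [this.1, this.2.1, this.2.2])
        (fun i j => by
          refine (aForm_B_low (k := 3) (l := 3) (by omega) (hl i) (hl j)).trans ?_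
          fin_cases i <;> fin_cases j <;> simp [B_self_of_Q _ h.qx, B_self_of_Q _ h.cs.2.1,
              B_self_of_Q _ h.qz, h.cs.1, h.zx, h.zy, B_eq_zero_symm _ h.cs.1,
              B_eq_zero_symm _ h.zx, B_eq_zero_symm _ h.zy])
        fun i => by fin_cases i <;> simp [Qe H.na, Qe H.nb, Qe H.nc, h.qx, h.cs.2.1, h.qz]
      exact ⟨g, hg 0, hg 1, hg 2⟩
    intro x y z x' y' z' h h'
    obtain ⟨g, rfl, rfl, rfl⟩ := key _ _ _ h
    obtain ⟨g', rfl, rfl, rfl⟩ := key _ _ _ h'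
    obtain ⟨b, b1, b2⟩ := ht (g⁻¹ • ω) (g'⁻¹ • ω)
    refine ⟨g' * b * g⁻¹, by rw [mul_smul, mul_smul, b2, smul_inv_smul], ?_, ?_, ?_⟩ <;>
      simp only [Isom.mul_apply, Isom.inv_apply]
    · rw [low_one (b1 _ _ e0_low), map_smul]
      exact Submodule.smul_mem _ _ (Submodule.subset_span rfl)
    · rw [low_two (b1 _ _ e1_low), map_add, map_smul, map_smul]
      exact Submodule.mem_span_pair.2 ⟨_, _, rfl⟩
    · rw [low_three (b1 _ (𝐞 2) (hl 2)), map_add, map_add, map_smul,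
        map_smul, map_smul]
      refine add_mem (add_mem ?_ ?_) ?_ <;>
        exact Submodule.smul_mem _ _ (Submodule.subset_span (by simp))
  refine ⟨ω, hCT.phi aForm_nondeg (by simp) (hCT.exists_not_mem aForm_nondeg (by simp) (Qe H.na)
    (z := 𝐞 (Fin.rev 0)) (by rw [Be, Pi.single_eq_same]) c.ne_zero (fun e => c2 (Units.ext e))
    (by simpa [frobq_apply] using congrArg Units.val c1) ⟨_, h1 _ c3, ?_, fun w hw => ?_, ?_⟩)⟩
  · simp only [dT_single, T1, tv_self H.na]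
  · refine Submodule.mem_span_singleton.2 ⟨(c - 1) * w 0, funext fun i => ?_⟩
    rw [Be] at hw
    rw [Pi.sub_apply, dT_apply, T1]
    rcases idx_cases 0 0 i with rfl | rfl | rfl | rfl | ⟨e, -⟩
    · simp [tv_self H.na, sub_mul]
    · rw [hw, Pi.smul_apply, Pi.single_eq_of_ne H.na.symm]; simp
    · simp [tv_self H.na, sub_mul]
    · rw [hw, Pi.smul_apply, Pi.single_eq_of_ne H.na.symm]; simp
    · simp [e.tv, e.1]
  · simp only [dT_single, T1, tv_rev H.na, c1, smul_smul]; simp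

end Cfsg.Agent.Rk3
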