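import Cfsg.Agent.Lib.Rk3.Ab1
import Cfsg.Agent.Lib.Rk3.Reg1

/-!
Split points and extraction of Eichler transformations.
-/

set_option autoImplicit false

namespace Cfsg.Agent.Rk3

open Module Cfsg.Agent.Forms Cfsg.Agent.Forms.Form Cfsg.Agent.Cls Cfsg.Agent.Deg Cfsg.Agent.MI
  MulAction

section syl

variable {F : Type*} [Field F] {σ : F →+* F} {hσ : ∀ a, σ (σ a) = a} {n : ℕ} {hs : ∃ a, σ a ≠ a}
  [Finite F]

omit [Finite F] in
theorem aQ_single {i : Fin n} (h : i ≠ i.rev) : (aForm n σ hσ hs).Q (Pi.single i 1) = 0 := by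
  rw [unit_Q, aForm_B_single, Pi.single_eq_of_ne h.symm]

theorem normalizer_aU_le' :
    Subgroup.normalizer (aU n σ hσ hs : Set (aForm n σ hσ hs).Isom) ≤ aB n σ hσ hs := by
  intro g hg k
  induction k with
  | zero => intro v hv; rw [low_zero hv, map_zero]; exact zero_mem _
  | succ k ih =>
  intro y hy
  have h1 : ∀ u ∈ aU n σ hσ hs, u.1 (g.1 y) - g.1 y ∈ low F n k := by
    intro u hu
    have := ih _ ((Subgroup.mem_normalizer_iff''.1 hg u).1 hu k y hy)
    rwa [map_sub, Form.Isom.mul_apply, Form.Isom.mul_apply, Form.Isom.apply_inv] at this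
  generalize g.1 y = z at h1
  by_contra h2
  obtain ⟨i, h3, h4⟩ := exists_top (v := z) (fun e => h2 (e ▸ zero_mem _))
  have h5 : k + 1 ≤ i := by
    by_contra e
    exact h2 (low_mono (by omega) h4)
  let j : Fin n := ⟨k, by omega⟩
  have hj : (j : ℕ) = k := rfl
  have hij : i ≠ j := fun e => by rw [e] at h5; omega
  by_cases hi : i = i.rev
  · have e := congrArg Fin.val hi
    rw [Fin.val_rev] at e
    obtain ⟨l, hl⟩ := (aForm n σ hσ hs).exists_isLam (Pi.single i 1)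
    have h6 := h1 _ (eichler_mem_aU (k := j.rev) (v := Pi.single i 1) (l := l)
      (single_mem_low (by rw [Fin.val_rev]; omega) 1)
      (fun _ => by rw [Fin.rev_rev, Fin.lt_def, Fin.val_rev]; omega)
      (aQ_single (by rw [Fin.rev_rev, Ne, Fin.ext_iff, Fin.val_rev]; omega)) (by
        rw [aForm_B_single, Fin.rev_rev, Pi.single_eq_of_ne]
        rw [Ne, Fin.ext_iff, Fin.val_rev]; omega) hl) j le_rfl
    rw [Form.eichler_apply, aForm_B_single, aForm_B_single, Fin.rev_rev, Fin.rev_rev, ← hi,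
      h4 j.rev (by rw [Fin.val_rev]; omega)] at h6
    simp [h3] at h6
  have hQ : (aForm n σ hσ hs).Q (Pi.single i.rev 1) = 0 :=
    aQ_single (by rw [Fin.rev_rev]; exact Ne.symm hi)
  by_cases e : j = i.rev
  · obtain ⟨a, ha⟩ := hs
    have h6 := h1 _ (eichler_mem_aU (k := i) (v := 0) (l := a - σ a) (zero_mem _)
      (fun _ => by rw [← e, Fin.lt_def]; exact h5) hQ (Form.B_zero_left _ _)
      (by simp [Form.unit_isLam_iff, hσ])) j le_rfl
    rw [Form.eichler_apply, aForm_B_single, Fin.rev_rev, e] at h6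
    simp [h3, sub_eq_zero, ha.symm] at h6
  · obtain ⟨l, hl, hl'⟩ : ∃ l, (aForm n σ hσ hs).IsLam (Pi.single j 1) l ∧ (l ≠ 0 → i.rev < i) := by
      by_cases e' : j = j.rev
      · obtain ⟨l, hl⟩ := (aForm n σ hσ hs).exists_isLam (Pi.single j 1)
        refine ⟨l, hl, fun _ => ?_⟩
        rw [Fin.ext_iff, Fin.val_rev] at e'
        rw [Fin.lt_def, Fin.val_rev]; omega
      · exact ⟨0, Form.isLam_zero_of_Q _ (aQ_single e'), fun h => absurd rfl h⟩
    have h6 := h1 _ (eichler_mem_aU (k := i) (v := Pi.single j 1) (l := l)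
      (single_mem_low h5 1) hl' hQ (by
        rw [aForm_B_single, Fin.rev_rev, Pi.single_eq_of_ne hij]) hl) j le_rfl
    rw [Form.eichler_apply, aForm_B_single, Fin.rev_rev] at h6
    simp [h3, e] at h6

theorem exists_sylow_aU' (p : ℕ) [Fact p.Prime] [CharP F p] :
    ∃ S : Sylow p (aForm n σ hσ hs).Isom, (S : Subgroup (aForm n σ hσ hs).Isom) = aU n σ hσ hs := by
  obtain ⟨S, hS⟩ := (isPGroup_aU (n := n) (hσ := hσ) (hs := hs) p).exists_le_sylow
  refine ⟨S, le_antisymm ?_ hS⟩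
  by_contra h
  have h1 : (aU n σ hσ hs).subgroupOf S < ⊤ := lt_top_iff_ne_top.2 fun e =>
    h (Subgroup.subgroupOf_eq_top.1 e)
  have := S.isPGroup'.isNilpotent
  obtain ⟨x, h2, h3⟩ := SetLike.exists_of_lt (Group.normalizerCondition_of_isNilpotent _ h1)
  have h4 : x.1 ∈ aB n σ hσ hs := normalizer_aU_le' (Subgroup.mem_normalizer_fintype fun u hu =>
    (Subgroup.mem_normalizer_iff.1 h2 ⟨u, hS hu⟩).1 hu)
  obtain ⟨k, hk⟩ := S.isPGroup' x
  refine h3 ((mem_aU_iff h4).2 fun i => ?_)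
  have h5 := dg_pow h4 i (p ^ k)
  rw [show x.1 ^ p ^ k = 1 from congrArg Subtype.val hk, dg_one] at h5
  have h6 : (dg x.1 i - 1) ^ p ^ k = 0 := by rw [sub_pow_char_pow, ← h5]; simp
  exact sub_eq_zero.1 (pow_eq_zero_iff (pow_ne_zero _ (Fact.out : p.Prime).ne_zero) |>.1 h6)

theorem exists_conj_aU (p : ℕ) [Fact p.Prime] [CharP F p] {P : Subgroup (aForm n σ hσ hs).Isom}
    (hP : aU n σ hσ hs ≤ P) {g : (aForm n σ hσ hs).Isom} (hg : g ∈ P) {k : ℕ}
    (h : g ^ p ^ k = 1) : ∃ x ∈ P, x * g * x⁻¹ ∈ aU n σ hσ hs := by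
  obtain ⟨S, hS⟩ := exists_sylow_aU' (n := n) (hσ := hσ) (hs := hs) p
  obtain ⟨T, hT⟩ := IsPGroup.exists_le_sylow (P := Subgroup.zpowers (⟨g, hg⟩ : P)) (p := p) (by
    rintro ⟨_, j, rfl⟩
    exact ⟨k, Subtype.ext (Subtype.ext (by
      simp only [SubgroupClass.coe_pow, SubgroupClass.coe_zpow, OneMemClass.coe_one]
      rw [← zpow_natCast, ← zpow_mul, mul_comm, zpow_mul, zpow_natCast, h, one_zpow]))⟩)
  obtain ⟨x, hx⟩ := exists_smul_eq P T (S.subtype (hS ▸ hP))
  have : x * ⟨g, hg⟩ * x⁻¹ ∈ (x • T : Sylow p P) := ⟨_, hT (Subgroup.mem_zpowers _), rfl⟩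
  rw [hx] at this
  exact ⟨x, x.2, hS ▸ this⟩

end syl

variable {F : Type*} [Field F] [Fintype F] {q n : ℕ} (hF : Fintype.card F = q ^ 2)

/-- diagonal isometries of determinant one -/
noncomputable def dT : Tor F q n →* (AF n hF).Isom :=
  (dgm hF).comp (Subgroup.inclusion fun _ h => h.1)

theorem dT_apply (t : Tor F q n) (v : Fin n → F) (i : Fin n) : (dT hF t).1 v i = t.1 i * v i :=
  dgm_apply hF _ v i

theorem dT_single (t : Tor F q n) (i : Fin n) :
    (dT hF t).1 (Pi.single i 1) = (t.1 i : F) • Pi.single i 1 := dgm_single hF _ i 1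

theorem dT_mem (t : Tor F q n) : dT hF t ∈ AB n hF := dgm_mem hF _

theorem dT_inj : Function.Injective (dT (n := n) hF) := fun s t e => by
  ext i
  simpa [dT_apply] using congrArg (fun g : (AF n hF).Isom => g.1 (Pi.single i 1) i) e

/-- permutation isometries -/
noncomputable def pm {π : Equiv.Perm (Fin n)} (h : π ∈ Wy n) : (AF n hF).Isom :=
  ⟨LinearEquiv.funCongrLeft F F π, unit_isIsom fun x y => by
    rw [aForm_B, aForm_B]
    exact Fintype.sum_equiv π _ _ fun i => by simp [h _]⟩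

theorem pm_apply {π : Equiv.Perm (Fin n)} (h : π ∈ Wy n) (v : Fin n → F) (i : Fin n) :
    (pm hF h).1 v i = v (π i) := rfl

theorem pm_single {π : Equiv.Perm (Fin n)} (h : π ∈ Wy n) (i : Fin n) :
    (pm hF h).1 (Pi.single (π i) 1) = Pi.single i 1 := by
  ext j; simp [pm_apply, Pi.single_apply]

theorem pm_conj {π : Equiv.Perm (Fin n)} (h : π ∈ Wy n) (t : Tor F q n) :
    pm hF h * dT hF t * (pm hF h)⁻¹ = dT hF (act h t) := by
  rw [mul_inv_eq_iff_eq_mul]
  exact Isom.ext fun v => funext fun i => by simp [Isom.mul_apply, pm_apply, dT_apply, act]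

include hF in
theorem not_dvd_card {p : ℕ} [hp : Fact p.Prime] [CharP F p] {A : Type*} [Group A] [Finite A]
    (φ : A →* (Fin n → Fˣ)) (h : Function.Injective φ) : ¬ p ∣ Nat.card A := fun e => by
  obtain ⟨a, ha⟩ := exists_prime_orderOf_dvd_card' p e
  have h1 : φ a ^ p = 1 := by rw [← map_pow, ← ha, pow_orderOf_eq_one, map_one]
  have h2 : φ a = 1 := funext fun i => Units.ext (by
    have h3 : ((φ a i : F) - 1) ^ p = 0 := by
      rw [sub_pow_char, ← Units.val_pow_eq_pow_val, ← Pi.pow_apply, h1]; simp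
    simpa [sub_eq_zero, hp.out.ne_zero] using h3)
  rw [h (h2.trans (map_one φ).symm), orderOf_one] at ha
  exact hp.out.one_lt.ne ha

variable {Y : Type*} [MulAction (AF n hF).Isom Y]

theorem mem_St {ω : Y} {t : Tor F q n} (h : dT hF t • ω = ω) : t ∈ St n hF ω :=
  ⟨_, dT_mem hF t, h, fun i => dg_dgm hF _ i⟩

variable (n) in
/-- split points -/
def Spl (ω : Y) : Prop := ∀ t ∈ St n hF ω, dT hF t • ω = ω

theorem exists_spl (ω : Y) : ∃ u ∈ AU n hF, Spl n hF (u • ω) := by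
  obtain ⟨p, -, hp, hc, -⟩ := exists_char_pow hF
  have := Fact.mk hp
  let M := (stabilizer (AF n hF).Isom ω).subgroupOf (AB n hF)
  let τ : M →* TG F q n := (tB hF).comp M.subtype
  have h1 : IsPGroup p τ.ker := (isPGroup_aU p).of_injective
    (((AB n hF).subtype.comp (M.subtype.comp τ.ker.subtype)).codRestrict (AU n hF) fun a =>
      (mem_aU_iff a.1.1.2).2 fun i => congrArg (fun t : TG F q n => (t.1 i : F)) a.2)
    fun a b e => Subtype.ext (Subtype.ext (Subtype.ext (congrArg (fun x : AU n hF => x.1) e)))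
  obtain ⟨k, hk⟩ := IsPGroup.iff_card.1 h1
  have h2 : ¬ p ∣ τ.ker.index := by
    rw [Subgroup.index_ker]
    exact not_dvd_card hF ((TG F q n).subtype.comp τ.range.subtype)
      (Subtype.val_injective.comp Subtype.val_injective)
  obtain ⟨A, hA⟩ := Subgroup.exists_right_complement'_of_coprime (N := τ.ker)
    (hk ▸ ((Nat.Prime.coprime_iff_not_dvd hp).2 h2).pow_left k)
  have h3 : Function.Injective (τ.comp A.subtype) := (injective_iff_map_eq_one _).2 fun a ha =>
    Subtype.ext (Subgroup.disjoint_def.1 hA.disjoint ha a.2)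
  have h7 : ∀ a b : A, a * b = b * a := fun a b =>
    h3 ((map_mul _ a b).trans ((mul_comm _ _).trans (map_mul _ b a).symm))
  obtain ⟨u, hu, h4⟩ := cfix (A := A) h7
    (not_dvd_card hF ((TG F q n).subtype.comp (τ.comp A.subtype)) (Subtype.val_injective.comp h3))
    (isPGroup_aU p) ((AB n hF).subtype.comp (M.subtype.comp A.subtype))
    ((dgm hF).comp (τ.comp A.subtype)) (fun a u hu => conj_mem_aU (dgm_mem hF _) hu) (x := 1)
    fun a => by
      simpa using mul_inv_mem_aU a.1.1.2 (dgm_mem hF _) fun i => (dg_dgm hF (τ a) i).symm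
  refine ⟨u⁻¹, inv_mem hu, fun t ht => ?_⟩
  rw [St_smul hF (aU_le_aB (inv_mem hu))] at ht
  obtain ⟨b, b1, b2, b3⟩ := ht
  obtain ⟨⟨k, a⟩, e⟩ := (hA.existsUnique (⟨⟨b, b1⟩, b2⟩ : M)).exists
  have h5 : dT hF t = dgm hF (τ a) := by
    have e1 : τ a = τ ⟨⟨b, b1⟩, b2⟩ := by rw [← e, map_mul, show τ k = 1 from k.2, one_mul]
    rw [e1]
    exact congrArg (dgm hF) (Subtype.ext (funext fun i => Units.ext (b3 i).symm))
  have h6 := h4 a
  simp only [one_mul, MonoidHom.comp_apply, Subgroup.coe_subtype] at h6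
  rw [h5, ← mul_smul, eq_inv_smul_iff, ← mul_smul, ← mul_assoc, ← h6, mul_inv_cancel_right]
  exact a.1.2

theorem exists_move {i a : Fin n} (hi : i ≠ i.rev) (ha : a ≠ a.rev) :
    ∃ π ∈ Wy n, π i = a ∧ ∀ j, DP j i → DP j a → π j = j := by
  rcases idx_cases i i a with rfl | rfl | rfl | rfl | ⟨e, -⟩
  · exact ⟨1, one_mem _, rfl, fun _ _ _ => rfl⟩
  · exact ⟨_, swap_mem i, by simp, fun j h _ => Equiv.swap_apply_of_ne_of_ne h.1 h.2⟩
  · exact ⟨1, one_mem _, rfl, fun _ _ _ => rfl⟩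
  · exact ⟨_, swap_mem i, by simp, fun j h _ => Equiv.swap_apply_of_ne_of_ne h.1 h.2⟩
  · exact ⟨_, sw_mem hi ha e.symm, sw_a hi e.symm, fun j => sw_of⟩

end Cfsg.Agent.Rk3
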