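import Cfsg.Agent.Lib.Forms.UBorel
import Cfsg.Agent.Lib.MI.U5
import Cfsg.Agent.Lib.Rk3.Abs

/-!
The diagonal torus of the unitary group and the Bruhat decomposition.
-/

set_option autoImplicit false

namespace Cfsg.Agent.Rk3

open Cfsg.Agent.Forms Cfsg.Agent.Forms.Form

section coord

variable {F : Type*} [Field F] {σ : F →+* F} {hσ : ∀ a, σ (σ a) = a} {n : ℕ} {hs : ∃ a, σ a ≠ a}
  [Finite F]

theorem exists_coord' (g : (aForm n σ hσ hs).Isom) (j : ℕ) (hj : 2 * j ≤ n) :
    ∃ u ∈ aU n σ hσ hs, ∃ A : ℕ → Set (Fin n), ∀ k ≤ j, A k ⊆ A j ∧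
      ∀ y, y ∈ low F n k ↔ ∀ a ∉ A k, (u * g).1 y a = 0 := by
  classical
  induction j with
  | zero =>
    refine ⟨1, one_mem _, fun _ => ∅, fun k hk => ⟨le_rfl, fun y => ⟨fun h a _ => ?_, fun h => ?_⟩⟩⟩
    · rw [low_zero (low_mono hk h), map_zero, Pi.zero_apply]
    · rw [(map_eq_zero_iff _ (1 * g).1.injective).1 (funext fun a => h a id)]
      exact zero_mem _
  | succ j ih =>
  obtain ⟨u, hu, A, hA⟩ := ih (by omega)
  generalize hh : u * g = h at hA
  let j' : Fin n := ⟨j, by omega⟩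
  have hj' := single_mem_low (F := F) (i := j') (Nat.lt_succ_self j) 1
  set w := h.1 (Pi.single j' 1) with hw
  have h1 : ∀ a ∈ A j, w a.rev = 0 := by
    intro a ha
    rw [← aForm_B_single (hσ := hσ) (hs := hs) w a, hw, Form.Isom.B_left]
    refine aForm_B_low (l := j) (by omega) hj' (((hA j le_rfl).2 _).2 fun b hb => ?_)
    rw [Form.Isom.apply_inv, Pi.single_eq_of_ne (show b ≠ a from fun e => hb (e ▸ ha))]
  let w' : Fin n → F := fun a => if a ∈ A j then 0 else w a
  have h2 : ∀ a ∉ A j, (w - w') a = 0 := fun a ha => by simp [w', ha]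
  have h3 : w' ≠ 0 := by
    intro e
    have := ((hA j le_rfl).2 (Pi.single j' 1)).2 (by simpa [e] using h2) j' le_rfl
    simp at this
  have h4 : (aForm n σ hσ hs).B w' w' = 0 := by
    rw [← aForm_B_low (hσ := hσ) (hs := hs) (by omega) hj' hj', 
      ← Form.Isom.map_B h (Pi.single j' 1), aForm_B, aForm_B]
    refine Finset.sum_congr rfl fun a _ => ?_
    by_cases e : a ∈ A j
    · simp [w', e, ← hw, h1 a e]
    · by_cases e' : a.rev ∈ A j
      · have := h1 _ e'
        rw [Fin.rev_rev] at this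
        simp [w', e, ← hw, this]
      · simp [w', e, e', ← hw]
  obtain ⟨k, hk, hk'⟩ := exists_top h3
  have hkA : k ∉ A j := fun e => hk (if_pos e)
  have hkr : k.rev ≠ k := by
    intro e
    have e' := congrArg Fin.val e
    rw [Fin.val_rev] at e'
    rw [aForm_B, Finset.sum_eq_single k, e] at h4
    · simp [hk] at h4
    · intro b _ hb
      have := Fin.val_ne_of_ne hb
      by_cases e'' : (k : ℕ) + 1 ≤ b
      · rw [hk' b e'', zero_mul]
      · rw [hk' b.rev (by rw [Fin.val_rev]; omega), map_zero, mul_zero]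
    · simp
  set z := (w' k)⁻¹ • w' with hz
  have hzk : z k = 1 := by simp [hz, hk]
  have hz' : z ∈ low F n (k + 1) := Submodule.smul_mem _ _ hk'
  have hzz : (aForm n σ hσ hs).B z z = 0 := by
    rw [hz, Form.B_smul_left, Form.B_smul_right, h4, mul_zero, mul_zero]
  set v := z - Pi.single k 1 - z k.rev • Pi.single k.rev (1 : F) with hv
  have hvk : v k = 0 := by simp [hv, hzk, hkr.symm]
  have hvr : v k.rev = 0 := by simp [hv, hkr]
  have hv' : v ∈ low F n k := by
    intro a ha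
    by_cases e : a = k
    · rw [e, hvk]
    by_cases e' : a = k.rev
    · rw [e', hvr]
    have := Fin.val_ne_of_ne e
    simp [hv, e, e', hz' a (by omega)]
  have hQ : (aForm n σ hσ hs).Q (Pi.single k.rev 1) = 0 := by
    rw [Form.unit_Q, aForm_B_single, Fin.rev_rev, Pi.single_eq_of_ne hkr.symm]
  have hl : (aForm n σ hσ hs).IsLam v (-z k.rev) := by
    have e : z = v + Pi.single k 1 + z k.rev • Pi.single k.rev (1 : F) := by rw [hv]; abel
    rw [e] at hzz
    simp only [Form.B_add_left, Form.B_add_right, Form.B_smul_left, Form.unit_B_smul_right,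
      aForm_B_single, aForm_single_B, Fin.rev_rev, hvk, hvr, Pi.single_eq_same,
      Pi.single_eq_of_ne hkr, Pi.single_eq_of_ne hkr.symm, map_zero] at hzz
    rw [Form.unit_isLam_iff, map_neg]
    linear_combination -hzz
  set x := (aForm n σ hσ hs).eichler (Pi.single k.rev 1) v _ hQ
    (by rw [aForm_B_single, Fin.rev_rev, hvk]) hl with hx
  have hxU : x ∈ aU n σ hσ hs := eichler_mem_aU hv' (fun h0 => by
    by_contra e
    refine h0 (neg_eq_zero.2 (hz' _ ?_))
    have := Fin.val_ne_of_ne hkr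
    rw [Fin.lt_def] at e
    omega) _ _ _
  have hxk : x.1 (Pi.single k 1) = z := by
    rw [hx, Form.eichler_apply, aForm_B_single, aForm_single_B, Fin.rev_rev, hvr, hv]
    simp only [Pi.single_eq_same, map_zero, Param.unit_ε]
    module
  have hxs : ∀ s : Fin n → F, (∀ a ∉ A j, s a = 0) → x.1 s = s := by
    intro s h5
    refine Form.eichler_apply_of_orth _ _ _ _ _ _ _ (by rw [aForm_B_single, Fin.rev_rev, h5 k hkA]) ?_
    rw [aForm_B]
    refine Finset.sum_eq_zero fun a _ => ?_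
    by_cases e : a ∈ A j
    · have h6 : w' a.rev = 0 := by simp [w', h1 a e]
      have h7 : a.rev ≠ k := fun e' => hk (e' ▸ h6)
      have h8 : a.rev ≠ k.rev := fun e' => hkA (Fin.rev_injective e' ▸ e)
      simp [hv, hz, h6, h7, h8]
    · rw [h5 a e, zero_mul]
  have hxs' : ∀ s : Fin n → F, (∀ a ∉ A j, s a = 0) → x⁻¹.1 s = s := fun s h5 => by
    conv_lhs => rw [← hxs s h5, Form.Isom.inv_apply]
  have hxw : x⁻¹.1 w = (w - w') + w' k • Pi.single k 1 := by
    rw [← hxs' _ h2, ← Form.Isom.inv_apply x (Pi.single k 1), hxk, ← map_smul, ← map_add, hz,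
      smul_smul, mul_inv_cancel₀ hk, one_smul, sub_add_cancel]
  refine ⟨x⁻¹ * u, mul_mem (inv_mem hxU) hu, Function.update A (j + 1) (insert k (A j)),
    fun i hi => ?_⟩
  rw [mul_assoc, hh, Function.update_self]
  simp only [Form.Isom.mul_apply]
  rcases hi.eq_or_lt with rfl | hi
  · rw [Function.update_self]
    refine ⟨le_rfl, fun y => ⟨fun hy a ha => ?_, fun hy => ?_⟩⟩
    · rw [Set.mem_insert_iff, not_or] at ha
      have h5 := ((hA j le_rfl).2 _).1 (sub_single_mem_low (i := j') hy)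
      have h6 := congrFun (hxs' _ h5) a
      rw [h5 a ha.2, map_sub, map_sub, map_smul, map_smul, ← hw, hxw] at h6
      simpa [ha.1, if_neg ha.2, show w' a = w a from if_neg ha.2] using h6
    · have h5 : ∀ a ∉ A j, x⁻¹.1 (h.1 (y - (x⁻¹.1 (h.1 y) k * (w' k)⁻¹) • Pi.single j' (1 : F)))
          a = 0 := by
        intro a ha
        rw [map_sub, map_sub, map_smul, map_smul, ← hw, hxw]
        by_cases e : a = k
        · subst e
          simp [h2 a ha, hk]
        · have := hy a (by simp [e, ha])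
          simp only [Pi.sub_apply, this, Pi.smul_apply, Pi.add_apply, Pi.single_eq_of_ne e,
            show w' a = w a from if_neg ha]
          simp
      have h6 := hxs _ h5
      rw [Form.Isom.apply_inv] at h6
      rw [← h6] at h5
      simpa using add_mem (low_mono j.le_succ (((hA j le_rfl).2 _).2 h5))
        (Submodule.smul_mem _ (x⁻¹.1 (h.1 y) k * (w' k)⁻¹) hj')
  · rw [Function.update_of_ne hi.ne]
    have h5 := hA i (by omega)
    refine ⟨h5.1.trans (Set.subset_insert _ _), fun y => (h5.2 y).trans ⟨fun h6 => ?_, fun h6 => ?_⟩⟩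
    · rwa [hxs' _ fun a ha => h6 a fun e => ha (h5.1 e)]
    · have h7 := hxs _ fun a ha => h6 a fun e => ha (h5.1 e)
      rw [Form.Isom.apply_inv] at h7
      rwa [← h7] at h6


theorem exists_relpos (g : (aForm n σ hσ hs).Isom) : ∃ r : Fin n → Fin n, Function.Injective r ∧
    ∀ b ∈ aB n σ hσ hs, g * b * g⁻¹ ∈ aB n σ hσ hs → ∀ i, dg b i = dg (g * b * g⁻¹) (r i) := by
  classical
  have h1 : ∀ i : Fin n, ∃ k : Fin n, ∃ v ∈ low F n (i + 1), v i = 1 ∧ g.1 v ∈ low F n (k + 1) ∧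
      g.1 v k ≠ 0 ∧ ∀ w ∈ low F n (i + 1), w i ≠ 0 → g.1 w ∉ low F n k := fun i => by
    have h2 : ∃ k : ℕ, ∃ v ∈ low F n (i + 1), v i ≠ 0 ∧ g.1 v ∈ low F n k :=
      ⟨n, Pi.single i 1, single_mem_low (Nat.lt_succ_self _) 1, by simp, mem_low_top le_rfl _⟩
    obtain ⟨v, h3, h4, h5⟩ := Nat.find_spec h2
    obtain ⟨k, h6, h7⟩ := exists_top (v := g.1 v) (by
      rw [Ne, map_eq_zero_iff _ g.1.injective]; rintro rfl; simp at h4)
    refine ⟨k, (v i)⁻¹ • v, Submodule.smul_mem _ _ h3, by simp [h4], ?_, by simp [h4, h6],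
      fun w h8 h9 h10 => h6 (h5 k (Nat.find_min' h2 ⟨w, h8, h9, h10⟩))⟩
    rw [map_smul]; exact Submodule.smul_mem _ _ h7
  choose r v h1 h2 h3 h4 h5 using h1
  have key : ∀ i : Fin n, ∀ w ∈ low F n i, g.1 w ∈ low F n (r i + 1) → g.1 w (r i) = 0 := fun i w hw hw' => by
    by_contra h6
    refine h5 i (v i - (g.1 (v i) (r i) / g.1 w (r i)) • w) (sub_mem (h1 i)
      (Submodule.smul_mem _ _ (low_mono (Nat.le_succ _) hw))) (by simp [h2, hw i le_rfl]) fun k hk => ?_
    rw [map_sub, map_smul, Pi.sub_apply, Pi.smul_apply, smul_eq_mul]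
    rcases hk.eq_or_lt with e | e
    · rw [← Fin.ext e, div_mul_cancel₀ _ h6, sub_self]
    · rw [h3 i k e, hw' k e, mul_zero, sub_zero]
  refine ⟨r, fun i j e => ?_, fun b hb hb' i => ?_⟩
  · by_contra h
    wlog hij : i < j generalizing i j
    · exact this j i e.symm (Ne.symm h) (lt_of_le_of_ne (not_lt.1 hij) (Ne.symm h))
    exact h4 i (e ▸ key j (v i) (low_mono hij (h1 i)) (e ▸ h3 i))
  · have h6 : g.1 (b.1 (v i)) = (g * b * g⁻¹).1 (g.1 (v i)) := by simp [Isom.mul_apply]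
    have := key i (b.1 (v i) - dg b i • v i) (fun k hk => by
      rcases hk.eq_or_lt with e | e
      · rw [← Fin.ext e, Pi.sub_apply, apply_eq_dg hb (h1 i)]; simp
      · simp [hb _ _ (h1 i) k e, h1 i k e]) (by
      rw [map_sub, map_smul, h6]
      exact sub_mem (hb' _ _ (h3 i)) (Submodule.smul_mem _ _ (h3 i)))
    rw [map_sub, map_smul, h6, Pi.sub_apply, apply_eq_dg hb' (h3 i), Pi.smul_apply, smul_eq_mul,
      ← sub_mul] at this
    exact (sub_eq_zero.1 ((mul_eq_zero.1 this).resolve_right (h4 i))).symm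

theorem det_of_mem_aB {b : (aForm n σ hσ hs).Isom} (hb : b ∈ aB n σ hσ hs) :
    ((aForm n σ hσ hs).detHom b : F) = ∏ i, dg b i := by
  rw [coe_detHom, ← LinearMap.det_toMatrix', Matrix.det_of_upperTriangular]
  · simp [dg, LinearMap.toMatrix'_apply, Pi.single_apply]
  · intro i j hij
    have := hb _ _ (single_mem_low (F := F) (Nat.lt_succ_self (j : ℕ)) 1) i hij
    simpa [LinearMap.toMatrix'_apply, ← Pi.single_apply] using this

end coord

variable {F : Type*} [Field F] {q n : ℕ}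

variable (n F q) in
/-- the diagonal torus of the general unitary group -/
def TG : Subgroup (Fin n → Fˣ) where
  carrier := {t | ∀ i, t i * t i.rev ^ q = 1}
  one_mem' i := by simp
  mul_mem' {a b} ha hb i := by
    rw [Pi.mul_apply, Pi.mul_apply, mul_pow, mul_mul_mul_comm, ha, hb, one_mul]
  inv_mem' {a} ha i := by rw [Pi.inv_apply, Pi.inv_apply, inv_pow, ← mul_inv, ha, inv_one]

variable (n F q) in
/-- the diagonal torus of the special unitary group -/
def Tor : Subgroup (Fin n → Fˣ) where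
  carrier := {t | t ∈ TG F q n ∧ ∏ i, t i = 1}
  one_mem' := ⟨one_mem _, by simp⟩
  mul_mem' ha hb := ⟨mul_mem ha.1 hb.1, by simp [Finset.prod_mul_distrib, ha.2, hb.2]⟩
  inv_mem' ha := ⟨inv_mem ha.1, by simp [ha.2]⟩

theorem TG.rev {t : Fin n → Fˣ} (h : t ∈ TG F q n) (i : Fin n) : t i.rev = (t i ^ q)⁻¹ := by
  have := h i.rev
  rw [Fin.rev_rev] at this
  exact eq_inv_of_mul_eq_one_left this

variable (q) in
/-- the torus elements supported on one plane -/
def tv (a : Fin n) : Fˣ →* (Fin n → Fˣ) :=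
  MonoidHom.mulSingle (fun _ => Fˣ) a * (MonoidHom.mulSingle (fun _ => Fˣ) a.rev).comp
    (powMonoidHom q)⁻¹

theorem tv_apply (a : Fin n) (x : Fˣ) (i : Fin n) :
    tv q a x i = (if i = a then x else 1) * if i = a.rev then (x ^ q)⁻¹ else 1 := by
  simp only [tv, MonoidHom.mul_apply, Pi.mul_apply, MonoidHom.mulSingle_apply, Pi.mulSingle_apply,
    MonoidHom.comp_apply, MonoidHom.inv_apply, powMonoidHom_apply]

theorem tv_of_ne {a i : Fin n} (h1 : i ≠ a) (h2 : i ≠ a.rev) (x : Fˣ) : tv q a x i = 1 := by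
  simp [tv_apply, h1, h2]

theorem tv_self {a : Fin n} (h : a ≠ a.rev) (x : Fˣ) : tv q a x a = x := by simp [tv_apply, h]

theorem tv_rev {a : Fin n} (h : a ≠ a.rev) (x : Fˣ) : tv q a x a.rev = (x ^ q)⁻¹ := by
  simp [tv_apply, h.symm]

theorem prod_tv (a : Fin n) (x : Fˣ) : ∏ i, tv q a x i = x * (x ^ q)⁻¹ := by
  simp only [tv_apply, Finset.prod_mul_distrib, Finset.prod_ite_eq', Finset.mem_univ, if_true]

variable (n) in
/-- the Weyl group -/
def Wy : Subgroup (Equiv.Perm (Fin n)) where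
  carrier := {π | ∀ i, π i.rev = (π i).rev}
  one_mem' _ := rfl
  mul_mem' {a b} ha hb i := by simp [hb i, ha (b i)]
  inv_mem' {a} ha i := a.injective (by simp [ha (a.symm i)])

theorem comp_mem_TG {π : Equiv.Perm (Fin n)} (h : π ∈ Wy n) {t : Fin n → Fˣ} (ht : t ∈ TG F q n) :
    t ∘ π ∈ TG F q n := fun i => by simpa [h i] using ht (π i)

theorem comp_mem_Tor {π : Equiv.Perm (Fin n)} (h : π ∈ Wy n) {t : Fin n → Fˣ}
    (ht : t ∈ Tor F q n) : t ∘ π ∈ Tor F q n :=
  ⟨comp_mem_TG h ht.1, (Equiv.prod_comp π t).trans ht.2⟩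

/-- the action of the Weyl group -/
def act {π : Equiv.Perm (Fin n)} (h : π ∈ Wy n) : Tor F q n →* Tor F q n where
  toFun t := ⟨t.1 ∘ π, comp_mem_Tor h t.2⟩
  map_one' := rfl
  map_mul' _ _ := rfl

/-- characters related by the Weyl group -/
def Rel (θ η : Tor F q n →* ℂˣ) : Prop := ∃ π, ∃ h : π ∈ Wy n, ∀ t, θ t = η (act h t)

theorem Rel.symm {θ η : Tor F q n →* ℂˣ} (h : Rel θ η) : Rel η θ := by
  obtain ⟨π, h, e⟩ := h
  refine ⟨π⁻¹, inv_mem h, fun t => ?_⟩
  rw [e]; congr 1; ext i; simp [act]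

variable [Fintype F] (hF : Fintype.card F = q ^ 2)

include hF in
theorem pow_qq (x : Fˣ) : (x ^ q) ^ q = x := Units.ext (by simpa [frobq_apply] using frobq_frobq hF x)

include hF in
theorem tv_mem_TG (a : Fin n) (x : Fˣ) : tv q a x ∈ TG F q n := fun i => by
  have h1 : i.rev = a.rev ↔ i = a := Fin.rev_inj
  have h2 : i.rev = a ↔ i = a.rev := Fin.rev_eq_iff
  simp only [tv_apply, h1, h2]
  split_ifs <;> simp [mul_pow, pow_qq hF, mul_assoc]

include hF in
theorem tv_mul_mem (a b : Fin n) (x : Fˣ) : tv q a x * tv q b x⁻¹ ∈ Tor F q n :=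
  ⟨mul_mem (tv_mem_TG hF _ _) (tv_mem_TG hF _ _), by
    simp only [Pi.mul_apply, Finset.prod_mul_distrib, prod_tv]; group⟩

include hF in
theorem tv_mem_Tor (a : Fin n) {x : Fˣ} (h : x ^ q = x) : tv q a x ∈ Tor F q n :=
  ⟨tv_mem_TG hF _ _, by simp [prod_tv, h]⟩

variable (n) in
/-- the antidiagonal form -/
abbrev AF : Form (uP hF) (Fin n → F) := aForm n (frobq hF) (frobq_frobq hF) (frobq_ne hF)

variable (n) in
/-- the Borel subgroup -/
abbrev AB : Subgroup (AF n hF).Isom := aB n (frobq hF) (frobq_frobq hF) (frobq_ne hF)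

variable (n) in
/-- its unipotent radical -/
abbrev AU : Subgroup (AF n hF).Isom := aU n (frobq hF) (frobq_frobq hF) (frobq_ne hF)

/-- diagonal isometries -/
noncomputable def dgm : TG F q n →* (AF n hF).Isom :=
  MonoidHom.mk' (fun t => Isom.ofEnd aForm_nondeg (Matrix.toLin' (Matrix.diagonal fun i => (t.1 i : F)))
    (unit_isIsom fun x y => by
      rw [aForm_B, aForm_B]
      refine Finset.sum_congr rfl fun i _ => ?_
      have := congrArg Units.val (t.2 i)
      simp only [Matrix.toLin'_apply, Matrix.mulVec_diagonal, map_mul, frobq_apply, Units.val_mul,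
        Units.val_pow_eq_pow_val, Units.val_one] at this ⊢
      linear_combination (x i * y i.rev ^ q) * this))
    fun a b => Isom.ext fun v => funext fun i => by
      simp [Isom.mul_apply, Matrix.mulVec_diagonal, mul_assoc]

theorem dgm_apply (t : TG F q n) (v : Fin n → F) (i : Fin n) : (dgm hF t).1 v i = t.1 i * v i := by
  simp [dgm, Matrix.mulVec_diagonal]

theorem dgm_single (t : TG F q n) (i : Fin n) (c : F) :
    (dgm hF t).1 (Pi.single i c) = (t.1 i : F) • Pi.single i c := by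
  ext j
  by_cases h : j = i <;> simp [dgm_apply, h]

theorem dgm_mem (t : TG F q n) : dgm hF t ∈ AB n hF := fun k v hv i hi => by
  rw [dgm_apply, hv i hi, mul_zero]

theorem dg_dgm (t : TG F q n) (i : Fin n) : dg (dgm hF t) i = t.1 i := by simp [dg, dgm_apply]

/-- the diagonal part -/
noncomputable def tB : AB n hF →* TG F q n :=
  MonoidHom.mk' (fun b => ⟨fun i => Units.mk0 (dg b.1 i) (left_ne_zero_of_mul_eq_one (dg_mul_rev b.2 i)),
    fun i => Units.ext (by simpa [frobq_apply] using dg_mul_rev b.2 i)⟩)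
    fun a b => Subtype.ext (funext fun i => Units.ext (dg_mul a.2 b.2 i))

theorem tB_val (b : AB n hF) (i : Fin n) : ((tB hF b).1 i : F) = dg b.1 i := rfl

theorem detHom_eq (b : AB n hF) : (AF n hF).detHom b = ∏ i, (tB hF b).1 i :=
  Units.ext (by rw [det_of_mem_aB b.2]; simp [tB_val])

theorem tB_dgm (t : TG F q n) : tB hF ⟨_, dgm_mem hF t⟩ = t :=
  Subtype.ext (funext fun i => Units.ext (dg_dgm hF t i))

theorem det_dgm (t : TG F q n) : (AF n hF).detHom (dgm hF t) = ∏ i, t.1 i := by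
  rw [detHom_eq hF ⟨_, dgm_mem hF t⟩, tB_dgm]

include hF in
theorem exists_gen : ∃ y : Fˣ, ∀ k : ℕ, y ^ k = 1 ↔ q ^ 2 - 1 ∣ k := by
  obtain ⟨y, hy⟩ := IsCyclic.exists_ofOrder_eq_natCard (α := Fˣ)
  refine ⟨y, fun k => ?_⟩
  rw [← orderOf_dvd_iff_pow_eq_one, hy, Nat.card_units, Nat.card_eq_fintype_card, hF]

theorem bruhat (hq : 3 ≤ q) (g : (AF n hF).Isom) : ∃ π ∈ Wy n, ∀ t : TG F q n, ∃ b ∈ AB n hF,
    ∃ u ∈ AU n hF, g * b * g⁻¹ = u⁻¹ * dgm hF t * u ∧ ∀ i, dg b i = t.1 (π i) := by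
  obtain ⟨r, hr, h⟩ := exists_relpos g
  obtain ⟨u, hu, A, hA⟩ := exists_coord' g (n / 2) (by omega)
  have key : ∀ t : TG F q n, ∃ b ∈ AB n hF, ∃ u ∈ AU n hF, g * b * g⁻¹ = u⁻¹ * dgm hF t * u ∧
      ∀ i, dg b i = t.1 (r i) := fun t => by
    have h4 : ∀ k ≤ n / 2, ∀ v ∈ low F n k, ((u * g)⁻¹ * dgm hF t * (u * g)).1 v ∈ low F n k := by
      intro k hk v hv
      refine ((hA k hk).2 _).2 fun a ha => ?_
      rw [Isom.mul_apply _ (u * g), Isom.mul_apply _ (dgm hF t), Isom.apply_inv, dgm_apply,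
        ((hA k hk).2 _).1 hv a ha, mul_zero]
    have h5 : (u * g)⁻¹ * dgm hF t * (u * g) ∈ AB n hF := fun k v hv => by
      by_cases e : k ≤ n / 2
      · exact h4 k e v hv
      by_cases e' : n ≤ k
      · exact mem_low_top e' _
      rw [show k = n - (n - k) by omega, ← aForm_orth_low (hσ := frobq_frobq hF)
        (hs := frobq_ne hF)] at hv ⊢
      exact Isom.orth_invariant _ (h4 _ (by omega)) v hv
    have h6 : g * ((u * g)⁻¹ * dgm hF t * (u * g)) * g⁻¹ = u⁻¹ * dgm hF t * u := by group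
    have h2 := aU_le_aB hu
    have h7 := mul_mem (inv_mem h2) (dgm_mem hF t)
    refine ⟨_, h5, u, hu, h6, fun i => ?_⟩
    rw [h _ h5 (h6 ▸ mul_mem h7 h2), h6, dg_mul h7 h2, dg_mul (inv_mem h2) (dgm_mem hF t),
      mul_right_comm, dg_inv_mul h2, one_mul, dg_dgm]
  refine ⟨Equiv.ofBijective r (Finite.injective_iff_bijective.1 hr), fun i => ?_, key⟩
  change r i.rev = (r i).rev
  by_contra hne
  obtain ⟨y, hy⟩ := exists_gen hF
  obtain ⟨b, hb, -, -, -, h1⟩ := key ⟨_, tv_mem_TG hF (r i).rev y⟩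
  have h2 := dg_mul_rev hb i.rev
  rw [Fin.rev_rev, h1, h1, frobq_apply] at h2
  have h3 := congrArg Units.val (tv_mem_TG hF (r i).rev y (r i).rev)
  simp only [Fin.rev_rev, Units.val_mul, Units.val_pow_eq_pow_val, Units.val_one] at h2 h3
  have h4 := Units.ext (mul_right_cancel₀ (pow_ne_zero q (Units.ne_zero _)) (h2.trans h3.symm))
  simp only [tv_apply, if_neg hne, if_true, Fin.rev_rev, one_mul] at h4
  have h5 : ∀ k, 0 < k → k < q ^ 2 - 1 → y ^ k ≠ 1 := fun k a b c => by
    have := Nat.le_of_dvd a ((hy k).1 c); omega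
  have h6 : q + 2 < q ^ 2 := by nlinarith
  split_ifs at h4 with e1 e2 e2
  · exact hne (e1.trans e2.symm)
  · exact h5 (q + 1) (by omega) (by omega) (by rw [pow_succ, ← eq_inv_iff_mul_eq_one, eq_comm, inv_eq_iff_eq_inv, h4, mul_one])
  · refine h5 (q - 1) (by omega) (by omega) (mul_right_cancel (b := y) ?_)
    rw [← pow_succ, Nat.sub_add_cancel (by omega), one_mul, eq_comm, ← mul_inv_eq_one, h4]
  · exact h5 1 (by omega) (by omega) (by simpa using h4.symm)

end Cfsg.Agent.Rk3
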